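import Cfsg.Agent.H4.TnDefs
import Cfsg.Agent.H4.CharBasic

/-!
# TN-RT2 (S3805 team project, lead helper4): character values at an involution
-/

set_option autoImplicit false

namespace Cfsg.Agent.H70.Tn

open Cfsg Cfsg.Agent.H4 Cfsg.Agent.H4.Tn

universe u

theorem rt2 : StRT2.{u} := by
  intro G _ _ χ hχ x hx
  obtain ⟨n, ρ, rfl⟩ := hχ
  have hsub : eigFinset ρ x ⊆ ({1, -1} : Finset ℂ) := by
    intro μ hμ
    have h1 := eigFinset_pow_orderOf ρ hμ
    have h2 : orderOf x ∣ 2 := orderOf_dvd_of_pow_eq_one (by rw [pow_two]; exact hx)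
    obtain ⟨k, hk⟩ := h2
    have h3 : μ ^ 2 = 1 := by rw [hk, pow_mul, h1, one_pow]
    have h4 : (μ - 1) * (μ + 1) = 0 := by linear_combination h3
    rcases mul_eq_zero.mp h4 with h | h
    · simp [sub_eq_zero.mp h]
    · have : μ = -1 := by linear_combination h
      simp [this]
  have hz : ∀ μ ∈ ({1, -1} : Finset ℂ), μ ∉ eigFinset ρ x → eigMult ρ x μ = 0 := by
    intro μ _ hμ
    rw [mem_eigFinset, not_not] at hμ
    rw [eigMult, hμ, finrank_bot]
  have hne : (1 : ℂ) ≠ -1 := by norm_num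
  refine ⟨eigMult ρ x 1, eigMult ρ x (-1), ?_, ?_⟩
  · have h := character_pow ρ x 0
    rw [pow_zero] at h
    rw [h, Finset.sum_subset hsub (fun μ hμ hμ' => by rw [hz μ hμ hμ']; simp),
      Finset.sum_pair hne]
    simp
  · rw [character_eq_sum ρ x,
      Finset.sum_subset hsub (fun μ hμ hμ' => by rw [hz μ hμ hμ']; simp), Finset.sum_pair hne]
    ring

example : Cfsg.Agent.H4.Tn.StRT2.{u} := rt2

end Cfsg.Agent.H70.Tn
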