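import Cfsg.Agent.H4.TnDefs

/-!
# TN-VALS (S3805 team project, lead helper4): membership in `S₁^G`
-/

set_option autoImplicit false

namespace Cfsg.Agent.H70.Tn

open Cfsg Cfsg.Agent.H4.Tn Subgroup

universe u

theorem vals (hS : StS1.{u}) (hT : StTIT.{u}) : StVals.{u} := by
  intro G _ _ T a b u v cfg
  obtain ⟨hSN, hSinv, -, hSsq, -⟩ := hS G T a b u v cfg
  have hTIT := hT G T a b u v cfg
  have hbcl : b ∈ closure ({b, u} : Set G) := subset_closure (by simp)
  have hucl : u ∈ closure ({b, u} : Set G) := subset_closure (by simp)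
  have hb1 : b ≠ 1 := by
    intro h
    have := (cfg.indep 0 1 (by rw [pow_zero, pow_one, one_mul, h])).2
    omega
  refine ⟨⟨1, ?_⟩, ⟨1, ?_⟩, ⟨1, ?_⟩, ?_, ?_⟩
  · exact ⟨1, one_mem _, Or.inl (by group)⟩
  · exact ⟨b, hbcl, Or.inl (by group)⟩
  · exact ⟨u, hucl, Or.inl (by rw [one_mul, inv_one, mul_one, cfg.ua])⟩
  · rintro ⟨x, hx⟩
    -- `s := x b x⁻¹ ∈ S₁ ⊆ N`, a `3`-element, hence in `T`
    have hsN := hSN _ hx
    have hs3 : (x * b * x⁻¹) ^ 3 = 1 := by
      rw [conj_pow, cfg.b3]; group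
    obtain ⟨S, hST⟩ := cfg.syl
    have : Fact (Nat.Prime 3) := ⟨by norm_num⟩
    have hP : IsPGroup 3 (zpowers (x * b * x⁻¹)) := by
      rw [IsPGroup]
      rintro ⟨y, hy⟩
      refine ⟨1, ?_⟩
      obtain ⟨k, rfl⟩ := mem_zpowers_iff.mp hy
      apply Subtype.ext
      simp only [pow_one, SubmonoidClass.coe_pow, OneMemClass.coe_one]
      rw [← zpow_natCast, ← zpow_mul, mul_comm, zpow_mul, zpow_natCast, hs3, one_zpow]
    have hinf := hP.inf_normalizer_sylow S
    have hsT : x * b * x⁻¹ ∈ T := by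
      have h1 : x * b * x⁻¹ ∈ zpowers (x * b * x⁻¹) ⊓ (S : Subgroup G) := by
        rw [← hinf]
        refine ⟨mem_zpowers _, ?_⟩
        have h2 := hsN
        rw [← hST] at h2
        exact h2
      rw [hST] at h1
      exact h1.2
    have hxN : x ∈ normalizer (T : Set G) := hTIT b cfg.bT hb1 x hsT
    have hbS : b ∈ S1 a b u := by
      have := hSinv x⁻¹ (inv_mem hxN) _ hx
      have e : x⁻¹ * (x * b * x⁻¹) * x⁻¹⁻¹ = b := by group
      rwa [e] at this
    have haA : a ∈ closure ({b, u} : Set G) := by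
      obtain ⟨w, hw, h | h⟩ := hbS
      · have : a = b * w⁻¹ := by rw [h]; group
        rw [this]; exact mul_mem hbcl (inv_mem hw)
      · have : a = (b * w⁻¹)⁻¹ := by rw [h]; group
        rw [this]; exact inv_mem (mul_mem hbcl (inv_mem hw))
    have h1S : (1 : G) ∈ S1 a b u := ⟨a⁻¹, inv_mem haA, Or.inl (by group)⟩
    exact hSsq 1 h1S (by group)
  · rintro x hx ⟨y, hy⟩
    refine hSsq _ hy ?_
    have : y * x * y⁻¹ * (y * x * y⁻¹) = y * (x * x) * y⁻¹ := by group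
    rw [this, hx]; group

example (hS : Cfsg.Agent.H4.Tn.StS1.{u}) (hT : Cfsg.Agent.H4.Tn.StTIT.{u}) :
    Cfsg.Agent.H4.Tn.StVals.{u} := vals hS hT

end Cfsg.Agent.H70.Tn
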