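import Mathlib

/-!
# Miller's theorem, part 1: elementary transitivity and reduction to small supports
-/

set_option autoImplicit false

namespace Cfsg.Agent.H70.Mil

open Equiv Equiv.Perm

variable {α : Type*} [Fintype α] [DecidableEq α]

/-- Elementary `t`-transitivity of a permutation group. -/
def TT (G : Subgroup (Perm α)) (t : ℕ) : Prop :=
  ∀ a b : Fin t ↪ α, ∃ g ∈ G, ∀ i, g (a i) = b i

theorem tt_of_mp (G : Subgroup (Perm α)) (t : ℕ)
    (h : MulAction.IsMultiplyPretransitive G α t) : TT G t := by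
  intro a b
  obtain ⟨g, hg⟩ := MulAction.exists_smul_eq G a b
  refine ⟨g.1, g.2, fun i => ?_⟩
  have := congrArg (fun f : Fin t ↪ α => f i) hg
  simp only [Function.Embedding.smul_apply] at this
  exact this

theorem mp_of_tt (G : Subgroup (Perm α)) (t : ℕ) (h : TT G t) :
    MulAction.IsMultiplyPretransitive G α t := by
  constructor
  intro a b
  obtain ⟨g, hg, hgab⟩ := h a b
  refine ⟨⟨g, hg⟩, ?_⟩
  ext i
  simpa using hgab i

theorem tt_mono (G : Subgroup (Perm α)) {s t : ℕ} (hst : s ≤ t) (ht : t ≤ Fintype.card α)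
    (h : TT G t) : TT G s := by
  have := mp_of_tt G t h
  exact tt_of_mp G s (MulAction.isMultiplyPretransitive_of_le hst (by simpa using ht))

theorem alt_le_of_three (G : Subgroup (Perm α)) (h2 : TT G 2) {g : Perm α}
    (h3 : g.IsThreeCycle) (hg : g ∈ G) : alternatingGroup α ≤ G :=
  alternatingGroup_le_of_isPreprimitive_of_isThreeCycle_mem
    (MulAction.isPreprimitive_of_is_two_pretransitive (mp_of_tt G 2 h2)) h3 hg

theorem alt_le_of_swap (G : Subgroup (Perm α)) (h2 : TT G 2) {g : Perm α}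
    (hs : g.IsSwap) (hg : g ∈ G) : alternatingGroup α ≤ G := by
  rw [subgroup_eq_top_of_isPreprimitive_of_isSwap_mem
    (MulAction.isPreprimitive_of_is_two_pretransitive (mp_of_tt G 2 h2)) g hs hg]
  exact le_top

/-- A double transposition in a 4-transitive group (with a fifth point) yields a 3-cycle. -/
theorem three_of_swapswap (G : Subgroup (Perm α)) (h4 : TT G 4) {a b c d e : α}
    (hab : a ≠ b) (hac : a ≠ c) (had : a ≠ d) (hbc : b ≠ c) (hbd : b ≠ d) (hcd : c ≠ d)
    (hea : e ≠ a) (heb : e ≠ b) (hec : e ≠ c) (hed : e ≠ d)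
    (hg : swap a b * swap c d ∈ G) : ∃ g ∈ G, g.IsThreeCycle := by
  have hA : Function.Injective ![a, b, c, d] := by
    intro i j hij
    fin_cases i <;> fin_cases j <;> simp_all
  have hB : Function.Injective ![a, b, c, e] := by
    intro i j hij
    fin_cases i <;> fin_cases j <;> simp_all [eq_comm]
  obtain ⟨u, hu, huAB⟩ := h4 ⟨![a, b, c, d], hA⟩ ⟨![a, b, c, e], hB⟩
  have ha : u a = a := huAB 0
  have hb : u b = b := huAB 1
  have hc : u c = c := huAB 2
  have hd : u d = e := huAB 3
  have key : u * (swap a b * swap c d) * u⁻¹ = swap a b * swap c e := by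
    have h1 : u * (swap a b * swap c d) * u⁻¹ = (u * swap a b * u⁻¹) * (u * swap c d * u⁻¹) := by
      group
    rw [h1, ← Equiv.swap_apply_apply, ← Equiv.swap_apply_apply, ha, hb, hc, hd]
  have hmem : swap a b * swap c e ∈ G := key ▸ G.mul_mem (G.mul_mem hu hg) (G.inv_mem hu)
  have hcomm : swap a b * swap c d = swap c d * swap a b := by
    ext x
    simp only [Perm.mul_apply, swap_apply_def]
    split_ifs <;> simp_all
  refine ⟨(swap a b * swap c d) * (swap a b * swap c e), G.mul_mem hg hmem, ?_⟩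
  have : (swap a b * swap c d) * (swap a b * swap c e) = swap c d * swap c e := by
    rw [hcomm, mul_assoc, ← mul_assoc (swap a b), swap_mul_self, one_mul]
  rw [this]
  exact isThreeCycle_swap_mul_swap_same hcd (Ne.symm hec) (Ne.symm hed)

/-- Reduction: a nontrivial element of `G` supported on the range of `x : Fin r ↪ α`
yields a 3-cycle in `G`. -/
theorem three_of_supp (G : Subgroup (Perm α)) {r : ℕ} (hr : 3 ≤ r) (x : Fin r ↪ α)
    (hr' : TT G r) (h4 : TT G 4) (e : α) (he : e ∉ Set.range x)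
    (g : Perm α) (hg : g ∈ G) (hg1 : g ≠ 1) (hsupp : ∀ w, w ∉ Set.range x → g w = w) :
    ∃ h ∈ G, h.IsThreeCycle := by
  classical
  have hpres : ∀ w, w ∈ Set.range x → g w ∈ Set.range x := by
    intro w hw
    by_contra hcon
    have := hsupp _ hcon
    exact hcon (by rw [g.injective this]; exact hw)
  obtain ⟨a, ha⟩ : ∃ a, g a ≠ a := by
    by_contra hcon
    push Not at hcon
    exact hg1 (Equiv.ext hcon)
  have haR : a ∈ Set.range x := by
    by_contra hcon
    exact ha (hsupp a hcon)
  have hbR : g a ∈ Set.range x := hpres a haR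
  obtain ⟨i, hi⟩ := haR
  obtain ⟨j, hj⟩ := hbR
  have hij : i ≠ j := by
    rintro rfl
    exact ha (by rw [← hj, hi])
  obtain ⟨k, hk⟩ : ∃ k : Fin r, k ∉ ({i, j} : Finset (Fin r)) := by
    by_contra hcon
    push Not at hcon
    have h1 : (Finset.univ : Finset (Fin r)) ⊆ {i, j} := fun k _ => hcon k
    have h2 := Finset.card_le_card h1
    have h3 : ({i, j} : Finset (Fin r)).card ≤ 2 := Finset.card_le_two
    simp at h2
    omega
  simp only [Finset.mem_insert, Finset.mem_singleton, not_or] at hk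
  set b := g a with hb
  set c := x k with hc
  have hca : c ≠ a := by
    rw [hc, ← hi]
    exact fun h => hk.1 (x.injective h)
  have hcb : c ≠ b := by
    rw [hc, ← hj]
    exact fun h => hk.2 (x.injective h)
  have hab : a ≠ b := fun h => ha h.symm
  have hcR : c ∈ Set.range x := ⟨k, rfl⟩
  -- the element of G acting on the range of x as swap a c
  obtain ⟨τ, hτ, hτx⟩ := hr' x (x.trans (swap a c).toEmbedding)
  have hτx' : ∀ w ∈ Set.range x, τ w = swap a c w := by
    rintro w ⟨l, rfl⟩
    simpa using hτx l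
  set ε := (swap a c)⁻¹ * τ with hε
  have hεfix : ∀ w ∈ Set.range x, ε w = w := by
    intro w hw
    rw [hε, Perm.mul_apply, hτx' w hw]
    simp
  have hεout : ∀ w, w ∉ Set.range x → ε w ∉ Set.range x := by
    intro w hw hcon
    have := hεfix _ hcon
    exact hw (by rw [← ε.injective this]; exact hcon)
  have hcommε : ε * g = g * ε := by
    ext w
    simp only [Perm.mul_apply]
    by_cases hw : w ∈ Set.range x
    · rw [hεfix _ (hpres w hw), hεfix w hw]
    · rw [hsupp w hw, hsupp _ (hεout w hw)]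
  have hτeq : τ = swap a c * ε := by
    rw [hε, ← mul_assoc, mul_inv_cancel, one_mul]
  have hcommε' : ε * g⁻¹ = g⁻¹ * ε := by
    have := congrArg (fun t => g⁻¹ * t * g⁻¹) hcommε
    simp only [mul_assoc, mul_inv_cancel, mul_one] at this
    rw [← mul_assoc, ← mul_assoc, inv_mul_cancel, one_mul] at this
    exact this.symm
  have hkey : g * τ * g⁻¹ * τ⁻¹ = swap (g a) (g c) * swap a c := by
    have h0 : ε * g⁻¹ * ε⁻¹ = g⁻¹ := by rw [hcommε', mul_assoc, mul_inv_cancel, mul_one]
    have h1 : τ * g⁻¹ * τ⁻¹ = swap a c * g⁻¹ * (swap a c)⁻¹ := by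
      rw [hτeq]
      calc (swap a c * ε) * g⁻¹ * (swap a c * ε)⁻¹
          = swap a c * (ε * g⁻¹ * ε⁻¹) * (swap a c)⁻¹ := by group
        _ = _ := by rw [h0]
    have h2 : g * τ * g⁻¹ * τ⁻¹ = g * (τ * g⁻¹ * τ⁻¹) := by group
    rw [h2, h1, Equiv.swap_apply_apply]
    simp only [swap_inv]
    group
  have hmem : swap (g a) (g c) * swap a c ∈ G := by
    rw [← hkey]
    exact G.mul_mem (G.mul_mem (G.mul_mem hg hτ) (G.inv_mem hg)) (G.inv_mem hτ)
  have hgcb : g c ≠ b := fun h => hca (g.injective h)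
  by_cases h1 : g c = c
  · refine ⟨_, hmem, ?_⟩
    rw [h1, ← hb, swap_comm b c, swap_comm a c]
    exact isThreeCycle_swap_mul_swap_same hcb hca (Ne.symm hab)
  by_cases h2 : g c = a
  · refine ⟨_, hmem, ?_⟩
    rw [h2, ← hb, swap_comm b a]
    exact isThreeCycle_swap_mul_swap_same hab (Ne.symm hca) (Ne.symm hcb)
  · have hdR : g c ∈ Set.range x := hpres c hcR
    have haR' : a ∈ Set.range x := ⟨i, hi⟩
    have hbR' : b ∈ Set.range x := ⟨j, hj⟩
    rw [← hb] at hmem
    exact three_of_swapswap G h4 (a := b) (b := g c) (c := a) (d := c) (e := e)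
      (Ne.symm hgcb) (Ne.symm hab) (Ne.symm hcb) h2 h1 (Ne.symm hca)
      (fun h => he (h ▸ hbR')) (fun h => he (h ▸ hdR)) (fun h => he (h ▸ haR'))
      (fun h => he (h ▸ hcR)) hmem

end Cfsg.Agent.H70.Mil
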