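import Mathlib

/-!
# Miller's theorem, part 2: orbits of prime length of a `p`-group of permutations
-/

set_option autoImplicit false

namespace Cfsg.Agent.H70.Mil

open Equiv Equiv.Perm

variable {α : Type*} [Fintype α] [DecidableEq α]

/-- Fixed points of a subgroup of `Perm α`. -/
def fixQ (Q : Subgroup (Perm α)) : Set α := {x | ∀ q ∈ Q, q x = x}

/-- Orbit of a point under a subgroup of `Perm α`. -/
def orbQ (Q : Subgroup (Perm α)) (x : α) : Set α := {w | ∃ q ∈ Q, q x = w}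

omit [Fintype α] [DecidableEq α] in
theorem orbQ_eq (Q : Subgroup (Perm α)) (x : α) : orbQ Q x = MulAction.orbit ↥Q x := by
  ext w
  simp only [orbQ, Set.mem_ofPred_eq, MulAction.mem_orbit_iff]
  constructor
  · rintro ⟨q, hq, rfl⟩
    exact ⟨⟨q, hq⟩, rfl⟩
  · rintro ⟨q, rfl⟩
    exact ⟨q.1, q.2, rfl⟩

omit [Fintype α] [DecidableEq α] in
theorem self_mem_orbQ (Q : Subgroup (Perm α)) (x : α) : x ∈ orbQ Q x := ⟨1, Q.one_mem, rfl⟩

omit [Fintype α] [DecidableEq α] in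
theorem smul_mem_orbQ (Q : Subgroup (Perm α)) {x w : α} (hw : w ∈ orbQ Q x) {q : Perm α}
    (hq : q ∈ Q) : q w ∈ orbQ Q x := by
  obtain ⟨q', hq', rfl⟩ := hw
  exact ⟨q * q', Q.mul_mem hq hq', rfl⟩

omit [Fintype α] [DecidableEq α] in
theorem orbQ_subset_compl (Q : Subgroup (Perm α)) {x : α} (hx : x ∉ fixQ Q) :
    orbQ Q x ⊆ (fixQ Q)ᶜ := by
  rintro w ⟨q, hq, rfl⟩ hw
  apply hx
  have h1 := hw q⁻¹ (Q.inv_mem hq)
  have h1' : x = q x := by simpa using h1
  intro q' hq'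
  have h2 := hw q' hq'
  rw [← h1'] at h2
  exact h2

/-- A nontrivial orbit of a `p`-group whose moved points number less than `p²` has length `p`. -/
theorem ncard_orbQ (Q : Subgroup (Perm α)) (p : ℕ) [Fact p.Prime] (hQ : IsPGroup p Q)
    (hsmall : (fixQ Q)ᶜ.ncard < p ^ 2) {x : α} (hx : x ∉ fixQ Q) : (orbQ Q x).ncard = p := by
  have hp := (Fact.out : p.Prime)
  obtain ⟨e, he⟩ := hQ.card_orbit x
  rw [Nat.card_coe_set_eq, ← orbQ_eq] at he
  have hle : (orbQ Q x).ncard ≤ (fixQ Q)ᶜ.ncard :=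
    Set.ncard_le_ncard (orbQ_subset_compl Q hx) (Set.toFinite _)
  have he1 : e ≠ 0 := by
    rintro rfl
    rw [pow_zero, Set.ncard_eq_one] at he
    obtain ⟨a, ha⟩ := he
    apply hx
    intro q hq
    have h1 : x ∈ orbQ Q x := self_mem_orbQ Q x
    have h2 : q x ∈ orbQ Q x := ⟨q, hq, rfl⟩
    rw [ha, Set.mem_singleton_iff] at h1 h2
    rw [h2, h1]
  have he2 : e < 2 := by
    by_contra hcon
    push Not at hcon
    have : p ^ 2 ≤ p ^ e := Nat.pow_le_pow_right hp.pos hcon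
    omega
  have : e = 1 := by omega
  rw [he, this, pow_one]

/-- An element of `Q` fixing a point of an orbit of prime length fixes the whole orbit. -/
theorem fix_orbit (Q : Subgroup (Perm α)) (p : ℕ) [Fact p.Prime] (hQ : IsPGroup p Q)
    {x : α} (hx : (orbQ Q x).ncard = p) {u : Perm α} (hu : u ∈ Q) (hux : u x = x)
    {w : α} (hw : w ∈ orbQ Q x) : u w = w := by
  have hp := (Fact.out : p.Prime)
  obtain ⟨q, hq, rfl⟩ := hw
  have hidx : (MulAction.stabilizer ↥Q x).index = p := by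
    rw [MulAction.index_stabilizer, ← orbQ_eq, hx]
  obtain ⟨n, hn⟩ := IsPGroup.iff_card.1 hQ
  have hn0 : n ≠ 0 := by
    rintro rfl
    have := (MulAction.stabilizer ↥Q x).index_dvd_card
    rw [hidx, hn, pow_zero] at this
    exact hp.one_lt.ne' (Nat.dvd_one.1 this)
  have hnormal : (MulAction.stabilizer ↥Q x).Normal := by
    apply Subgroup.normal_of_index_eq_minFac_card
    rw [hidx, hn, hp.pow_minFac hn0]
  have hu' : (⟨u, hu⟩ : ↥Q) ∈ MulAction.stabilizer ↥Q x := by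
    rw [MulAction.mem_stabilizer_iff]
    exact hux
  have := hnormal.conj_mem _ hu' (⟨q, hq⟩ : ↥Q)⁻¹
  rw [MulAction.mem_stabilizer_iff] at this
  have h2 : q⁻¹ (u (q x)) = x := by
    simpa [Subgroup.smul_def, mul_smul] using this
  have h3 := congrArg q h2
  simpa using h3

/-- A nontrivial orbit of prime length is an orbit of any element moving one of its points. -/
theorem orbit_pow (Q : Subgroup (Perm α)) (p : ℕ) [Fact p.Prime] (hQ : IsPGroup p Q)
    {x : α} (hx : (orbQ Q x).ncard = p) {y : Perm α} (hy : y ∈ Q) (hyx : y x ≠ x)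
    {w : α} (hw : w ∈ orbQ Q x) : ∃ s : ℕ, (y ^ s) x = w := by
  have hp := (Fact.out : p.Prime)
  have hZQ : Subgroup.zpowers y ≤ Q := (Subgroup.zpowers_le).2 hy
  have hZ : IsPGroup p (Subgroup.zpowers y) := hQ.to_le hZQ
  have hsub : orbQ (Subgroup.zpowers y) x ⊆ orbQ Q x := by
    rintro w ⟨q, hq, rfl⟩
    exact ⟨q, hZQ hq, rfl⟩
  obtain ⟨e, he⟩ := hZ.card_orbit x
  rw [Nat.card_coe_set_eq, ← orbQ_eq] at he
  have hle : (orbQ (Subgroup.zpowers y) x).ncard ≤ (orbQ Q x).ncard :=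
    Set.ncard_le_ncard hsub (Set.toFinite _)
  have he1 : e ≠ 0 := by
    rintro rfl
    rw [pow_zero, Set.ncard_eq_one] at he
    obtain ⟨a, ha⟩ := he
    apply hyx
    have h1 : x ∈ orbQ (Subgroup.zpowers y) x := self_mem_orbQ _ x
    have h2 : y x ∈ orbQ (Subgroup.zpowers y) x := ⟨y, Subgroup.mem_zpowers y, rfl⟩
    rw [ha, Set.mem_singleton_iff] at h1 h2
    rw [h2, h1]
  have hge : p ≤ (orbQ (Subgroup.zpowers y) x).ncard := by
    rw [he]
    exact Nat.le_self_pow he1 p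
  have heq : orbQ (Subgroup.zpowers y) x = orbQ Q x :=
    Set.eq_of_subset_of_ncard_le hsub (by omega) (Set.toFinite _)
  rw [← heq] at hw
  obtain ⟨z, hz, rfl⟩ := hw
  rw [← (isOfFinOrder_of_finite y).mem_powers_iff_mem_zpowers] at hz
  obtain ⟨s, rfl⟩ := (Submonoid.mem_powers_iff _ _).1 hz
  exact ⟨s, rfl⟩

/-- Every element of `Q` acts on an orbit of prime length as a power of any element moving a
point of the orbit. -/
theorem act_pow (Q : Subgroup (Perm α)) (p : ℕ) [Fact p.Prime] (hQ : IsPGroup p Q)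
    {x : α} (hx : (orbQ Q x).ncard = p) {y : Perm α} (hy : y ∈ Q) (hyx : y x ≠ x)
    {q : Perm α} (hq : q ∈ Q) : ∃ i : ℕ, ∀ w ∈ orbQ Q x, q w = (y ^ i) w := by
  obtain ⟨i, hi⟩ := orbit_pow Q p hQ hx hy hyx (w := q x) ⟨q, hq, rfl⟩
  refine ⟨i, fun w hw => ?_⟩
  have hu : (y ^ i)⁻¹ * q ∈ Q := Q.mul_mem (Q.inv_mem (Q.pow_mem hy i)) hq
  have hux : ((y ^ i)⁻¹ * q) x = x := by
    rw [Perm.mul_apply, ← hi]
    simp
  have := fix_orbit Q p hQ hx hu hux hw
  rw [Perm.mul_apply, Perm.inv_eq_iff_eq] at this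
  exact this

end Cfsg.Agent.H70.Mil
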