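import Mathlib
import Cfsg.Agent.H70.Mil2

/-!
# Miller's theorem, part 3: the main lemma (kernel on orbits, second derived subgroup)
-/

set_option autoImplicit false

namespace Cfsg.Agent.H70.Mil

open Equiv Equiv.Perm

variable {α : Type*} [Fintype α] [DecidableEq α]

/-- The normalizer of `Q` in `G`. -/
def NQ (G Q : Subgroup (Perm α)) : Subgroup (Perm α) :=
  G ⊓ Subgroup.normalizer (Q : Set (Perm α))

omit [Fintype α] [DecidableEq α] in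
theorem nq_conj {G Q : Subgroup (Perm α)} {m : Perm α} (hm : m ∈ NQ G Q) {q : Perm α}
    (hq : q ∈ Q) : m * q * m⁻¹ ∈ Q :=
  (Subgroup.mem_normalizer_iff.1 hm.2 q).1 hq

omit [Fintype α] [DecidableEq α] in
theorem nq_conj' {G Q : Subgroup (Perm α)} {m : Perm α} (hm : m ∈ NQ G Q) {q : Perm α}
    (hq : q ∈ Q) : m⁻¹ * q * m ∈ Q := by
  have := nq_conj ((NQ G Q).inv_mem hm) hq
  simpa using this

omit [Fintype α] [DecidableEq α] in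
theorem nq_fix {G Q : Subgroup (Perm α)} {m : Perm α} (hm : m ∈ NQ G Q) {x : α}
    (hx : x ∈ fixQ Q) : m x ∈ fixQ Q := by
  intro q hq
  have := hx _ (nq_conj' hm hq)
  simp only [Perm.mul_apply] at this
  have h2 := congrArg m this
  simpa using h2

omit [Fintype α] [DecidableEq α] in
theorem nq_not_fix {G Q : Subgroup (Perm α)} {m : Perm α} (hm : m ∈ NQ G Q) {x : α}
    (hx : x ∉ fixQ Q) : m x ∉ fixQ Q := by
  intro h
  apply hx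
  have := nq_fix ((NQ G Q).inv_mem hm) h
  simpa using this

omit [Fintype α] [DecidableEq α] in
theorem image_orbQ {G Q : Subgroup (Perm α)} {m : Perm α} (hm : m ∈ NQ G Q) (x : α) :
    (m : α → α) '' orbQ Q x = orbQ Q (m x) := by
  ext w
  constructor
  · rintro ⟨v, ⟨q, hq, rfl⟩, rfl⟩
    exact ⟨m * q * m⁻¹, nq_conj hm hq, by simp⟩
  · rintro ⟨q, hq, rfl⟩
    exact ⟨(m⁻¹ * q * m) x, ⟨_, nq_conj' hm hq, rfl⟩, by simp⟩

omit [Fintype α] [DecidableEq α] in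
theorem orbQ_eq_of_mem (Q : Subgroup (Perm α)) {x w : α} (hw : w ∈ orbQ Q x) :
    orbQ Q w = orbQ Q x := by
  obtain ⟨q, hq, rfl⟩ := hw
  ext v
  constructor
  · rintro ⟨q', hq', rfl⟩
    exact ⟨q' * q, Q.mul_mem hq' hq, rfl⟩
  · rintro ⟨q', hq', rfl⟩
    exact ⟨q' * q⁻¹, Q.mul_mem hq' (Q.inv_mem hq), by simp⟩

/-- The fixed points of `Q`, as a set acted on by the normalizer. -/
def FS (G Q : Subgroup (Perm α)) : SubMulAction ↥(NQ G Q) α where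
  carrier := fixQ Q
  smul_mem' := fun c _ hx => nq_fix c.2 hx

/-- The action of the normalizer on the fixed points of `Q`. -/
noncomputable def rho (G Q : Subgroup (Perm α)) : ↥(NQ G Q) →* Perm ↥(FS G Q) :=
  MulAction.toPermHom ↥(NQ G Q) ↥(FS G Q)

omit [Fintype α] [DecidableEq α] in
theorem rho_apply (G Q : Subgroup (Perm α)) (m : ↥(NQ G Q)) (z : ↥(FS G Q)) :
    ((rho G Q m z : ↥(FS G Q)) : α) = m.1 z.1 := rfl

/-- The set of nontrivial orbits of `Q`. -/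
def Om (Q : Subgroup (Perm α)) : Set (Set α) := {s | ∃ x, x ∉ fixQ Q ∧ s = orbQ Q x}

/-- The action of the normalizer on the set of nontrivial orbits. -/
@[reducible] def omAct (G Q : Subgroup (Perm α)) : MulAction ↥(NQ G Q) ↥(Om Q) where
  smul m ω := ⟨(m.1 : α → α) '' ω.1, by
    obtain ⟨x, hx, hs⟩ := ω.2
    exact ⟨m.1 x, nq_not_fix m.2 hx, by rw [hs, image_orbQ m.2]⟩⟩
  one_smul ω := by
    apply Subtype.ext
    show (((1 : ↥(NQ G Q)) : Perm α) : α → α) '' ω.1 = ω.1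
    simp
  mul_smul a b ω := by
    apply Subtype.ext
    show (((a * b : ↥(NQ G Q)) : Perm α) : α → α) '' ω.1 = (a.1 : α → α) '' ((b.1 : α → α) '' ω.1)
    rw [Set.image_image]
    rfl

/-- The permutation representation on the nontrivial orbits. -/
noncomputable def psi (G Q : Subgroup (Perm α)) : ↥(NQ G Q) →* Perm ↥(Om Q) :=
  @MulAction.toPermHom ↥(NQ G Q) ↥(Om Q) _ (omAct G Q)

omit [Fintype α] [DecidableEq α] in
theorem psi_ker {G Q : Subgroup (Perm α)} {m : ↥(NQ G Q)} (hm : m ∈ (psi G Q).ker)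
    {x : α} (hx : x ∉ fixQ Q) {w : α} (hw : w ∈ orbQ Q x) : m.1 w ∈ orbQ Q x := by
  rw [MonoidHom.mem_ker] at hm
  have h1 := DFunLike.congr_fun hm (⟨orbQ Q x, x, hx, rfl⟩ : ↥(Om Q))
  have h2 : (m.1 : α → α) '' orbQ Q x = orbQ Q x := congrArg Subtype.val h1
  rw [← h2]
  exact ⟨w, hw, rfl⟩

/-- The number of nontrivial orbits. -/
theorem card_Om (Q : Subgroup (Perm α)) (p : ℕ) [Fact p.Prime] (hQ : IsPGroup p Q)
    (hsmall : (fixQ Q)ᶜ.ncard < p ^ 2) : Nat.card ↥(Om Q) * p = (fixQ Q)ᶜ.ncard := by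
  classical
  have : Fintype ↥(Om Q) := Fintype.ofFinite _
  let f : ↥(fixQ Q)ᶜ → ↥(Om Q) := fun x => ⟨orbQ Q x.1, x.1, x.2, rfl⟩
  have h1 : Nat.card ↥(fixQ Q)ᶜ = Nat.card (Σ ω : ↥(Om Q), {x // f x = ω}) :=
    Nat.card_congr (Equiv.sigmaFiberEquiv f).symm
  have h2 : ∀ ω : ↥(Om Q), Nat.card {x // f x = ω} = p := by
    rintro ⟨s, x₀, hx₀, rfl⟩
    rw [← ncard_orbQ Q p hQ hsmall hx₀, ← Nat.card_coe_set_eq]
    apply Nat.card_congr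
    exact
      { toFun := fun x => ⟨x.1.1, by
          have this : orbQ Q x.1.1 = orbQ Q x₀ := congrArg Subtype.val x.2
          have h := self_mem_orbQ Q x.1.1
          rw [this] at h
          exact h⟩
        invFun := fun w => ⟨⟨w.1, orbQ_subset_compl Q hx₀ w.2⟩,
          Subtype.ext (orbQ_eq_of_mem Q w.2)⟩
        left_inv := fun x => rfl
        right_inv := fun w => rfl }
  rw [← Nat.card_coe_set_eq, h1, Nat.card_sigma, Finset.sum_congr rfl (fun ω _ => h2 ω)]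
  simp [Nat.card_eq_fintype_card]

/-- Elements acting on every nontrivial orbit as an element of `Q`. -/
def SQ (G Q : Subgroup (Perm α)) : Subgroup ↥(NQ G Q) where
  carrier := {m | ∀ x, x ∉ fixQ Q → ∃ q ∈ Q, ∀ w ∈ orbQ Q x, m.1 w = q w}
  one_mem' := fun _ _ => ⟨1, Q.one_mem, fun _ _ => rfl⟩
  mul_mem' := by
    intro a b ha hb x hx
    obtain ⟨q1, hq1, h1⟩ := ha x hx
    obtain ⟨q2, hq2, h2⟩ := hb x hx
    refine ⟨q1 * q2, Q.mul_mem hq1 hq2, fun w hw => ?_⟩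
    show a.1 (b.1 w) = q1 (q2 w)
    rw [h2 w hw, h1 _ (smul_mem_orbQ Q hw hq2)]
  inv_mem' := by
    intro a ha x hx
    obtain ⟨q1, hq1, h1⟩ := ha x hx
    refine ⟨q1⁻¹, Q.inv_mem hq1, fun w hw => ?_⟩
    have := h1 (q1⁻¹ w) (smul_mem_orbQ Q hw (Q.inv_mem hq1))
    show (a.1)⁻¹ w = q1⁻¹ w
    rw [Perm.inv_eq_iff_eq, this]
    simp

/-- Elements fixing every point moved by `Q`. -/
def TQ (G Q : Subgroup (Perm α)) : Subgroup ↥(NQ G Q) where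
  carrier := {m | ∀ x, x ∉ fixQ Q → m.1 x = x}
  one_mem' := fun _ _ => rfl
  mul_mem' := by
    intro a b ha hb x hx
    show a.1 (b.1 x) = x
    rw [hb x hx, ha x hx]
  inv_mem' := by
    intro a ha x hx
    show (a.1)⁻¹ x = x
    rw [Perm.inv_eq_iff_eq, ha x hx]

/-- The core computation: a commutator of two elements normalizing `Q` and preserving an orbit of
prime length acts on that orbit as an element of `Q`. -/
theorem agl_core (Q : Subgroup (Perm α)) (p : ℕ) [Fact p.Prime] (hQ : IsPGroup p Q)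
    {x : α} (hx : (orbQ Q x).ncard = p) (hx' : x ∉ fixQ Q) (n₁ n₂ : Perm α)
    (hn₁ : ∀ q ∈ Q, n₁ * q * n₁⁻¹ ∈ Q) (hn₂ : ∀ q ∈ Q, n₂ * q * n₂⁻¹ ∈ Q)
    (hO₁ : ∀ w ∈ orbQ Q x, n₁ w ∈ orbQ Q x) (hO₂ : ∀ w ∈ orbQ Q x, n₂ w ∈ orbQ Q x)
    (hOinv : ∀ w ∈ orbQ Q x, (n₂ * n₁)⁻¹ w ∈ orbQ Q x) :
    ∃ q ∈ Q, ∀ w ∈ orbQ Q x, ((n₂ * n₁)⁻¹ * (n₁ * n₂)) w = q w := by
  obtain ⟨y, hy, hyx⟩ : ∃ y ∈ Q, y x ≠ x := by
    by_contra hcon
    push Not at hcon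
    exact hx' hcon
  have hypow : ∀ (s : ℕ) (w : α), w ∈ orbQ Q x → (y ^ s) w ∈ orbQ Q x :=
    fun s w hw => smul_mem_orbQ Q hw (Q.pow_mem hy s)
  -- (G2)
  have G2 : ∀ n : Perm α, (∀ q ∈ Q, n * q * n⁻¹ ∈ Q) → (∀ w ∈ orbQ Q x, n w ∈ orbQ Q x) →
      ∃ a : ℕ, ∀ (b : ℕ) (w : α), w ∈ orbQ Q x → n ((y ^ b) w) = (y ^ (a * b)) (n w) := by
    intro n hn hO
    obtain ⟨a, ha⟩ := act_pow Q p hQ hx hy hyx (hn y hy)
    have h1 : ∀ w ∈ orbQ Q x, n (y w) = (y ^ a) (n w) := by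
      intro w hw
      have := ha (n w) (hO w hw)
      simpa using this
    refine ⟨a, fun b => ?_⟩
    induction b with
    | zero => intro w _; simp
    | succ b ih =>
      intro w hw
      have e1 : (y ^ (b + 1)) w = y ((y ^ b) w) := by
        rw [pow_succ', Perm.mul_apply]
      rw [e1, h1 _ (hypow b w hw), ih w hw, ← Perm.mul_apply, ← pow_add]
      congr 2
      ring
  obtain ⟨a₁, h₁⟩ := G2 n₁ hn₁ hO₁
  obtain ⟨a₂, h₂⟩ := G2 n₂ hn₂ hO₂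
  have hA : ∀ w ∈ orbQ Q x, (n₁ * n₂) (y w) = (y ^ (a₁ * a₂)) ((n₁ * n₂) w) := by
    intro w hw
    have e := h₂ 1 w hw
    rw [pow_one, mul_one] at e
    rw [Perm.mul_apply, e, h₁ a₂ _ (hO₂ w hw), Perm.mul_apply]
  have hB : ∀ w ∈ orbQ Q x, (n₂ * n₁) (y w) = (y ^ (a₁ * a₂)) ((n₂ * n₁) w) := by
    intro w hw
    have e := h₁ 1 w hw
    rw [pow_one, mul_one] at e
    rw [Perm.mul_apply, e, h₂ a₁ _ (hO₁ w hw), Perm.mul_apply, mul_comm a₂ a₁]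
  set c := (n₂ * n₁)⁻¹ * (n₁ * n₂) with hc
  have hcO : ∀ w ∈ orbQ Q x, c w ∈ orbQ Q x := by
    intro w hw
    rw [hc, Perm.mul_apply]
    exact hOinv _ (by rw [Perm.mul_apply]; exact hO₁ _ (hO₂ w hw))
  have hcc : ∀ w, (n₂ * n₁) (c w) = (n₁ * n₂) w := by
    intro w
    rw [hc]
    simp
  have hC : ∀ w ∈ orbQ Q x, c (y w) = y (c w) := by
    intro w hw
    apply (n₂ * n₁).injective
    rw [hcc, hA w hw, hB _ (hcO w hw), hcc]
  have hD : ∀ (s : ℕ) (w : α), w ∈ orbQ Q x → c ((y ^ s) w) = (y ^ s) (c w) := by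
    intro s
    induction s with
    | zero => intro w _; simp
    | succ s ih =>
      intro w hw
      have e1 : ∀ v, (y ^ (s + 1)) v = y ((y ^ s) v) := by
        intro v
        rw [pow_succ', Perm.mul_apply]
      rw [e1, hC _ (hypow s w hw), ih w hw, e1]
  obtain ⟨t, ht⟩ := orbit_pow Q p hQ hx hy hyx (hcO x (self_mem_orbQ Q x))
  refine ⟨y ^ t, Q.pow_mem hy t, fun w hw => ?_⟩
  obtain ⟨s, rfl⟩ := orbit_pow Q p hQ hx hy hyx hw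
  rw [hD s x (self_mem_orbQ Q x), ← ht, ← Perm.mul_apply, ← Perm.mul_apply, pow_mul_comm]

/-- The action of `Q` on an orbit of prime length is commutative. -/
theorem comm_on_orbit (Q : Subgroup (Perm α)) (p : ℕ) [Fact p.Prime] (hQ : IsPGroup p Q)
    {x : α} (hx : (orbQ Q x).ncard = p) (hx' : x ∉ fixQ Q) {q q' : Perm α} (hq : q ∈ Q)
    (hq' : q' ∈ Q) {v : α} (hv : v ∈ orbQ Q x) : q (q' v) = q' (q v) := by
  obtain ⟨y, hy, hyx⟩ : ∃ y ∈ Q, y x ≠ x := by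
    by_contra hcon
    push Not at hcon
    exact hx' hcon
  obtain ⟨i, hi⟩ := act_pow Q p hQ hx hy hyx hq
  obtain ⟨j, hj⟩ := act_pow Q p hQ hx hy hyx hq'
  rw [hj v hv, hi _ (smul_mem_orbQ Q hv (Q.pow_mem hy j)), hi v hv,
    hj _ (smul_mem_orbQ Q hv (Q.pow_mem hy i)), ← Perm.mul_apply, ← Perm.mul_apply, pow_mul_comm]

theorem comm_ker_le_SQ (G Q : Subgroup (Perm α)) (p : ℕ) [Fact p.Prime] (hQ : IsPGroup p Q)
    (hsmall : (fixQ Q)ᶜ.ncard < p ^ 2) :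
    ⁅(psi G Q).ker, (psi G Q).ker⁆ ≤ SQ G Q := by
  rw [Subgroup.commutator_le]
  intro m₁ hm₁ m₂ hm₂
  rw [commutatorElement_def]
  intro x hx
  have hxp := ncard_orbQ Q p hQ hsmall hx
  have hi₁ := (psi G Q).ker.inv_mem hm₁
  have hi₂ := (psi G Q).ker.inv_mem hm₂
  have hmul : (m₂⁻¹ * m₁⁻¹)⁻¹ ∈ (psi G Q).ker :=
    (psi G Q).ker.inv_mem ((psi G Q).ker.mul_mem hi₂ hi₁)
  obtain ⟨q, hq, hqw⟩ := agl_core Q p hQ hxp hx (m₁⁻¹).1 (m₂⁻¹).1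
    (fun q hq => nq_conj (m₁⁻¹).2 hq) (fun q hq => nq_conj (m₂⁻¹).2 hq)
    (fun w hw => psi_ker hi₁ hx hw) (fun w hw => psi_ker hi₂ hx hw)
    (fun w hw => psi_ker hmul hx hw)
  refine ⟨q, hq, fun w hw => ?_⟩
  rw [← hqw w hw]
  have : (m₁ * m₂ * m₁⁻¹ * m₂⁻¹ : ↥(NQ G Q)).1
      = ((m₂⁻¹).1 * (m₁⁻¹).1)⁻¹ * ((m₁⁻¹).1 * (m₂⁻¹).1) := by
    simp only [Subgroup.coe_mul, Subgroup.coe_inv]
    group
  rw [this]

theorem comm_SQ_le_TQ (G Q : Subgroup (Perm α)) (p : ℕ) [Fact p.Prime] (hQ : IsPGroup p Q)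
    (hsmall : (fixQ Q)ᶜ.ncard < p ^ 2) :
    ⁅SQ G Q, SQ G Q⁆ ≤ TQ G Q := by
  rw [Subgroup.commutator_le]
  intro c₁ hc₁ c₂ hc₂
  rw [commutatorElement_def]
  intro x hx
  have hxp := ncard_orbQ Q p hQ hsmall hx
  obtain ⟨q₁, hq₁, h₁⟩ := hc₁ x hx
  obtain ⟨q₂, hq₂, h₂⟩ := hc₂ x hx
  obtain ⟨q₁', hq₁', h₁'⟩ := (SQ G Q).inv_mem hc₁ x hx
  obtain ⟨q₂', hq₂', h₂'⟩ := (SQ G Q).inv_mem hc₂ x hx
  have hxO := self_mem_orbQ Q x
  have e1 : (c₁ * c₂ * c₁⁻¹ * c₂⁻¹ : ↥(NQ G Q)).1 x = c₁.1 (c₂.1 ((c₁⁻¹).1 ((c₂⁻¹).1 x))) := by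
    rfl
  have hO1 : q₂' x ∈ orbQ Q x := smul_mem_orbQ Q hxO hq₂'
  have hO2 : q₁' (q₂' x) ∈ orbQ Q x := smul_mem_orbQ Q hO1 hq₁'
  have hO3 : q₂ (q₁' (q₂' x)) ∈ orbQ Q x := smul_mem_orbQ Q hO2 hq₂
  have hO4 : q₂ (q₂' x) ∈ orbQ Q x := smul_mem_orbQ Q hO1 hq₂
  show (c₁ * c₂ * c₁⁻¹ * c₂⁻¹ : ↥(NQ G Q)).1 x = x
  rw [e1, h₂' x hxO, h₁' _ hO1, h₂ _ hO2, h₁ _ hO3, comm_on_orbit Q p hQ hxp hx hq₂ hq₁' hO1]
  -- q₁ (q₁' (q₂ (q₂' x))) = x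
  have e2 : q₂ (q₂' x) = x := by
    have := h₂ _ hO1
    rw [← this, ← h₂' x hxO]
    show c₂.1 ((c₂.1)⁻¹ x) = x
    simp
  rw [e2]
  have := h₁ _ (smul_mem_orbQ Q hxO hq₁')
  rw [← this, ← h₁' x hxO]
  show c₁.1 ((c₁.1)⁻¹ x) = x
  simp

end Cfsg.Agent.H70.Mil
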