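import Mathlib
import Cfsg.Agent.H70.Mil3

/-!
# Miller's theorem, part 4: the main lemma
-/

set_option autoImplicit false

namespace Cfsg.Agent.H70.Mil

open Equiv Equiv.Perm

variable {α : Type*} [Fintype α] [DecidableEq α]

/-- Main lemma: if the normalizer of the `p`-group `Q` induces at least the alternating group on
the fixed points of `Q`, and `Q` has few orbits of length `p` outside, then `G` contains a
3-cycle. -/
theorem ml (G Q : Subgroup (Perm α)) (p : ℕ) [Fact p.Prime] (hQ : IsPGroup p Q)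
    (hsmall : (fixQ Q)ᶜ.ncard < p ^ 2)
    [Fintype ↥(FS G Q)] [DecidableEq ↥(FS G Q)]
    (h5 : 5 ≤ Nat.card ↥(FS G Q))
    (hA : alternatingGroup ↥(FS G Q) ≤ (rho G Q).range)
    (hcount : 2 * ((fixQ Q)ᶜ.ncard / p).factorial < (Nat.card ↥(FS G Q)).factorial) :
    ∃ g ∈ G, g.IsThreeCycle := by
  classical
  have hp := (Fact.out : p.Prime)
  set A := alternatingGroup ↥(FS G Q) with hAdef
  set M₁ := (psi G Q).ker with hM₁
  have hsimple : IsSimpleGroup ↥A := alternatingGroup.isSimpleGroup h5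
  have hcardOm : Nat.card ↥(Om Q) = (fixQ Q)ᶜ.ncard / p := by
    have := card_Om Q p hQ hsmall
    rw [← this, Nat.mul_div_cancel _ hp.pos]
  have step2 : A ≤ M₁.map (rho G Q) := by
    set N := (M₁.map (rho G Q)).subgroupOf A with hN
    have hNn : N.Normal := by
      constructor
      intro n hn a
      rw [hN, Subgroup.mem_subgroupOf] at hn ⊢
      obtain ⟨m₁, hm₁, hm₁n⟩ := hn
      obtain ⟨m₀, hm₀⟩ := hA a.2
      refine ⟨m₀ * m₁ * m₀⁻¹, (inferInstance : M₁.Normal).conj_mem m₁ hm₁ m₀, ?_⟩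
      simp only [map_mul, map_inv, hm₁n, hm₀]
      rfl
    rcases hNn.eq_bot_or_eq_top with hbot | htop
    · exfalso
      have hchoose : ∀ a : ↥A, ∃ m : ↥(NQ G Q), rho G Q m = a.1 := fun a => hA a.2
      choose mf hmf using hchoose
      have hinj : Function.Injective (fun a : ↥A => psi G Q (mf a)) := by
        intro a b hab
        simp only at hab
        have h1 : (mf a)⁻¹ * mf b ∈ M₁ := by
          rw [hM₁, MonoidHom.mem_ker, map_mul, map_inv, hab, inv_mul_cancel]
        have h2 : (a⁻¹ * b) ∈ N := by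
          rw [hN, Subgroup.mem_subgroupOf]
          refine ⟨_, h1, ?_⟩
          simp only [map_mul, map_inv, hmf]
          rfl
        rw [hbot, Subgroup.mem_bot] at h2
        exact inv_mul_eq_one.1 h2
      have hle := Nat.card_le_card_of_injective _ hinj
      rw [Nat.card_perm, hcardOm] at hle
      have h2A : 2 * Nat.card ↥A = (Nat.card ↥(FS G Q)).factorial := by
        have : Nontrivial ↥(FS G Q) := by
          rw [← Finite.one_lt_card_iff_nontrivial]
          omega
        rw [hAdef, two_mul_nat_card_alternatingGroup, Nat.card_perm]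
      omega
    · rw [hN] at htop
      exact Subgroup.subgroupOf_eq_top.1 htop
  have hperf : ⁅A, A⁆ = A := commutator_alternatingGroup_eq_self h5
  have step3a : A ≤ (⁅M₁, M₁⁆).map (rho G Q) := by
    rw [Subgroup.map_commutator]
    calc A = ⁅A, A⁆ := hperf.symm
      _ ≤ _ := Subgroup.commutator_mono step2 step2
  have step3 : A ≤ (⁅⁅M₁, M₁⁆, ⁅M₁, M₁⁆⁆).map (rho G Q) := by
    rw [Subgroup.map_commutator]
    calc A = ⁅A, A⁆ := hperf.symm
      _ ≤ _ := Subgroup.commutator_mono step3a step3a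
  have step4 : ⁅⁅M₁, M₁⁆, ⁅M₁, M₁⁆⁆ ≤ TQ G Q :=
    (Subgroup.commutator_mono (comm_ker_le_SQ G Q p hQ hsmall)
      (comm_ker_le_SQ G Q p hQ hsmall)).trans (comm_SQ_le_TQ G Q p hQ hsmall)
  obtain ⟨a, b, c, hab, hac, hbc⟩ : ∃ a b c : ↥(FS G Q), a ≠ b ∧ a ≠ c ∧ b ≠ c := by
    apply Fintype.two_lt_card_iff.1
    rw [← Nat.card_eq_fintype_card]
    omega
  have h3 : (swap a b * swap a c).IsThreeCycle := isThreeCycle_swap_mul_swap_same hab hac hbc
  obtain ⟨m, hmD, hmσ⟩ := step3 h3.mem_alternatingGroup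
  have hmT := step4 hmD
  refine ⟨m.1, m.2.1, ?_⟩
  have heq : m.1 = ofSubtype (swap a b * swap a c) := by
    ext x
    by_cases hx : x ∈ FS G Q
    · rw [ofSubtype_apply_of_mem _ hx, ← hmσ]
      rfl
    · rw [ofSubtype_apply_of_not_mem _ hx]
      exact hmT x hx
  rw [heq]
  have h3' := h3
  unfold IsThreeCycle at h3' ⊢
  rw [cycleType_ofSubtype]
  convert h3'

end Cfsg.Agent.H70.Mil
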