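import Mathlib
import Cfsg.Agent.S4219
import Cfsg.Agent.H70.Mil1
import Cfsg.Agent.H70.Mil4

/-!
# Miller's theorem, part 5: Sylow subgroups of tuple stabilizers, Witt's lemma, and Case A
-/

set_option autoImplicit false

namespace Cfsg.Agent.H70.Mil

open Equiv Equiv.Perm

universe u

variable {α : Type u} [Fintype α] [DecidableEq α]

theorem two_fact_lt {j N : ℕ} (h : j + 1 ≤ N) (h3 : 3 ≤ N) :
    2 * j.factorial < N.factorial := by
  obtain ⟨M, rfl⟩ : ∃ M, N = M + 1 := ⟨N - 1, by omega⟩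
  rw [Nat.factorial_succ]
  have h1 : j.factorial ≤ M.factorial := Nat.factorial_le (by omega)
  have h2 : 0 < j.factorial := Nat.factorial_pos j
  nlinarith

/-- The image in `Perm α` of a Sylow subgroup of the stabilizer of a tuple. -/
def QS (G : Subgroup (Perm α)) {t : ℕ} (x : Fin t ↪ α) (p : ℕ) [Fact p.Prime]
    (P : Sylow p (MulAction.stabilizer ↥G x)) : Subgroup (Perm α) :=
  ((P : Subgroup (MulAction.stabilizer ↥G x)).map
    (MulAction.stabilizer ↥G x).subtype).map G.subtype

omit [DecidableEq α] in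
theorem QS_le (G : Subgroup (Perm α)) {t : ℕ} (x : Fin t ↪ α) (p : ℕ) [Fact p.Prime]
    (P : Sylow p (MulAction.stabilizer ↥G x)) : QS G x p P ≤ G := by
  rintro q ⟨q', _, rfl⟩
  exact q'.2

omit [DecidableEq α] in
theorem QS_pgroup (G : Subgroup (Perm α)) {t : ℕ} (x : Fin t ↪ α) (p : ℕ) [Fact p.Prime]
    (P : Sylow p (MulAction.stabilizer ↥G x)) : IsPGroup p ↥(QS G x p P) :=
  (P.isPGroup'.map _).map _

omit [DecidableEq α] in
theorem QS_fix (G : Subgroup (Perm α)) {t : ℕ} (x : Fin t ↪ α) (p : ℕ) [Fact p.Prime]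
    (P : Sylow p (MulAction.stabilizer ↥G x)) (i : Fin t) : x i ∈ fixQ (QS G x p P) := by
  rintro q ⟨q', ⟨q'', _, rfl⟩, rfl⟩
  have := q''.2
  rw [MulAction.mem_stabilizer_iff] at this
  have h := congrArg (fun f : Fin t ↪ α => f i) this
  exact h

omit [DecidableEq α] in
theorem QS_card (G : Subgroup (Perm α)) {t : ℕ} (x : Fin t ↪ α) (p : ℕ) [Fact p.Prime]
    (P : Sylow p (MulAction.stabilizer ↥G x)) :
    Nat.card ↥(QS G x p P) = p ^ (Nat.card (MulAction.stabilizer ↥G x)).factorization p := by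
  rw [QS, Subgroup.card_map_of_injective (Subgroup.subtype_injective _),
    Subgroup.card_map_of_injective (Subgroup.subtype_injective _)]
  exact P.card_eq_multiplicity

/-- Witt's lemma in the present language. -/
theorem QS_witt (G : Subgroup (Perm α)) {t : ℕ} (x : Fin t ↪ α) (p : ℕ) [Fact p.Prime]
    (P : Sylow p (MulAction.stabilizer ↥G x))
    (hG : MulAction.IsMultiplyPretransitive ↥G α t) (a b : Fin t ↪ α)
    (ha : ∀ i, a i ∈ fixQ (QS G x p P)) (hb : ∀ i, b i ∈ fixQ (QS G x p P)) :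
    ∃ m ∈ NQ G (QS G x p P), ∀ i, m (a i) = b i := by
  set P' : Subgroup ↥G := (P : Subgroup (MulAction.stabilizer ↥G x)).map
    (MulAction.stabilizer ↥G x).subtype with hP'
  have hQ : QS G x p P = P'.map G.subtype := rfl
  have ha' : ∀ i, a i ∈ MulAction.fixedPoints P' α := by
    intro i m
    exact ha i m.1.1 ⟨m.1, m.2, rfl⟩
  have hb' : ∀ i, b i ∈ MulAction.fixedPoints P' α := by
    intro i m
    exact hb i m.1.1 ⟨m.1, m.2, rfl⟩
  obtain ⟨g, hg, hgab⟩ := Cfsg.Agent.S4219.result hG x P a b ha' hb'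
  rw [Subgroup.mem_normalizer_iff] at hg
  refine ⟨g.1, Subgroup.mem_inf.2 ⟨g.2, ?_⟩, fun i => ?_⟩
  · rw [Subgroup.mem_normalizer_iff]
    intro h
    rw [hQ]
    constructor
    · rintro ⟨h', hh', rfl⟩
      exact ⟨g * h' * g⁻¹, (hg h').1 hh', rfl⟩
    · rintro ⟨k, hk, hkh⟩
      have e : g * (g⁻¹ * k * g) * g⁻¹ = k := by group
      refine ⟨g⁻¹ * k * g, (hg _).2 (by rw [e]; exact hk), ?_⟩
      simp only [Subgroup.coe_subtype, Subgroup.coe_mul, Subgroup.coe_inv] at hkh ⊢
      rw [hkh]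
      group
  · have := congrArg (fun f : Fin t ↪ α => f i) hgab
    exact this

/-- Case A: the Sylow `p`-subgroup of the stabilizer of `r + 1` points is nontrivial. -/
theorem caseA (G : Subgroup (Perm α)) (p k r : ℕ) [Fact p.Prime]
    (hn : Fintype.card α = k * p + r) (hkp : k < p) (hkr : k < r) (hr : 3 ≤ r)
    (hG : MulAction.IsMultiplyPretransitive ↥G α (r + 1))
    (IH : ∀ i, i < k → 1 ≤ i → ∀ (β : Type u) [Fintype β] [DecidableEq β]
        (G' : Subgroup (Perm β)), Fintype.card β = i * p + r →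
        MulAction.IsMultiplyPretransitive ↥G' β (r + 1) → alternatingGroup β ≤ G')
    (x : Fin (r + 1) ↪ α) (P : Sylow p (MulAction.stabilizer ↥G x))
    (hdvd : p ∣ Nat.card (MulAction.stabilizer ↥G x)) : ∃ g ∈ G, g.IsThreeCycle := by
  classical
  have hp := (Fact.out : p.Prime)
  set Q := QS G x p P with hQdef
  have hQ : IsPGroup p ↥Q := QS_pgroup G x p P
  have hrange : Set.range x ⊆ fixQ Q := by
    rintro _ ⟨i, rfl⟩
    exact QS_fix G x p P i
  have hF1 : r + 1 ≤ (fixQ Q).ncard := by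
    have := Set.ncard_le_ncard hrange (Set.toFinite _)
    rw [Set.ncard_range_of_injective x.injective] at this
    simpa using this
  have hcompl : (fixQ Q)ᶜ.ncard + (fixQ Q).ncard = k * p + r := by
    rw [Set.ncard_compl_add_ncard, Nat.card_eq_fintype_card, hn]
  have hkp2 : k * p < p ^ 2 := by
    rw [pow_two]
    exact Nat.mul_lt_mul_of_pos_right hkp hp.pos
  have hsmall : (fixQ Q)ᶜ.ncard < p ^ 2 := by omega
  -- Q is nontrivial
  have hQcard : p ≤ Nat.card ↥Q := by
    rw [hQdef, QS_card]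
    have h1 : 0 < (Nat.card (MulAction.stabilizer ↥G x)).factorization p :=
      hp.factorization_pos_of_dvd Nat.card_pos.ne' hdvd
    exact Nat.le_self_pow h1.ne' p
  have hne : 1 ≤ (fixQ Q)ᶜ.ncard := by
    rw [Nat.one_le_iff_ne_zero, Ne, Set.ncard_eq_zero]
    intro hempty
    have hall : ∀ q ∈ Q, q = 1 := by
      intro q hq
      ext z
      have hz : z ∈ fixQ Q := by
        by_contra hz
        have : z ∈ (fixQ Q)ᶜ := hz
        rw [hempty] at this
        exact this
      exact hz q hq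
    have : Nat.card ↥Q ≤ 1 := by
      rw [Finite.card_le_one_iff_subsingleton]
      constructor
      intro a b
      apply Subtype.ext
      rw [hall a.1 a.2, hall b.1 b.2]
    have := hp.two_le
    omega
  have hOm := card_Om Q p hQ hsmall
  set j := Nat.card ↥(Om Q) with hj
  have hj1 : 1 ≤ j := by
    rcases Nat.eq_zero_or_pos j with h0 | h0
    · rw [h0, zero_mul] at hOm
      omega
    · exact h0
  have hjk : j < k := by
    by_contra hcon
    push Not at hcon
    have : k * p ≤ j * p := Nat.mul_le_mul_right p hcon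
    omega
  have hFcard : (fixQ Q).ncard = (k - j) * p + r := by
    have : (k - j) * p = k * p - j * p := Nat.sub_mul k j p
    have h2 : j * p ≤ k * p := Nat.mul_le_mul_right p hjk.le
    omega
  have hβcard : Nat.card ↥(FS G Q) = (k - j) * p + r := by
    rw [← hFcard]
    exact Nat.card_coe_set_eq (fixQ Q)
  -- the induced group on the fixed points
  have hG' : MulAction.IsMultiplyPretransitive ↥(rho G Q).range ↥(FS G Q) (r + 1) := by
    apply mp_of_tt
    intro a' b'
    obtain ⟨m, hm, hmab⟩ := QS_witt G x p P hG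
      (a'.trans (Function.Embedding.subtype _)) (b'.trans (Function.Embedding.subtype _))
      (fun i => (a' i).2) (fun i => (b' i).2)
    refine ⟨rho G Q ⟨m, hm⟩, ⟨⟨m, hm⟩, rfl⟩, fun i => ?_⟩
    apply Subtype.ext
    exact hmab i
  have hi1 : 1 ≤ k - j := by omega
  have hA : alternatingGroup ↥(FS G Q) ≤ (rho G Q).range :=
    IH (k - j) (by omega) hi1 ↥(FS G Q) (rho G Q).range
      (by rw [← Nat.card_eq_fintype_card, hβcard]) hG'
  have h2p := hp.two_le
  have hip : 2 ≤ (k - j) * p := by nlinarith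
  have h5 : 5 ≤ Nat.card ↥(FS G Q) := by omega
  have hdiv : (fixQ Q)ᶜ.ncard / p = j := by
    rw [← hOm, Nat.mul_div_cancel _ hp.pos]
  exact ml G Q p hQ hsmall h5 hA (by
    rw [hdiv, hβcard]
    exact two_fact_lt (by omega) (by omega))

end Cfsg.Agent.H70.Mil
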