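import Mathlib
import Cfsg.Agent.H70.Mil5

/-!
# Miller's theorem, part 6: Case B (the stabilizer of `r + 1` points is a `p'`-group)
-/

set_option autoImplicit false

namespace Cfsg.Agent.H70.Mil

open Equiv Equiv.Perm

universe u

variable {α : Type u} [Fintype α] [DecidableEq α]

/-- A finite group containing a nontrivial element of `p`-power order has order divisible
by `p`. -/
theorem p_dvd_card_of_mem {H : Type*} [Group H] [Finite H] (p : ℕ) [Fact p.Prime] (s : H)
    (e : ℕ) (hs : s ^ p ^ e = 1) (hs1 : s ≠ 1) : p ∣ Nat.card H := by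
  have hp := (Fact.out : p.Prime)
  obtain ⟨j, _, hord⟩ := (Nat.dvd_prime_pow hp).1 (orderOf_dvd_of_pow_eq_one hs)
  have hj0 : j ≠ 0 := by
    rintro rfl
    rw [pow_zero, orderOf_eq_one_iff] at hord
    exact hs1 hord
  have : p ∣ orderOf s := by
    rw [hord]
    exact dvd_pow_self p hj0
  exact this.trans (orderOf_dvd_natCard s)

omit [DecidableEq α] in
theorem ncard_compl_range (p k r : ℕ) (hn : Fintype.card α = k * p + r) (x : Fin r ↪ α) :
    (Set.range x)ᶜ.ncard = k * p := by
  have h1 := Set.ncard_compl_add_ncard (Set.range x)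
  rw [Set.ncard_range_of_injective x.injective, Nat.card_eq_fintype_card,
    Nat.card_eq_fintype_card, Fintype.card_fin, hn] at h1
  omega

/-- Case B: construction of a subgroup `Q` of order `p` fixing exactly `r` points, with Witt's
property. -/
theorem caseB_setup (G : Subgroup (Perm α)) (p k r : ℕ) [Fact p.Prime]
    (hn : Fintype.card α = k * p + r) (hk : 1 ≤ k) (hkp : k < p)
    (hG : MulAction.IsMultiplyPretransitive ↥G α (r + 1))
    (x' : Fin (r + 1) ↪ α) (hnd : ¬ p ∣ Nat.card (MulAction.stabilizer ↥G x')) :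
    ∃ (x : Fin r ↪ α) (Q : Subgroup (Perm α)), Q ≤ G ∧ IsPGroup p ↥Q ∧
      fixQ Q = Set.range x ∧ Nat.card ↥Q = p ∧
      ∀ a b : Fin r ↪ α, (∀ i, a i ∈ fixQ Q) → (∀ i, b i ∈ fixQ Q) →
        ∃ m ∈ NQ G Q, ∀ i, m (a i) = b i := by
  classical
  have hp := (Fact.out : p.Prime)
  have h2p := hp.two_le
  have hkp1 : 2 ≤ k * p := by nlinarith
  have hcard : r + 1 ≤ Fintype.card α := by omega
  have hTT : TT G (r + 1) := tt_of_mp G (r + 1) hG
  have hGr : MulAction.IsMultiplyPretransitive ↥G α r :=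
    MulAction.isMultiplyPretransitive_of_le (n := r + 1) (Nat.le_succ r) (by simpa using hcard)
  set x : Fin r ↪ α := Fin.Embedding.init x' with hx
  have hxi : ∀ i : Fin r, x i = x' i.castSucc := fun i => rfl
  set γ₀ := x' (Fin.last r) with hγ₀
  have hγ₀x : γ₀ ∉ Set.range x := by
    rintro ⟨i, hi⟩
    rw [hxi] at hi
    exact (Fin.castSucc_lt_last i).ne (x'.injective hi)
  let P : Sylow p (MulAction.stabilizer ↥G x) := default
  set Q := QS G x p P with hQdef
  have hQ : IsPGroup p ↥Q := QS_pgroup G x p P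
  have hQG : Q ≤ G := QS_le G x p P
  have hQfix : ∀ i, x i ∈ fixQ Q := QS_fix G x p P
  -- semiregularity
  have hsemi : ∀ u ∈ Q, ∀ w, w ∉ Set.range x → u w = w → u = 1 := by
    intro u hu w hw huw
    by_contra hu1
    obtain ⟨g, hg, hgy⟩ := hTT (Fin.Embedding.snoc x hw) x'
    have hgx : ∀ i : Fin r, g (x i) = x' i.castSucc := by
      intro i
      have := hgy i.castSucc
      rwa [Fin.Embedding.snoc_castSucc] at this
    have hgw : g w = x' (Fin.last r) := by
      have := hgy (Fin.last r)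
      rwa [Fin.Embedding.snoc_last] at this
    have hcG : g * u * g⁻¹ ∈ G := G.mul_mem (G.mul_mem hg (hQG hu)) (G.inv_mem hg)
    have hfix : ∀ i : Fin (r + 1), (g * u * g⁻¹) (x' i) = x' i := by
      intro i
      refine Fin.lastCases ?_ (fun j => ?_) i
      · rw [← hgw]
        simp [huw]
      · rw [← hgx]
        simp [hQfix j u hu]
    have hstab : (⟨g * u * g⁻¹, hcG⟩ : ↥G) ∈ MulAction.stabilizer ↥G x' := by
      rw [MulAction.mem_stabilizer_iff]
      ext i
      exact hfix i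
    obtain ⟨e, he⟩ := hQ ⟨u, hu⟩
    have hue : u ^ p ^ e = 1 := by
      have := congrArg Subtype.val he
      simpa using this
    apply hnd
    apply p_dvd_card_of_mem p (⟨⟨g * u * g⁻¹, hcG⟩, hstab⟩ : MulAction.stabilizer ↥G x') e
    · apply Subtype.ext
      apply Subtype.ext
      show (g * u * g⁻¹) ^ p ^ e = 1
      rw [conj_pow, hue]
      simp
    · intro h
      have h1 : g * u * g⁻¹ = 1 :=
        congrArg (fun s : MulAction.stabilizer ↥G x' => (s.1.1 : Perm α)) h
      apply hu1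
      have : u = g⁻¹ * (g * u * g⁻¹) * g := by group
      rw [this, h1]
      simp
  -- p divides the order of the stabilizer of x
  have hdvdH : p ∣ Nat.card (MulAction.stabilizer ↥G x) := by
    have horb : MulAction.orbit ↥(MulAction.stabilizer ↥G x) γ₀ = (Set.range x)ᶜ := by
      ext w
      constructor
      · rintro ⟨h, rfl⟩ ⟨i, hi⟩
        have hh := h.2
        rw [MulAction.mem_stabilizer_iff] at hh
        have h1 : (h.1.1 : Perm α) (x i) = x i := congrArg (fun f : Fin r ↪ α => f i) hh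
        have h2 : (h.1.1 : Perm α) γ₀ = x i := hi.symm
        exact hγ₀x ⟨i, (h.1.1).injective (h1.trans h2.symm)⟩
      · intro hw
        obtain ⟨g, hg, hgy⟩ := hTT x' (Fin.Embedding.snoc x hw)
        have hgx : ∀ i : Fin r, g (x i) = x i := by
          intro i
          have := hgy i.castSucc
          rwa [Fin.Embedding.snoc_castSucc] at this
        have hgw : g γ₀ = w := by
          have := hgy (Fin.last r)
          rwa [Fin.Embedding.snoc_last] at this
        have hmem : (⟨g, hg⟩ : ↥G) ∈ MulAction.stabilizer ↥G x := by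
          rw [MulAction.mem_stabilizer_iff]
          ext i
          exact hgx i
        exact ⟨⟨⟨g, hg⟩, hmem⟩, hgw⟩
    have hnc : (MulAction.orbit ↥(MulAction.stabilizer ↥G x) γ₀).ncard = k * p := by
      rw [horb]
      exact ncard_compl_range p k r hn x
    have h1 := MulAction.index_stabilizer ↥(MulAction.stabilizer ↥G x) γ₀
    have h2 := (MulAction.stabilizer ↥(MulAction.stabilizer ↥G x) γ₀).index_dvd_card
    rw [h1, hnc] at h2
    exact (dvd_mul_left p k).trans h2
  have hQcard : p ≤ Nat.card ↥Q := by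
    rw [hQdef, QS_card]
    exact Nat.le_self_pow (hp.factorization_pos_of_dvd Nat.card_pos.ne' hdvdH).ne' p
  have hfixeq : fixQ Q = Set.range x := by
    apply Set.Subset.antisymm
    · intro w hw
      by_contra hwx
      have hall : ∀ q ∈ Q, q = 1 := fun q hq => hsemi q hq w hwx (hw q hq)
      have : Nat.card ↥Q ≤ 1 := by
        rw [Finite.card_le_one_iff_subsingleton]
        constructor
        intro a b
        apply Subtype.ext
        rw [hall a.1 a.2, hall b.1 b.2]
      omega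
    · rintro _ ⟨i, rfl⟩
      exact hQfix i
  have hcompl : (fixQ Q)ᶜ.ncard = k * p := by
    rw [hfixeq]
    exact ncard_compl_range p k r hn x
  have hsmall : (fixQ Q)ᶜ.ncard < p ^ 2 := by
    rw [hcompl, pow_two]
    exact Nat.mul_lt_mul_of_pos_right hkp hp.pos
  have hγ₀fix : γ₀ ∉ fixQ Q := by
    rw [hfixeq]
    exact hγ₀x
  have horbp := ncard_orbQ Q p hQ hsmall hγ₀fix
  have hQle : Nat.card ↥Q ≤ p := by
    rw [← horbp, ← Nat.card_coe_set_eq]
    apply Nat.card_le_card_of_injective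
      (fun q : ↥Q => (⟨q.1 γ₀, q.1, q.2, rfl⟩ : ↥(orbQ Q γ₀)))
    intro a b hab
    have h1 : a.1 γ₀ = b.1 γ₀ := congrArg Subtype.val hab
    have h2 : (b.1⁻¹ * a.1) = 1 :=
      hsemi _ (Q.mul_mem (Q.inv_mem b.2) a.2) γ₀ hγ₀x (by rw [Perm.mul_apply, h1]; simp)
    apply Subtype.ext
    exact (inv_mul_eq_one.1 h2).symm
  exact ⟨x, Q, hQG, hQ, hfixeq, le_antisymm hQle hQcard,
    fun a b ha hb => QS_witt G x p P hGr a b ha hb⟩

/-- Numerical facts about the Case B configuration. -/
theorem caseB_facts (G Q : Subgroup (Perm α)) (p k r : ℕ) [Fact p.Prime]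
    (hn : Fintype.card α = k * p + r) (hkp : k < p) (x : Fin r ↪ α)
    (hQ : IsPGroup p ↥Q) (hfix : fixQ Q = Set.range x)
    (hW : ∀ a b : Fin r ↪ α, (∀ i, a i ∈ fixQ Q) → (∀ i, b i ∈ fixQ Q) →
        ∃ m ∈ NQ G Q, ∀ i, m (a i) = b i) :
    (fixQ Q)ᶜ.ncard = k * p ∧ (fixQ Q)ᶜ.ncard < p ^ 2 ∧ Nat.card ↥(FS G Q) = r ∧
      Nat.card ↥(Om Q) = k ∧ (rho G Q).range = ⊤ := by
  have hp := (Fact.out : p.Prime)
  have hcompl : (fixQ Q)ᶜ.ncard = k * p := by
    rw [hfix]
    exact ncard_compl_range p k r hn x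
  have hsmall : (fixQ Q)ᶜ.ncard < p ^ 2 := by
    rw [hcompl, pow_two]
    exact Nat.mul_lt_mul_of_pos_right hkp hp.pos
  refine ⟨hcompl, hsmall, ?_, ?_, ?_⟩
  · have h1 : Nat.card ↥(FS G Q) = (fixQ Q).ncard := Nat.card_coe_set_eq (fixQ Q)
    rw [h1, hfix, Set.ncard_range_of_injective x.injective, Nat.card_eq_fintype_card,
      Fintype.card_fin]
  · have := card_Om Q p hQ hsmall
    rw [hcompl] at this
    exact Nat.eq_of_mul_eq_mul_right hp.pos this
  · rw [eq_top_iff]
    intro σ _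
    have hmemF : ∀ i, x i ∈ fixQ Q := fun i => by
      rw [hfix]
      exact ⟨i, rfl⟩
    let a' : Fin r ↪ ↥(FS G Q) :=
      ⟨fun i => ⟨x i, hmemF i⟩, fun i j h => x.injective (congrArg Subtype.val h)⟩
    obtain ⟨m, hm, hmab⟩ := hW x
      ((a'.trans σ.toEmbedding).trans (Function.Embedding.subtype _)) hmemF
      (fun i => (σ (a' i)).2)
    refine ⟨⟨m, hm⟩, ?_⟩
    ext z
    have hz : z.1 ∈ fixQ Q := z.2
    rw [hfix] at hz
    obtain ⟨i, hi⟩ := hz
    have hz' : a' i = z := Subtype.ext hi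
    rw [rho_apply, ← hz']
    exact hmab i

/-- Case B with `r ≥ 5`. -/
theorem caseB_big (G Q : Subgroup (Perm α)) (p k r : ℕ) [Fact p.Prime]
    (hn : Fintype.card α = k * p + r) (hkp : k < p) (hkr : k < r) (h5 : 5 ≤ r)
    (x : Fin r ↪ α) (hQ : IsPGroup p ↥Q) (hfix : fixQ Q = Set.range x)
    (hW : ∀ a b : Fin r ↪ α, (∀ i, a i ∈ fixQ Q) → (∀ i, b i ∈ fixQ Q) →
        ∃ m ∈ NQ G Q, ∀ i, m (a i) = b i) :
    ∃ g ∈ G, g.IsThreeCycle := by
  classical
  obtain ⟨hc, hsmall, hF, hOm, htop⟩ := caseB_facts G Q p k r hn hkp x hQ hfix hW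
  have hp := (Fact.out : p.Prime)
  refine ml G Q p hQ hsmall (by omega) (by rw [htop]; exact le_top) ?_
  rw [hc, Nat.mul_div_cancel _ hp.pos, hF]
  exact two_fact_lt (by omega) (by omega)

end Cfsg.Agent.H70.Mil
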