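import Mathlib
import Cfsg.Agent.H70.Mil6

/-!
# Miller's theorem, part 7: Case B with `r ∈ {3, 4}`
-/

set_option autoImplicit false

namespace Cfsg.Agent.H70.Mil

open Equiv Equiv.Perm

universe u

variable {α : Type u} [Fintype α] [DecidableEq α]

/-- The alternating group lies in the derived subgroup of the symmetric group (any degree). -/
theorem alt_le_comm (β : Type*) [Fintype β] [DecidableEq β] :
    alternatingGroup β ≤ commutator (Perm β) := by
  rw [← closure_three_cycles_eq_alternating, Subgroup.closure_le]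
  intro g hg
  have hg' : g.IsThreeCycle := hg
  rw [commutator_eq_closure]
  apply Subgroup.subset_closure
  apply mem_commutatorSet_of_isConj_sq
  rw [isConj_iff_cycleType_eq]
  have h2 := hg'.isThreeCycle_sq
  rw [sq]
  unfold IsThreeCycle at hg' h2
  rw [hg', h2]

/-- Commutators of elements normalizing a cyclic subgroup centralize it. -/
theorem comm_mem_centralizer {H : Type*} [Group H] (Q : Subgroup H) [IsCyclic ↥Q] {a b : H}
    (ha : a ∈ Subgroup.normalizer (Q : Set H)) (hb : b ∈ Subgroup.normalizer (Q : Set H)) :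
    a * b * a⁻¹ * b⁻¹ ∈ Subgroup.centralizer (Q : Set H) := by
  let _ := (IsCyclic.mulAutMulEquiv ↥Q).toMonoidHom.commGroupOfInjective
    (IsCyclic.mulAutMulEquiv ↥Q).injective
  have h := Abelianization.commutator_subset_ker Q.normalizerMonoidHom
  rw [Subgroup.normalizerMonoidHom_ker] at h
  have hmem := Subgroup.commutator_mem_commutator (H₁ := ⊤) (H₂ := ⊤)
    (Subgroup.mem_top (⟨a, ha⟩ : ↥(Subgroup.normalizer (Q : Set H))))
    (Subgroup.mem_top (⟨b, hb⟩ : ↥(Subgroup.normalizer (Q : Set H))))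
  have := h hmem
  rw [Subgroup.mem_subgroupOf] at this
  simpa [commutatorElement_def] using this

theorem small_arith {p s k r : ℕ} (hp : p.Prime) (hr3 : 3 ≤ r) (hr4 : r ≤ 4) (hk1 : 1 ≤ k)
    (hkr : k < r) (hkp : k < p) (h2 : r.factorial ∣ 2 * (p ^ s * k.factorial)) :
    r = 3 ∧ p = 3 := by
  have key : ∀ q : ℕ, q.Prime → q ∣ p ^ s → q = p := fun q hq h =>
    (Nat.prime_dvd_prime_iff_eq hq hp).1 (hq.dvd_of_dvd_pow h)
  have key2 : ∀ (q m : ℕ), q.Prime → q ∣ m * p ^ s → ¬ q ∣ m → q = p := fun q m hq h hm =>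
    key q hq ((hq.dvd_mul.1 h).resolve_left hm)
  interval_cases r
  · refine ⟨rfl, ?_⟩
    interval_cases k
    · have e : 2 * (p ^ s * Nat.factorial 1) = 2 * p ^ s := by simp
      rw [e] at h2
      have h3 : 3 ∣ 2 * p ^ s := (by decide : (3 : ℕ) ∣ Nat.factorial 3).trans h2
      exact (key2 3 2 Nat.prime_three h3 (by decide)).symm
    · have e : 2 * (p ^ s * Nat.factorial 2) = 4 * p ^ s := by
        simp [Nat.factorial]
        ring
      rw [e] at h2
      have h3 : 3 ∣ 4 * p ^ s := (by decide : (3 : ℕ) ∣ Nat.factorial 3).trans h2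
      exact (key2 3 4 Nat.prime_three h3 (by decide)).symm
  · exfalso
    interval_cases k
    · have e : 2 * (p ^ s * Nat.factorial 1) = 2 * p ^ s := by simp
      rw [e] at h2
      have h3 : 3 ∣ 2 * p ^ s := (by decide : (3 : ℕ) ∣ Nat.factorial 4).trans h2
      have h4 : 2 ∣ p ^ s := by
        have : 2 * 2 ∣ 2 * p ^ s := (by decide : (2 * 2 : ℕ) ∣ Nat.factorial 4).trans h2
        exact Nat.dvd_of_mul_dvd_mul_left (by norm_num) this
      have h5 := key2 3 2 Nat.prime_three h3 (by decide)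
      have h6 := key 2 Nat.prime_two h4
      omega
    · have e : 2 * (p ^ s * Nat.factorial 2) = 4 * p ^ s := by
        simp [Nat.factorial]
        ring
      rw [e] at h2
      have h3 : 3 ∣ 4 * p ^ s := (by decide : (3 : ℕ) ∣ Nat.factorial 4).trans h2
      have h4 : 2 ∣ p ^ s := by
        have : 4 * 2 ∣ 4 * p ^ s := (by decide : (4 * 2 : ℕ) ∣ Nat.factorial 4).trans h2
        exact Nat.dvd_of_mul_dvd_mul_left (by norm_num) this
      have h5 := key2 3 4 Nat.prime_three h3 (by decide)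
      have h6 := key 2 Nat.prime_two h4
      omega
    · have e : 2 * (p ^ s * Nat.factorial 3) = 12 * p ^ s := by
        simp [Nat.factorial]
        ring
      rw [e] at h2
      have h4 : 2 ∣ p ^ s := by
        have : 12 * 2 ∣ 12 * p ^ s := (by decide : (12 * 2 : ℕ) ∣ Nat.factorial 4).trans h2
        exact Nat.dvd_of_mul_dvd_mul_left (by norm_num) this
      have h6 := key 2 Nat.prime_two h4
      omega

/-- An element centralizing `Q` and preserving an orbit of prime length `p` of `Q` has `p`-th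
power acting trivially on that orbit. -/
theorem cent_pow_fix (Q : Subgroup (Perm α)) (p : ℕ) [Fact p.Prime] (hQ : IsPGroup p ↥Q)
    (hexp : ∀ q ∈ Q, q ^ p = 1) {x : α} (hx : (orbQ Q x).ncard = p) (hx' : x ∉ fixQ Q)
    (e : Perm α) (hcomm : ∀ q ∈ Q, q * e = e * q) (hpres : e x ∈ orbQ Q x) :
    ∀ w ∈ orbQ Q x, (e ^ p) w = w := by
  obtain ⟨y, hy, hyx⟩ : ∃ y ∈ Q, y x ≠ x := by
    by_contra hcon
    push Not at hcon
    exact hx' hcon
  obtain ⟨t, ht⟩ := orbit_pow Q p hQ hx hy hyx hpres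
  have hact : ∀ w ∈ orbQ Q x, e w = (y ^ t) w := by
    intro w hw
    obtain ⟨s, rfl⟩ := orbit_pow Q p hQ hx hy hyx hw
    have h1 : e ((y ^ s) x) = (y ^ s) (e x) := by
      have := hcomm (y ^ s) (Q.pow_mem hy s)
      have h2 := congrArg (fun f : Perm α => f x) this
      simp only [Perm.mul_apply] at h2
      exact h2.symm
    rw [h1, ← ht, ← Perm.mul_apply, ← Perm.mul_apply, pow_mul_comm]
  have hpow : ∀ (j : ℕ) (w : α), w ∈ orbQ Q x → (e ^ j) w = ((y ^ t) ^ j) w := by
    intro j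
    induction j with
    | zero => intro w _; simp
    | succ j ih =>
      intro w hw
      rw [pow_succ', Perm.mul_apply, ih w hw,
        hact _ (smul_mem_orbQ Q hw (Q.pow_mem (Q.pow_mem hy t) j)), pow_succ' (y ^ t),
        Perm.mul_apply]
  intro w hw
  rw [hpow p w hw, ← pow_mul, mul_comm, pow_mul, hexp y hy]
  simp

/-- Case B with `r ∈ {3, 4}`. -/
theorem caseB_small (G Q : Subgroup (Perm α)) (p k r : ℕ) [Fact p.Prime]
    (hn : Fintype.card α = k * p + r) (hk : 1 ≤ k) (hkp : k < p) (hkr : k < r)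
    (hr3 : 3 ≤ r) (hr4 : r ≤ 4) (hTTr : TT G r) (hTT4 : TT G 4)
    (x : Fin r ↪ α) (hQ : IsPGroup p ↥Q) (hfix : fixQ Q = Set.range x)
    (hcard : Nat.card ↥Q = p)
    (hW : ∀ a b : Fin r ↪ α, (∀ i, a i ∈ fixQ Q) → (∀ i, b i ∈ fixQ Q) →
        ∃ m ∈ NQ G Q, ∀ i, m (a i) = b i) :
    (∃ g ∈ G, g.IsThreeCycle) ∨ (r = 3 ∧ p = 3) := by
  classical
  have hp := (Fact.out : p.Prime)
  obtain ⟨hc, hsmall, hF, hOm, htop⟩ := caseB_facts G Q p k r hn hkp x hQ hfix hW
  by_cases h3 : ∃ g ∈ G, g.IsThreeCycle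
  · exact Or.inl h3
  right
  have hcyc : IsCyclic ↥Q := isCyclic_of_prime_card hcard
  have hexp : ∀ q ∈ Q, q ^ p = 1 := by
    intro q hq
    have := pow_card_eq_one' (G := ↥Q) (x := ⟨q, hq⟩)
    rw [hcard] at this
    exact congrArg Subtype.val this
  set C : Subgroup ↥(NQ G Q) :=
    (Subgroup.centralizer (Q : Set (Perm α))).subgroupOf (NQ G Q) with hC
  set K : Subgroup ↥(NQ G Q) := (psi G Q).ker ⊓ C with hK
  obtain ⟨e₀, he₀⟩ : ∃ e₀, e₀ ∉ Set.range x := by
    by_contra hcon
    push Not at hcon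
    have hempty : (Set.range x)ᶜ = ∅ := by
      ext w
      simp [hcon w]
    have h1 := ncard_compl_range p k r hn x
    rw [hempty, Set.ncard_empty] at h1
    have := hp.pos
    nlinarith
  have hKp : ∀ e ∈ K, e ^ p = 1 := by
    intro e he
    by_contra hne
    apply h3
    have hsupp : ∀ w, w ∉ Set.range x → (e.1 ^ p) w = w := by
      intro w hw
      rw [← hfix] at hw
      have hwp := ncard_orbQ Q p hQ hsmall hw
      have hcomm : ∀ q ∈ Q, q * e.1 = e.1 * q := by
        intro q hq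
        have hec : e ∈ C := he.2
        rw [hC, Subgroup.mem_subgroupOf, Subgroup.mem_centralizer_iff] at hec
        exact hec q hq
      exact cent_pow_fix Q p hQ hexp hwp hw e.1 hcomm
        (psi_ker he.1 hw (self_mem_orbQ Q w)) w (self_mem_orbQ Q w)
    exact three_of_supp G hr3 x hTTr hTT4 e₀ he₀ (e.1 ^ p) (G.pow_mem e.2.1 p)
      (fun h => hne (Subtype.ext (by rw [Subgroup.coe_pow, h]; rfl))) hsupp
  set B : Subgroup (Perm ↥(FS G Q)) := K.map (rho G Q) with hB
  have hBp : IsPGroup p ↥B := by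
    rintro ⟨b, e, he, rfl⟩
    refine ⟨1, ?_⟩
    apply Subtype.ext
    show (rho G Q e) ^ p ^ 1 = 1
    rw [pow_one, ← map_pow, hKp e he, map_one]
  obtain ⟨s, hs⟩ := IsPGroup.iff_card.1 hBp
  set A := alternatingGroup ↥(FS G Q) with hA
  have hAle : A ≤ C.map (rho G Q) := by
    have h1 : commutator (Perm ↥(FS G Q)) = (commutator ↥(NQ G Q)).map (rho G Q) := by
      rw [commutator_def, commutator_def, Subgroup.map_commutator, ← MonoidHom.range_eq_map,
        htop]
    have h2 : commutator ↥(NQ G Q) ≤ C := by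
      rw [commutator_def, Subgroup.commutator_le]
      intro a _ b _
      rw [hC, Subgroup.mem_subgroupOf, commutatorElement_def]
      exact comm_mem_centralizer Q a.2.2 b.2.2
    calc A ≤ commutator (Perm ↥(FS G Q)) := alt_le_comm _
      _ = _ := h1
      _ ≤ _ := Subgroup.map_mono h2
  have hdvd1 : Nat.card ↥(C.map (rho G Q)) ∣ Nat.card ↥B * Nat.card ↥(C.map (psi G Q)) := by
    rw [hB, hK, ← Subgroup.relIndex_ker, ← Subgroup.relIndex_ker, ← Subgroup.relIndex_ker,
      Subgroup.relIndex_inf_mul_relIndex]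
    exact Subgroup.relIndex_dvd_of_le_left C inf_le_left
  have hdvd2 : Nat.card ↥(C.map (psi G Q)) ∣ k.factorial := by
    have := Subgroup.card_subgroup_dvd_card (C.map (psi G Q))
    rwa [Nat.card_perm, hOm] at this
  have hdvd3 : Nat.card ↥A ∣ Nat.card ↥(C.map (rho G Q)) := Subgroup.card_dvd_of_le hAle
  have h2A : 2 * Nat.card ↥A = r.factorial := by
    have : Nontrivial ↥(FS G Q) := by
      rw [← Finite.one_lt_card_iff_nontrivial]
      omega
    rw [hA, two_mul_nat_card_alternatingGroup, Nat.card_perm, hF]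
  have hfinal : r.factorial ∣ 2 * (p ^ s * k.factorial) := by
    rw [← h2A, ← hs]
    exact Nat.mul_dvd_mul_left 2 (hdvd3.trans (hdvd1.trans (Nat.mul_dvd_mul_left _ hdvd2)))
  exact small_arith hp hr3 hr4 hk hkr hkp hfinal

end Cfsg.Agent.H70.Mil
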