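import Mathlib
import Cfsg.Agent.H70.Mil7

/-!
# Miller's theorem, part 8: 4-transitive groups of degree 9
-/

set_option autoImplicit false

namespace Cfsg.Agent.H70.Mil

open Equiv Equiv.Perm

universe u

variable {α : Type u} [Fintype α] [DecidableEq α]

/-- The order of a `t`-transitive group in terms of the stabilizer of a `t`-tuple. -/
theorem card_eq_of_mp (G : Subgroup (Perm α)) (t : ℕ)
    (hG : MulAction.IsMultiplyPretransitive ↥G α t) (x : Fin t ↪ α) :
    Nat.card ↥G = Nat.card (MulAction.stabilizer ↥G x) * (Fintype.card α).descFactorial t := by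
  have h2 : MulAction.orbit ↥G x = Set.univ := by
    apply Set.eq_univ_of_forall
    intro y
    obtain ⟨g, hg, hgy⟩ := tt_of_mp G t hG x y
    exact ⟨⟨g, hg⟩, by ext i; exact hgy i⟩
  have h1 : (MulAction.stabilizer ↥G x).index = (Fintype.card α).descFactorial t := by
    have h0 := MulAction.index_stabilizer ↥G x
    have h0' : (MulAction.stabilizer ↥G x).index = (Set.univ : Set (Fin t ↪ α)).ncard :=
      h0.trans (congrArg Set.ncard h2)
    rw [h0', Set.ncard_univ, Nat.card_eq_fintype_card, Fintype.card_embedding_eq,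
      Fintype.card_fin]
  rw [← h1, Subgroup.card_mul_index]

/-- The stabilizer of a tuple acts faithfully on the remaining points. -/
theorem stab_card_dvd (G : Subgroup (Perm α)) {t : ℕ} (x : Fin t ↪ α) :
    Nat.card (MulAction.stabilizer ↥G x) ∣ ((Set.range x)ᶜ.ncard).factorial := by
  classical
  let pW : α → Prop := fun w => w ∉ Set.range x
  have hle : ((MulAction.stabilizer ↥G x).map G.subtype) ≤
      (ofSubtype : Perm (Subtype pW) →* Perm α).range := by
    rintro f ⟨s, hs, rfl⟩
    have hs' : ∀ i, (s.1 : Perm α) (x i) = x i := by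
      intro i
      have hs2 : s ∈ MulAction.stabilizer ↥G x := hs
      rw [MulAction.mem_stabilizer_iff] at hs2
      exact congrArg (fun f : Fin t ↪ α => f i) hs2
    have h₂ : ∀ w, (s.1 : Perm α) w ≠ w → pW w := by
      rintro w hw ⟨i, rfl⟩
      exact hw (hs' i)
    have h₁ : ∀ w, pW ((s.1 : Perm α) w) ↔ pW w := by
      intro w
      constructor
      · rintro h ⟨i, rfl⟩
        exact h ⟨i, (hs' i).symm⟩
      · rintro h ⟨i, hi⟩
        apply h
        refine ⟨i, ?_⟩
        apply (s.1 : Perm α).injective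
        rw [hs' i, hi]
    exact ⟨subtypePerm s.1 h₁, ofSubtype_subtypePerm h₁ h₂⟩
  have h1 := Subgroup.card_dvd_of_le hle
  rw [Subgroup.card_map_of_injective (Subgroup.subtype_injective _)] at h1
  have h2 : Nat.card ↥(ofSubtype : Perm (Subtype pW) →* Perm α).range =
      Nat.card (Perm (Subtype pW)) :=
    Nat.card_congr (MonoidHom.ofInjective ofSubtype_injective).toEquiv.symm
  rw [h2, Nat.card_perm] at h1
  have h3 : Nat.card (Subtype pW) = (Set.range x)ᶜ.ncard := Nat.card_coe_set_eq (Set.range x)ᶜ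
  rwa [h3] at h1

/-- An involution fixing four points of a set of nine points is a transposition or a double
transposition; in a 4-transitive group this yields a transposition or a 3-cycle. -/
theorem invol_case (G : Subgroup (Perm α)) (hn : Fintype.card α = 9) (h4 : TT G 4)
    (x' : Fin 4 ↪ α) (σ : Perm α) (hσG : σ ∈ G) (hσ2 : σ * σ = 1) (hσ1 : σ ≠ 1)
    (hσx : ∀ i, σ (x' i) = x' i) :
    (∃ g ∈ G, g.IsSwap) ∨ (∃ g ∈ G, g.IsThreeCycle) := by
  obtain ⟨a, ha⟩ : ∃ a, σ a ≠ a := by
    by_contra hcon
    push Not at hcon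
    exact hσ1 (Equiv.ext hcon)
  have hσσ : ∀ w, σ (σ w) = w := by
    intro w
    have := congrArg (fun f : Perm α => f w) hσ2
    simpa using this
  set b := σ a with hb
  have hσb : σ b = a := hσσ a
  have hab : a ≠ b := fun h => ha h.symm
  by_cases hsw : σ = swap a b
  · exact Or.inl ⟨σ, hσG, a, b, hab, hsw⟩
  right
  obtain ⟨c, hc⟩ : ∃ c, σ c ≠ swap a b c := by
    by_contra hcon
    push Not at hcon
    exact hsw (Equiv.ext hcon)
  have hca : c ≠ a := by
    rintro rfl
    exact hc (by rw [swap_apply_left])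
  have hcb : c ≠ b := by
    rintro rfl
    exact hc (by rw [swap_apply_right, hσb])
  have hcc : σ c ≠ c := by
    rwa [swap_apply_of_ne_of_ne hca hcb] at hc
  set d := σ c with hd
  have hσd : σ d = c := hσσ c
  have hda : d ≠ a := by
    intro h
    apply hcb
    rw [← hσd, h]
  have hdb : d ≠ b := by
    intro h
    apply hca
    rw [← hσd, h, hσb]
  have hcd : c ≠ d := fun h => hcc h.symm
  have hxa : ∀ i, x' i ≠ a := by
    intro i h
    have h1 := hσx i
    rw [h] at h1
    exact ha h1
  have hxb : ∀ i, x' i ≠ b := by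
    intro i h
    have h1 := hσx i
    rw [h, hσb] at h1
    exact hab h1
  have hxc : ∀ i, x' i ≠ c := by
    intro i h
    have h1 := hσx i
    rw [h] at h1
    exact hcc h1
  have hxd : ∀ i, x' i ≠ d := by
    intro i h
    have h1 := hσx i
    rw [h, hσd] at h1
    exact hcd h1
  set ν := σ * (swap c d * swap a b) with hν
  have hνa : ν a = a := by
    rw [hν, Perm.mul_apply, Perm.mul_apply, swap_apply_left,
      swap_apply_of_ne_of_ne (Ne.symm hcb) (Ne.symm hdb), hσb]
  have hνb : ν b = b := by
    rw [hν, Perm.mul_apply, Perm.mul_apply, swap_apply_right,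
      swap_apply_of_ne_of_ne (Ne.symm hca) (Ne.symm hda)]
  have hνc : ν c = c := by
    rw [hν, Perm.mul_apply, Perm.mul_apply, swap_apply_of_ne_of_ne hca hcb, swap_apply_left,
      hσd]
  have hνd : ν d = d := by
    rw [hν, Perm.mul_apply, Perm.mul_apply, swap_apply_of_ne_of_ne hda hdb, swap_apply_right]
  have hνx : ∀ i, ν (x' i) = x' i := by
    intro i
    rw [hν, Perm.mul_apply, Perm.mul_apply, swap_apply_of_ne_of_ne (hxa i) (hxb i),
      swap_apply_of_ne_of_ne (hxc i) (hxd i), hσx]
  have hν1 : ν = 1 := by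
    rw [← card_support_le_one]
    let T : Finset α := insert a (insert b (insert c (insert d (Finset.univ.map x'))))
    have hT : T.card = 8 := by
      rw [Finset.card_insert_of_notMem, Finset.card_insert_of_notMem,
        Finset.card_insert_of_notMem, Finset.card_insert_of_notMem, Finset.card_map,
        Finset.card_univ, Fintype.card_fin]
      · simp [hxd]
      · simp [hcd, hxc]
      · simp [Ne.symm hcb, Ne.symm hdb, hxb]
      · simp [hab, Ne.symm hca, Ne.symm hda, hxa]
    have hsub : ν.support ⊆ Tᶜ := by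
      intro w hw
      rw [Finset.mem_compl]
      intro hwT
      rw [mem_support] at hw
      apply hw
      simp only [T, Finset.mem_insert, Finset.mem_map, Finset.mem_univ, true_and] at hwT
      rcases hwT with rfl | rfl | rfl | rfl | ⟨i, rfl⟩
      · exact hνa
      · exact hνb
      · exact hνc
      · exact hνd
      · exact hνx i
    have := Finset.card_le_card hsub
    rw [Finset.card_compl, hT, hn] at this
    exact this
  have hσeq : σ = swap a b * swap c d := by
    have := eq_inv_of_mul_eq_one_left hν1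
    rw [this, mul_inv_rev, swap_inv, swap_inv]
  rw [hσeq] at hσG
  exact three_of_swapswap G h4 (a := a) (b := b) (c := c) (d := d) (e := x' 0) hab
    (Ne.symm hca) (Ne.symm hda) (Ne.symm hcb) (Ne.symm hdb) hcd (hxa 0) (hxb 0) (hxc 0) (hxd 0)
    hσG

/-- The centralizer of a 7-cycle in a group of degree 9 without transpositions. -/
theorem cent_cycle (G : Subgroup (Perm α)) (hn : Fintype.card α = 9)
    (hns : ¬ ∃ g ∈ G, g.IsSwap) (ζ : Perm α) (hζG : ζ ∈ G) (hζ : orderOf ζ = 7)
    (γ : Perm α) (hγG : γ ∈ G) (hcomm : γ * ζ = ζ * γ) : ∃ n : ℕ, γ = ζ ^ n := by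
  have hcyc : ζ.IsCycle := isCycle_of_prime_order' (by rw [hζ]; norm_num) (by rw [hζ, hn]; norm_num)
  have hsupp : ζ.support.card = 7 := by rw [← hcyc.orderOf, hζ]
  obtain ⟨a, ha⟩ : ∃ a, ζ a ≠ a := by
    by_contra hcon
    push Not at hcon
    have : ζ = 1 := Equiv.ext hcon
    rw [this, orderOf_one] at hζ
    norm_num at hζ
  have hγa : ζ (γ a) ≠ γ a := by
    intro h
    apply ha
    apply γ.injective
    have := congrArg (fun f : Perm α => f a) hcomm
    simp only [Perm.mul_apply] at this
    rw [this, h]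
  obtain ⟨n, hn'⟩ := hcyc.exists_pow_eq ha hγa
  refine ⟨n, ?_⟩
  have hcommpow : ∀ s : ℕ, γ * ζ ^ s = ζ ^ s * γ := fun s =>
    ((show Commute γ ζ from hcomm).pow_right s).eq
  set γ' := (ζ ^ n)⁻¹ * γ with hγ'
  have hfix : ∀ w, ζ w ≠ w → γ' w = w := by
    intro w hw
    obtain ⟨s, rfl⟩ := hcyc.exists_pow_eq ha hw
    rw [hγ', Perm.mul_apply, Perm.inv_eq_iff_eq]
    have h1 := congrArg (fun f : Perm α => f a) (hcommpow s)
    simp only [Perm.mul_apply] at h1
    rw [h1, ← hn', ← Perm.mul_apply, ← Perm.mul_apply, pow_mul_comm]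
  have hγ'G : γ' ∈ G := G.mul_mem (G.inv_mem (G.pow_mem hζG n)) hγG
  have hcard : γ'.support.card ≤ 2 := by
    have hsub : γ'.support ⊆ ζ.supportᶜ := by
      intro w hw
      rw [Finset.mem_compl, mem_support]
      intro h
      exact (mem_support.1 hw) (hfix w h)
    have := Finset.card_le_card hsub
    rw [Finset.card_compl, hsupp, hn] at this
    exact this
  have h1 : γ' = 1 := by
    by_contra hne
    have h2 : γ'.support.card = 2 := by
      have h0 : γ'.support.card ≠ 0 := by
        rw [Ne, card_support_eq_zero]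
        exact hne
      have h1' := card_support_ne_one γ'
      omega
    exact hns ⟨γ', hγ'G, card_support_eq_two.1 h2⟩
  have : γ = ζ ^ n * γ' := by
    rw [hγ']
    group
  rw [this, h1, mul_one]

/-- Sylow counting for the prime 7. -/
theorem sylow7 (G : Subgroup (Perm α)) (hn : Fintype.card α = 9)
    (hns : ¬ ∃ g ∈ G, g.IsSwap) (h : ℕ) (hh : h = 1 ∨ h = 5)
    (hG : Nat.card ↥G = h * 3024) : False := by
  have hfact : Fact (Nat.Prime 7) := ⟨by norm_num⟩
  let P : Sylow 7 ↥G := default
  have hPcard : Nat.card ↥(P : Subgroup ↥G) = 7 := by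
    obtain ⟨e, he⟩ := IsPGroup.iff_card.1 P.isPGroup'
    have h1 : 7 ∣ Nat.card ↥(P : Subgroup ↥G) := P.dvd_card_of_dvd_card (by
      rw [hG]
      rcases hh with rfl | rfl <;> norm_num)
    have h2 : Nat.card ↥(P : Subgroup ↥G) ∣ Nat.card ↥G := Subgroup.card_subgroup_dvd_card _
    rw [he] at h1 h2 ⊢
    have he1 : e ≠ 0 := by
      rintro rfl
      norm_num at h1
    have he2 : e < 2 := by
      by_contra hcon
      push Not at hcon
      have : 7 ^ 2 ∣ Nat.card ↥G := (pow_dvd_pow 7 hcon).trans h2
      rw [hG] at this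
      rcases hh with rfl | rfl <;> norm_num at this
    have : e = 1 := by omega
    rw [this, pow_one]
  obtain ⟨z, hz1⟩ : ∃ z : ↥(P : Subgroup ↥G), z ≠ 1 := by
    have : Nontrivial ↥(P : Subgroup ↥G) := by
      rw [← Finite.one_lt_card_iff_nontrivial, hPcard]
      norm_num
    exact exists_ne 1
  have hz7 : z ^ 7 = 1 := by
    have := pow_card_eq_one' (G := ↥(P : Subgroup ↥G)) (x := z)
    rwa [hPcard] at this
  set ζ : Perm α := z.1.1 with hζ
  have hζord : orderOf ζ = 7 := by
    apply orderOf_eq_prime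
    · have := congrArg (fun s : ↥(P : Subgroup ↥G) => (s.1.1 : Perm α)) hz7
      simpa using this
    · intro h1
      apply hz1
      apply Subtype.ext
      apply Subtype.ext
      exact h1
  set N := Subgroup.normalizer ((P : Subgroup ↥G) : Set ↥G) with hN
  have hcyc : IsCyclic ↥(P : Subgroup ↥G) := isCyclic_of_prime_card hPcard
  set φ := (P : Subgroup ↥G).normalizerMonoidHom with hφ
  have hker : Nat.card ↥φ.ker ∣ 7 := by
    have hle : φ.ker.map N.subtype ≤ (P : Subgroup ↥G) := by
      rintro c ⟨c', hc', rfl⟩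
      have hc2 : c' ∈ φ.ker := hc'
      rw [hφ, Subgroup.normalizerMonoidHom_ker, Subgroup.mem_subgroupOf,
        Subgroup.mem_centralizer_iff] at hc2
      have h1 := hc2 z.1 z.2
      obtain ⟨n, hn'⟩ := cent_cycle G hn hns ζ z.1.2 hζord (c'.1.1) c'.1.2 (by
        have := congrArg (fun s : ↥G => (s.1 : Perm α)) h1
        exact this.symm)
      have h2 : (c'.1 : ↥G) = z.1 ^ n := Subtype.ext (by rw [hn']; rfl)
      show (c'.1 : ↥G) ∈ (P : Subgroup ↥G)
      rw [h2]
      exact (P : Subgroup ↥G).pow_mem z.2 n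
    have := Subgroup.card_dvd_of_le hle
    rwa [Subgroup.card_map_of_injective (Subgroup.subtype_injective _), hPcard] at this
  have hrange : Nat.card ↥φ.range ∣ 6 := by
    have := Subgroup.card_subgroup_dvd_card φ.range
    rw [IsCyclic.card_mulAut, hPcard] at this
    exact this
  have hNcard : Nat.card ↥N ∣ 7 * 6 := by
    rw [← Subgroup.card_mul_index φ.ker, Subgroup.index_ker]
    exact Nat.mul_dvd_mul hker hrange
  have h7N : 7 ∣ Nat.card ↥N := by
    have := Subgroup.card_dvd_of_le (Subgroup.le_normalizer : (P : Subgroup ↥G) ≤ N)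
    rwa [hPcard] at this
  have hidx : Nat.card ↥N * N.index = h * 3024 := by rw [Subgroup.card_mul_index, hG]
  have hmod : N.index % 7 = 1 := by
    have h1 := card_sylow_modEq_one 7 ↥G
    rw [Sylow.card_eq_index_normalizer P] at h1
    exact h1
  obtain ⟨d, hd⟩ := h7N
  have hd6 : d ∣ 6 := by
    rw [hd] at hNcard
    exact Nat.dvd_of_mul_dvd_mul_left (by norm_num) hNcard
  have hdle : d ≤ 6 := Nat.le_of_dvd (by norm_num) hd6
  rw [hd] at hidx
  rcases hh with rfl | rfl <;> interval_cases d <;> omega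

theorem h_cases (h : ℕ) (h1 : h ∣ 120) (h2 : ¬ 2 ∣ h) (h3 : ¬ 3 ∣ h) : h = 1 ∨ h = 5 := by
  have hle : h ≤ 120 := Nat.le_of_dvd (by norm_num) h1
  interval_cases h <;> omega

/-- A 4-transitive group of degree 9 whose 4-point stabilizers have order prime to 3 contains the
alternating group (in fact, no such group exists). -/
theorem nine (G : Subgroup (Perm α)) (hn : Fintype.card α = 9)
    (hG : MulAction.IsMultiplyPretransitive ↥G α 4) (x' : Fin 4 ↪ α)
    (hnd : ¬ 3 ∣ Nat.card (MulAction.stabilizer ↥G x')) : alternatingGroup α ≤ G := by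
  classical
  have h4 : TT G 4 := tt_of_mp G 4 hG
  have h2 : TT G 2 := tt_mono G (by norm_num) (by omega) h4
  by_cases hsw : ∃ g ∈ G, g.IsSwap
  · obtain ⟨g, hg, hs⟩ := hsw
    exact alt_le_of_swap G h2 hs hg
  by_cases h3c : ∃ g ∈ G, g.IsThreeCycle
  · obtain ⟨g, hg, hs⟩ := h3c
    exact alt_le_of_three G h2 hs hg
  exfalso
  have hdvd : Nat.card (MulAction.stabilizer ↥G x') ∣ 120 := by
    have := stab_card_dvd G x'
    rw [ncard_compl_range 1 5 4 (by rw [hn]) x'] at this
    exact this
  have hodd : ¬ 2 ∣ Nat.card (MulAction.stabilizer ↥G x') := by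
    intro h2dvd
    have hfact : Fact (Nat.Prime 2) := ⟨Nat.prime_two⟩
    obtain ⟨s, hs⟩ := exists_prime_orderOf_dvd_card' 2 h2dvd
    have hσ2 : (s.1.1 : Perm α) * s.1.1 = 1 := by
      have := pow_orderOf_eq_one s
      rw [hs] at this
      have h' := congrArg (fun t : MulAction.stabilizer ↥G x' => (t.1.1 : Perm α)) this
      simpa [sq] using h'
    have hσ1 : (s.1.1 : Perm α) ≠ 1 := by
      intro h1
      have : s = 1 := Subtype.ext (Subtype.ext h1)
      rw [this, orderOf_one] at hs
      norm_num at hs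
    have hσx : ∀ i, (s.1.1 : Perm α) (x' i) = x' i := by
      intro i
      have := s.2
      rw [MulAction.mem_stabilizer_iff] at this
      exact congrArg (fun f : Fin 4 ↪ α => f i) this
    rcases invol_case G hn h4 x' s.1.1 s.1.2 hσ2 hσ1 hσx with h | h
    · exact hsw h
    · exact h3c h
  exact sylow7 G hn hsw _ (h_cases _ hdvd hodd hnd) (by
    rw [card_eq_of_mp G 4 hG x', hn]
    rfl)

end Cfsg.Agent.H70.Mil
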