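import Mathlib
import Cfsg.Agent.S4504
import Cfsg.Agent.H78.BTRed
import Cfsg.Agent.H7.PSL2

/-!
# S0997-TYPEA (helper70, for helper1): the type-A leg of Brauer-Tuan
-/

set_option autoImplicit false

namespace Cfsg.Agent.H70.BT

/-- arithmetic core of the type-A leg of S0997: `2 q^b g₀ = k (k + 2)`, `g₀ < k`, `k` even
forces `k` or `k + 2` to be a power of `2` -/
theorem typeA_arith (k q b g₀ : ℕ) (hq : q.Prime) (hk : Even k) (hk2 : 2 ≤ k)
    (h : 2 * (q ^ b * g₀) = k * (k + 2)) (hg : g₀ < k) :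
    ∃ m, k = 2 ^ m ∨ k + 2 = 2 ^ m := by
  rcases eq_or_ne q 2 with rfl | hq2
  · have h1 : 2 ^ (b + 1) * g₀ = k * (k + 2) := by rw [pow_succ]; linarith
    have h2 : k + 2 < 2 ^ (b + 1) := by
      by_contra hcon
      push Not at hcon
      have : 2 ^ (b + 1) * g₀ < k * (k + 2) := by
        calc 2 ^ (b + 1) * g₀ ≤ (k + 2) * g₀ := Nat.mul_le_mul_right _ hcon
          _ < (k + 2) * k := Nat.mul_lt_mul_of_pos_left hg (by omega)
          _ = k * (k + 2) := by ring
      omega
    have h3 : 2 ^ (b + 1) ∣ k * (k + 2) := ⟨g₀, h1.symm⟩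
    obtain ⟨u, hu⟩ := hk
    have h4 : 2 ^ b ∣ u * (k + 2) := by
      have h5 : 2 ^ (b + 1) ∣ 2 * (u * (k + 2)) := by
        have e : k * (k + 2) = 2 * (u * (k + 2)) := by rw [hu]; ring
        rwa [e] at h3
      rw [pow_succ, mul_comm] at h5
      exact Nat.dvd_of_mul_dvd_mul_left (by norm_num) h5
    rcases Nat.even_or_odd u with hu2 | hu2
    · have h5 : 2 ^ b ∣ k * (u + 1) := by
        have e : u * (k + 2) = k * (u + 1) := by rw [hu]; ring
        rwa [e] at h4
      have hc : Nat.Coprime (2 ^ b) (u + 1) := by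
        apply Nat.Coprime.pow_left
        rw [Nat.coprime_two_left]
        exact hu2.add_one
      have h6 : 2 ^ b ∣ k := hc.dvd_of_dvd_mul_right h5
      obtain ⟨c, hc'⟩ := h6
      have hc1 : c = 1 := by
        have h7 : 2 ^ b * c < 2 ^ b * 2 := by rw [← hc', ← pow_succ]; omega
        have h8 := Nat.lt_of_mul_lt_mul_left h7
        have h9 : c ≠ 0 := by rintro rfl; omega
        omega
      exact ⟨b, Or.inl (by rw [hc', hc1, mul_one])⟩
    · have hc : Nat.Coprime (2 ^ b) u := by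
        apply Nat.Coprime.pow_left
        rw [Nat.coprime_two_left]
        exact hu2
      have h6 : 2 ^ b ∣ k + 2 := hc.dvd_of_dvd_mul_left h4
      obtain ⟨c, hc'⟩ := h6
      have hc1 : c = 1 := by
        have h7 : 2 ^ b * c < 2 ^ b * 2 := by rw [← hc', ← pow_succ]; exact h2
        have h8 := Nat.lt_of_mul_lt_mul_left h7
        have h9 : c ≠ 0 := by rintro rfl; omega
        omega
      exact ⟨b, Or.inr (by rw [hc', hc1, mul_one])⟩
  · exfalso
    have hqodd : Odd q := hq.odd_of_ne_two hq2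
    have hqb : Odd (q ^ b) := hqodd.pow
    have hqpos : 0 < q ^ b := Nat.pos_of_ne_zero (pow_ne_zero _ hq.ne_zero)
    have h3 : q ^ b ∣ k * (k + 2) := by
      have h' : q ^ b ∣ 2 * (q ^ b * g₀) := Dvd.dvd.mul_left (dvd_mul_right _ _) _
      rwa [h] at h'
    have h4 : q ^ b ∣ k ∨ q ^ b ∣ k + 2 := by
      by_cases hqk : q ∣ k
      · left
        have hnd : ¬ q ∣ k + 2 := by
          intro hd
          have h2' : q ∣ 2 := (Nat.dvd_add_right hqk).mp hd
          exact hq2 ((Nat.prime_dvd_prime_iff_eq hq Nat.prime_two).mp h2')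
        have hc : Nat.Coprime (q ^ b) (k + 2) :=
          Nat.Coprime.pow_left _ ((Nat.Prime.coprime_iff_not_dvd hq).mpr hnd)
        exact hc.dvd_of_dvd_mul_right h3
      · right
        have hc : Nat.Coprime (q ^ b) k :=
          Nat.Coprime.pow_left _ ((Nat.Prime.coprime_iff_not_dvd hq).mpr hqk)
        exact hc.dvd_of_dvd_mul_left h3
    rcases h4 with ⟨c, hc⟩ | ⟨c, hc⟩
    · have h5 : 2 * g₀ = c * (k + 2) := by
        have h6 : q ^ b * (2 * g₀) = q ^ b * (c * (k + 2)) := by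
          calc q ^ b * (2 * g₀) = 2 * (q ^ b * g₀) := by ring
            _ = k * (k + 2) := h
            _ = q ^ b * (c * (k + 2)) := by rw [← mul_assoc, ← hc]
        exact Nat.eq_of_mul_eq_mul_left hqpos h6
      have hc0 : c ≠ 0 := by rintro rfl; omega
      have hc1 : c = 1 := by
        by_contra hne
        have hc2 : 2 ≤ c := by omega
        have := Nat.mul_le_mul_right (k + 2) hc2
        omega
      rw [hc1, mul_one] at hc
      rw [hc] at hk
      exact (Nat.not_even_iff_odd.mpr hqb) hk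
    · have h5 : 2 * g₀ = c * k := by
        have h6 : q ^ b * (2 * g₀) = q ^ b * (c * k) := by
          calc q ^ b * (2 * g₀) = 2 * (q ^ b * g₀) := by ring
            _ = k * (k + 2) := h
            _ = q ^ b * (c * k) := by rw [hc]; ring
        exact Nat.eq_of_mul_eq_mul_left hqpos h6
      have hc0 : c ≠ 0 := by rintro rfl; omega
      have hc1 : c = 1 := by
        by_contra hne
        have hc2 : 2 ≤ c := by omega
        have := Nat.mul_le_mul_right k hc2
        omega
      rw [hc1, mul_one] at hc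
      have hev : Even (k + 2) := hk.add even_two
      rw [hc] at hev
      exact (Nat.not_even_iff_odd.mpr hqb) hev


open Cfsg

universe u

/-- type A from the conclusion of S4504 -/
theorem typeA_aux {G : Type u} [Group G] [Finite G] [IsSimpleGroup G] (hG : ¬ IsCyclic G)
    (p q b g₀ : ℕ) [Fact p.Prime] (hq : q.Prime)
    (hG' : Nat.card G = p * q ^ b * g₀) (hg : g₀ < p - 1)
    (e : (G ⧸ Subgroup.center G) ≃* Matrix.ProjectiveSpecialLinearGroup (Fin 2) (ZMod p)) :
    ∃ (m : ℕ) (F : Type) (_ : Field F) (_ : Fintype F), Fintype.card F = p ∧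
      (p = 2 ^ m + 1 ∨ p = 2 ^ m - 1) ∧
      Nonempty (G ≃* Matrix.ProjectiveSpecialLinearGroup (Fin 2) F) := by
  classical
  have hp : p.Prime := Fact.out
  have hna : ∃ u v : G, u * v ≠ v * u := by
    by_contra h
    push Not at h
    apply hG
    let _i : CommGroup G := { ‹Group G› with mul_comm := h }
    exact IsSimpleGroup.isCyclic
  have hg0 : g₀ ≠ 0 := by
    rintro rfl
    rw [mul_zero] at hG'
    exact (Nat.card_pos (α := G)).ne' hG'
  have hp3 : 3 ≤ p := by omega
  have hZ : Subgroup.center G = ⊥ := by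
    rcases (inferInstance : (Subgroup.center G).Normal).eq_bot_or_eq_top with h | h
    · exact h
    · exfalso
      obtain ⟨u, v, huv⟩ := hna
      have hu : u ∈ Subgroup.center G := by rw [h]; trivial
      exact huv ((Subgroup.mem_center_iff.mp hu v).symm)
  have e0 : G ≃* G ⧸ Subgroup.center G :=
    (QuotientGroup.quotientBot (G := G)).symm.trans (QuotientGroup.quotientMulEquivOfEq hZ.symm)
  have e1 : G ≃* Matrix.ProjectiveSpecialLinearGroup (Fin 2) (ZMod p) := e0.trans e
  have hodd : Odd p := hp.odd_of_ne_two (by omega)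
  have hcard : 2 * Nat.card G = p * (p ^ 2 - 1) := by
    have h1 := Cfsg.Agent.H7.card_PSL2_odd (F := ZMod p) (by rw [ZMod.card]; exact hodd)
    rw [ZMod.card] at h1
    rw [Nat.card_congr e1.toEquiv]
    exact h1
  obtain ⟨k, rfl⟩ : ∃ k, p = k + 1 := ⟨p - 1, by omega⟩
  have hk : Even k := by
    rcases hodd with ⟨j, hj⟩
    exact ⟨j, by omega⟩
  have h2 : 2 * (q ^ b * g₀) = k * (k + 2) := by
    have h3 : (k + 1) ^ 2 - 1 = k * (k + 2) := by
      have : (k + 1) ^ 2 = k * (k + 2) + 1 := by ring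
      omega
    rw [hG', h3] at hcard
    have h4 : (k + 1) * (2 * (q ^ b * g₀)) = (k + 1) * (k * (k + 2)) := by
      rw [← hcard]; ring
    exact Nat.eq_of_mul_eq_mul_left (Nat.succ_pos k) h4
  obtain ⟨m, hm⟩ := typeA_arith k q b g₀ hq hk (by omega) h2 (by omega)
  refine ⟨m, ZMod (k + 1), inferInstance, inferInstance, ZMod.card _, ?_, ⟨e1⟩⟩
  rcases hm with hm | hm
  · left; omega
  · right; omega

/-- **S0997-TYPEA.**  The type-A leg of Brauer–Tuan: a non-cyclic simple group of order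
`p * q ^ b * g₀`, `g₀ < p - 1`, with a faithful irreducible character of degree `(p - 1) / 2` is
`PSL₂(p)` with `p = 2 ^ m ± 1` (via S4504 and the order of `PSL₂(p)`). -/
theorem typeA {G : Type u} [Group G] [Finite G] [IsSimpleGroup G] (hG : ¬ IsCyclic G)
    (p q b g₀ : ℕ) [Fact p.Prime] (hq : q.Prime) (hpq : p ≠ q)
    (hG' : Nat.card G = p * q ^ b * g₀) (hg : g₀ < p - 1)
    (hA : Cfsg.Agent.H78.BT.TypeAOut G p) :
    ∃ (m : ℕ) (F : Type) (_ : Field F) (_ : Fintype F), Fintype.card F = p ∧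
      (p = 2 ^ m + 1 ∨ p = 2 ^ m - 1) ∧
      Nonempty (G ≃* Matrix.ProjectiveSpecialLinearGroup (Fin 2) F) := by
  classical
  have hp : p.Prime := Fact.out
  obtain ⟨χ, hχ, hfaith, hdeg⟩ := hA
  have hg0 : g₀ ≠ 0 := by
    rintro rfl
    rw [mul_zero] at hG'
    exact (Nat.card_pos (α := G)).ne' hG'
  have hpg : ¬ p ∣ g₀ := fun h => by
    have := Nat.le_of_dvd (by omega) h
    omega
  have hpq' : ¬ p ∣ q ^ b := fun h =>
    hpq ((Nat.prime_dvd_prime_iff_eq hp hq).mp (hp.dvd_of_dvd_pow h))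
  have hpm : ¬ p ∣ q ^ b * g₀ := fun h => (hp.dvd_mul.mp h).elim hpq' hpg
  have hdiv : p ∣ Nat.card G := by rw [hG', mul_assoc]; exact dvd_mul_right _ _
  have hsq : ¬ p ^ 2 ∣ Nat.card G := by
    rw [hG', mul_assoc, pow_two]
    intro h
    exact hpm (Nat.dvd_of_mul_dvd_mul_left hp.pos h)
  have hnn : ∀ H : Subgroup G, H.Normal → Nat.card H ≠ p := by
    intro H hH hc
    rcases hH.eq_bot_or_eq_top with rfl | rfl
    · rw [Subgroup.card_bot] at hc
      exact hp.ne_one hc.symm
    · rw [Subgroup.card_top] at hc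
      exact hG (isCyclic_of_prime_card hc)
  have hchar : Cfsg.IsCharacter G χ := by
    obtain ⟨n, ρ, -, hρ⟩ := hχ
    exact ⟨n, ρ, hρ⟩
  obtain ⟨e⟩ := Cfsg.Agent.S4504.result p hp hdiv hsq hnn χ hchar hfaith hdeg
  exact typeA_aux hG p q b g₀ hq hG' hg e

example {G : Type u} [Group G] [Finite G] [IsSimpleGroup G] (hG : ¬ IsCyclic G)
    (p q b g₀ : ℕ) [Fact p.Prime] (hq : q.Prime) (hpq : p ≠ q)
    (hG' : Nat.card G = p * q ^ b * g₀) (hg : g₀ < p - 1)
    (hA : Cfsg.Agent.H78.BT.TypeAOut G p) :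
    ∃ (m : ℕ) (F : Type) (_ : Field F) (_ : Fintype F), Fintype.card F = p ∧
      (p = 2 ^ m + 1 ∨ p = 2 ^ m - 1) ∧
      Nonempty (G ≃* Matrix.ProjectiveSpecialLinearGroup (Fin 2) F) :=
  typeA hG p q b g₀ hq hpq hG' hg hA

end Cfsg.Agent.H70.BT
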