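import Mathlib
import Cfsg.Agent.H59.FRDefs
import Cfsg.Agent.H82.Ramified
import Cfsg.Agent.H82.IndDeg

/-!
# helper70: piece SYL of S4563 -- full ramification passes to subgroups `S ≥ Z` with `|S : Z|`
coprime to `|H : S|`
-/

set_option autoImplicit false

namespace Cfsg.Agent.H70.FR

open Cfsg Cfsg.Agent.Clifford Cfsg.Agent.H59.FR Cfsg.Agent.H4
open scoped ComplexConjugate

universe u

theorem syl : SylStmt.{u} := by
  intro H _ _ Z _ χ θ e he hχθ S hZS hcop
  classical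
  let _ : Fintype H := Fintype.ofFinite H
  let _ : Fintype ↥S := Fintype.ofFinite _
  let _ : Fintype ↥Z := Fintype.ofFinite _
  let _ := fintypeIrr ↥S
  let _ := fintypeIrr ↥Z
  let _ := fintypeIrr H
  have hχchar : IsCharacter H χ.1 := isCharacter_of_isIrrCharacter χ.2
  have hχS : IsCharacter ↥S (fun s : ↥S => χ.1 s) := isCharacter_restrict S hχchar
  -- Step 1: an irreducible constituent of `χ|_S`
  obtain ⟨ν, hν⟩ : ∃ ν : IrrCharacter ↥S, classInner (fun s : ↥S => χ.1 s) ν.1 ≠ 0 := by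
    by_contra hcon
    push Not at hcon
    have h1 := classFunction_eq_finsum (isClassFunction_of_isCharacter hχS)
    have h2 : (fun s : ↥S => χ.1 s) = 0 := by
      rw [h1]
      simp only [hcon, zero_smul]
      exact finsum_zero
    have h3 := congrFun h2 1
    exact Cfsg.Agent.H82.irr_one_ne_zero χ h3
  have hνchar : IsCharacter ↥S ν.1 := isCharacter_of_isIrrCharacter ν.2
  have hνZ : IsCharacter ↥Z (fun z : ↥Z => ν.1 ⟨z, hZS z.2⟩) :=
    isCharacter_comp (Subgroup.inclusion hZS) hνchar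
  have hχZ : (fun n : ↥Z => χ.1 n) = (e : ℂ) • θ.1 := by
    funext n
    rw [hχθ n]
    rfl
  -- Step 2: the other irreducible characters of `Z` do not occur in `ν|_Z`
  have hA : ∀ ϑ : IrrCharacter ↥Z, ϑ ≠ θ →
      classInner (fun z : ↥Z => ν.1 ⟨z, hZS z.2⟩) ϑ.1 = 0 := by
    intro ϑ hϑ
    obtain ⟨b, d, hb, hd, hbd⟩ := res_expand_nat (N := Z) ϑ.2 (T := S) hZS hχchar
    rw [hχZ, classInner_smul_left, irr_inner, if_neg (Ne.symm hϑ), mul_zero,
      finsum_irr_eq_sum] at hbd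
    have hsum : ∑ ψ' : IrrCharacter ↥S, b ψ' * d ψ' = 0 := by exact_mod_cast hbd.symm
    have hterm := Finset.sum_eq_zero_iff.mp hsum ν (Finset.mem_univ ν)
    have hbν : b ν ≠ 0 := by
      intro h0
      apply hν
      rw [hb ν, h0, Nat.cast_zero]
    have hdν : d ν = 0 := by
      rcases Nat.mul_eq_zero.mp hterm with h | h
      · exact absurd h hbν
      · exact h
    rw [hd ν, hdν, Nat.cast_zero]
  -- Step 3: `ν|_Z = b θ`
  obtain ⟨b, hb⟩ := classInner_isCharacter_nat hνZ (isCharacter_of_isIrrCharacter θ.2)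
  have hνZeq : (fun z : ↥Z => ν.1 ⟨z, hZS z.2⟩) = (b : ℂ) • θ.1 := by
    have hexp := classFunction_eq_finsum (isClassFunction_of_isCharacter hνZ)
    rw [finsum_irr_eq_sum] at hexp
    rw [Finset.sum_eq_single θ] at hexp
    · rw [hb] at hexp
      exact hexp
    · intro ϑ _ hϑ
      rw [hA ϑ hϑ, zero_smul]
    · intro h
      exact absurd (Finset.mem_univ _) h
  have hνz : ∀ z : ↥Z, ν.1 ⟨z, hZS z.2⟩ = (b : ℂ) * θ.1 z := fun z => congrFun hνZeq z
  have hθ1 : θ.1 1 ≠ 0 := Cfsg.Agent.H82.irr_one_ne_zero θ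
  have hν1 : ν.1 1 = (b : ℂ) * θ.1 1 := hνz 1
  have hb0 : b ≠ 0 := by
    intro h0
    rw [h0, Nat.cast_zero, zero_mul] at hν1
    exact Cfsg.Agent.H82.irr_one_ne_zero ν hν1
  -- Step 4: `b² ≤ |S : Z|`
  have hcardS : Nat.card ↥S = Z.relIndex S * Nat.card ↥Z := by
    have h1 := Subgroup.card_mul_index (Z.subgroupOf S)
    have h2 : Nat.card ↥(Z.subgroupOf S) = Nat.card ↥Z :=
      Nat.card_congr (Subgroup.subgroupOfEquivOfLe hZS).toEquiv
    rw [h2] at h1
    rw [← h1, Subgroup.relIndex, mul_comm]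
  have hB : b ^ 2 ≤ Z.relIndex S := by
    have h1 := Cfsg.Agent.H82.irr_norm_sq_real ν
    have h2 := Cfsg.Agent.H82.irr_norm_sq_real θ
    have hinj : Function.Injective (Subgroup.inclusion hZS) := Subgroup.inclusion_injective hZS
    have h3 : ∑ z : ↥Z, ‖ν.1 (Subgroup.inclusion hZS z)‖ ^ 2 ≤ ∑ s : ↥S, ‖ν.1 s‖ ^ 2 := by
      have hmap := Finset.sum_map Finset.univ ⟨Subgroup.inclusion hZS, hinj⟩
        (fun s : ↥S => ‖ν.1 s‖ ^ 2)
      calc ∑ z : ↥Z, ‖ν.1 (Subgroup.inclusion hZS z)‖ ^ 2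
          = ∑ s ∈ Finset.univ.map ⟨Subgroup.inclusion hZS, hinj⟩, ‖ν.1 s‖ ^ 2 := hmap.symm
        _ ≤ ∑ s : ↥S, ‖ν.1 s‖ ^ 2 :=
          Finset.sum_le_sum_of_subset_of_nonneg (Finset.subset_univ _)
            (fun _ _ _ => by positivity)
    have h4 : ∑ z : ↥Z, ‖ν.1 (Subgroup.inclusion hZS z)‖ ^ 2 = (b : ℝ) ^ 2 * Nat.card ↥Z := by
      rw [← h2, Finset.mul_sum]
      refine Finset.sum_congr rfl fun z _ => ?_
      have : ν.1 (Subgroup.inclusion hZS z) = (b : ℂ) * θ.1 z := hνz z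
      rw [this, norm_mul, mul_pow, Complex.norm_natCast]
    rw [h4, h1, hcardS] at h3
    push_cast at h3
    have hZpos : (0 : ℝ) < Nat.card ↥Z := by exact_mod_cast Nat.card_pos
    have h5 : (b : ℝ) ^ 2 ≤ (Z.relIndex S : ℝ) := le_of_mul_le_mul_right h3 hZpos
    exact_mod_cast h5
  -- Step 5: `ind ν = n χ`
  have hΦ : IsCharacter H (indFun S ν.1) := isCharacter_indFun S ν.1 hνchar
  have hνθ : classInner (fun z : ↥Z => ν.1 ⟨z, hZS z.2⟩) θ.1 = (b : ℂ) := hb
  have hC : ∀ ζ : IrrCharacter H, ζ ≠ χ → classInner (indFun S ν.1) ζ.1 = 0 := by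
    intro ζ hζ
    by_contra hne
    rw [frobenius_reciprocity S ν.1 ζ.1 (irr_isClassFunction ζ)] at hne
    have hne' : classInner (fun s : ↥S => ζ.1 s) ν.1 ≠ 0 := by
      intro h0
      apply hne
      rw [← classInner_conj_symm, h0, map_zero]
    obtain ⟨b', d', hb', hd', hbd'⟩ := res_expand_nat (N := Z) θ.2 (T := S) hZS
      (isCharacter_of_isIrrCharacter ζ.2)
    rw [Cfsg.Agent.H82.fully_ramified_unique Z χ θ e he hχθ ζ hζ, finsum_irr_eq_sum] at hbd'
    have hsum : ∑ ψ' : IrrCharacter ↥S, b' ψ' * d' ψ' = 0 := by exact_mod_cast hbd'.symm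
    have hterm := Finset.sum_eq_zero_iff.mp hsum ν (Finset.mem_univ ν)
    have hb'ν : b' ν ≠ 0 := by
      intro h0
      apply hne'
      rw [hb' ν, h0, Nat.cast_zero]
    have hd'ν : d' ν ≠ 0 := by
      intro h0
      have := hd' ν
      rw [hνθ, h0] at this
      exact hb0 (by exact_mod_cast this)
    rcases Nat.mul_eq_zero.mp hterm with h | h
    · exact hb'ν h
    · exact hd'ν h
  obtain ⟨n, hn⟩ := classInner_isCharacter_nat hΦ hχchar
  have hΦeq : indFun S ν.1 = (n : ℂ) • χ.1 := by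
    have hexp := classFunction_eq_finsum (isClassFunction_of_isCharacter hΦ)
    rw [finsum_irr_eq_sum] at hexp
    rw [Finset.sum_eq_single χ] at hexp
    · rw [hn] at hexp
      exact hexp
    · intro ζ _ hζ
      rw [hC ζ hζ, zero_smul]
    · intro h
      exact absurd (Finset.mem_univ _) h
  have hdeg : S.index * b = n * e := by
    have h1 := congrFun hΦeq 1
    rw [Cfsg.Agent.H82.indFun_one, hν1] at h1
    have h2 : χ.1 1 = (e : ℂ) * θ.1 1 := hχθ 1
    have h3 : ((n : ℂ) • χ.1) 1 = (n : ℂ) * χ.1 1 := rfl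
    rw [h3, h2] at h1
    have h4 : ((S.index * b : ℕ) : ℂ) * θ.1 1 = ((n * e : ℕ) : ℂ) * θ.1 1 := by
      push_cast
      linear_combination h1
    exact_mod_cast mul_right_cancel₀ hθ1 h4
  -- Step 6: arithmetic
  have hAB : Z.relIndex S * S.index = e ^ 2 := by
    rw [he]
    exact Subgroup.relIndex_mul_index hZS
  have hApos : 0 < Z.relIndex S := by
    rcases Nat.eq_zero_or_pos (Z.relIndex S) with h | h
    · rw [h] at hB
      have hb2 : b ^ 2 = 0 := Nat.le_zero.mp hB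
      exact absurd ((pow_eq_zero_iff (by norm_num)).mp hb2) hb0
    · exact h
  have hBpos : 0 < S.index := Nat.pos_of_ne_zero (Subgroup.index_ne_zero_of_finite)
  obtain ⟨e₁, hA1⟩ := exists_eq_pow_of_mul_eq_pow
    (Nat.isUnit_iff.mpr (by rw [gcd_eq_nat_gcd]; exact hcop)) hAB
  obtain ⟨e₂, hB1⟩ := exists_eq_pow_of_mul_eq_pow
    (Nat.isUnit_iff.mpr (by rw [gcd_eq_nat_gcd]; exact hcop.symm))
    (show S.index * Z.relIndex S = e ^ 2 by rw [mul_comm]; exact hAB)
  have hee : e = e₁ * e₂ := by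
    have h1 : (e₁ * e₂) ^ 2 = e ^ 2 := by rw [mul_pow, ← hA1, ← hB1, hAB]
    exact (Nat.pow_left_injective (by norm_num : (2 : ℕ) ≠ 0) h1).symm
  have he₂pos : 0 < e₂ := by
    rcases Nat.eq_zero_or_pos e₂ with h | h
    · rw [h, zero_pow (by norm_num)] at hB1
      omega
    · exact h
  have hrel : e₂ * b = n * e₁ := by
    rw [hB1, hee] at hdeg
    have h1 : e₂ * (e₂ * b) = e₂ * (n * e₁) := by
      calc e₂ * (e₂ * b) = e₂ ^ 2 * b := by ring
        _ = n * (e₁ * e₂) := hdeg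
        _ = e₂ * (n * e₁) := by ring
    exact Nat.eq_of_mul_eq_mul_left he₂pos h1
  have hcop12 : Nat.Coprime e₁ e₂ := by
    rw [hA1, hB1] at hcop
    exact (Nat.coprime_pow_right_iff (by norm_num) _ _).mp
      ((Nat.coprime_pow_left_iff (by norm_num) _ _).mp hcop)
  have hdvd : e₁ ∣ b := by
    apply hcop12.dvd_of_dvd_mul_left
    rw [hrel]
    exact Dvd.intro_left n rfl
  have hle1 : e₁ ≤ b := Nat.le_of_dvd (Nat.pos_of_ne_zero hb0) hdvd
  have hle2 : b ≤ e₁ := by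
    rw [hA1] at hB
    exact (Nat.pow_le_pow_iff_left (by norm_num : (2 : ℕ) ≠ 0)).mp hB
  have hbe : b = e₁ := le_antisymm hle2 hle1
  exact ⟨ν, e₁, hA1.symm, fun z => by rw [hνz z, hbe]⟩

end Cfsg.Agent.H70.FR
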