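import Mathlib
import Cfsg.Agent.H91.JRDefs

/-!
# helper70: piece P2A of S3206 -- an automorphism of 2-power order fixing the Sylow 2-subgroup
`S ∋ t` pointwise acts on `C_G(t)` as conjugation by an element of `S`
-/

set_option autoImplicit false

namespace Cfsg.Agent.H70.JR

open Subgroup Cfsg.Agent.H91.JR

universe u

section

variable {G : Type u} [Group G]

/-- Step 1: the 2-elements of `C(t)` lie in `N ∪ tN`. -/
theorem two_elt_mem [Finite G] (h1 : Str1Stmt.{u}) (t : G) (E N : Subgroup G)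
    (hs : Setting G t E N) (hab : ∀ S : Sylow 2 G, ∀ x ∈ S, ∀ y ∈ S, x * y = y * x)
    (x : G) (hxt : x * t = t * x) (j : ℕ) (hx : x ^ (2 ^ j) = 1) :
    ∃ v ∈ N, x = v ∨ x = t * v := by
  have hPx : IsPGroup 2 (zpowers x) := by
    rintro ⟨g, hg⟩
    obtain ⟨i, rfl⟩ := mem_zpowers_iff.mp hg
    refine ⟨j, Subtype.ext ?_⟩
    show (x ^ i) ^ (2 ^ j) = 1
    rw [← zpow_natCast, ← zpow_mul, mul_comm, zpow_mul, zpow_natCast, hx, one_zpow]
  have hPt : IsPGroup 2 (zpowers t) := by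
    rintro ⟨g, hg⟩
    obtain ⟨i, rfl⟩ := mem_zpowers_iff.mp hg
    refine ⟨1, Subtype.ext ?_⟩
    show (t ^ i) ^ (2 ^ 1) = 1
    rw [← zpow_natCast, ← zpow_mul, mul_comm, zpow_mul, zpow_natCast, pow_one, pow_two,
      hs.t_sq, one_zpow]
  have hnorm : zpowers x ≤ normalizer (zpowers t : Set G) := by
    rw [zpowers_le]
    apply centralizer_le_normalizer
    rw [mem_centralizer_iff]
    intro h hh
    obtain ⟨i, rfl⟩ := mem_zpowers_iff.mp hh
    exact ((show Commute x t from hxt).zpow_right i).eq.symm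
  have hP := IsPGroup.to_sup_of_normal_right' hPx hPt hnorm
  obtain ⟨S', hS'⟩ := hP.exists_le_sylow
  have hxS' : x ∈ S' := hS' (mem_sup_left (mem_zpowers x))
  have htS' : t ∈ S' := hS' (mem_sup_right (mem_zpowers t))
  obtain ⟨-, -, -, h4⟩ := h1 t E N hs hab S' htS'
  obtain ⟨v, hvN, -, hv⟩ := h4 x hxS'
  exact ⟨v, hvN, hv⟩

/-- Step 3: an automorphism fixing `S` pointwise maps `N` into `N`. -/
theorem map_mem_N [Finite G] (h1 : Str1Stmt.{u}) (t : G) (E N : Subgroup G)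
    (hs : Setting G t E N) (hab : ∀ S : Sylow 2 G, ∀ x ∈ S, ∀ y ∈ S, x * y = y * x)
    (S : Sylow 2 G) (htS : t ∈ S) (ψ : G ≃* G) (hψS : ∀ s ∈ S, ψ s = s) :
    ∀ n ∈ N, ψ n ∈ N := by
  obtain ⟨-, -, ⟨V, hV⟩, -⟩ := h1 t E N hs hab S htS
  obtain ⟨hsimple, hpsl⟩ := hs.psl
  obtain ⟨⟨hV4, -⟩, -, -⟩ := hpsl V
  have htop : normalClosure ((V : Subgroup ↥N) : Set ↥N) = ⊤ := by
    rcases IsSimpleGroup.eq_bot_or_eq_top_of_normal
      (normalClosure ((V : Subgroup ↥N) : Set ↥N)) inferInstance with h | h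
    · exfalso
      have hle : (V : Subgroup ↥N) ≤ ⊥ := h ▸ le_normalClosure
      have hbot : (V : Subgroup ↥N) = ⊥ := le_bot_iff.mp hle
      rw [hbot, Subgroup.card_bot] at hV4
      omega
    · exact h
  have hψt : ψ t = t := hψS t htS
  have hcent : ∀ g : G, g * t = t * g → ∃ e ∈ E, ψ g = e ∨ ψ g = t * e := by
    intro g hg
    apply hs.cent
    calc ψ g * t = ψ g * ψ t := by rw [hψt]
      _ = ψ (g * t) := (map_mul ψ g t).symm
      _ = ψ (t * g) := by rw [hg]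
      _ = ψ t * ψ g := map_mul ψ t g
      _ = t * ψ g := by rw [hψt]
  have key : ∀ y : ↥N, y ∈ normalClosure ((V : Subgroup ↥N) : Set ↥N) → ψ (y : G) ∈ N := by
    intro y hy
    rw [normalClosure] at hy
    induction hy using Subgroup.closure_induction with
    | mem y hy =>
      obtain ⟨v, hv, hconj⟩ := Group.mem_conjugatesOfSet_iff.mp hy
      obtain ⟨g, rfl⟩ := isConj_iff.mp hconj
      have hvS : (v : G) ∈ S := (hV v).mp hv
      have hψv : ψ (v : G) = v := hψS _ hvS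
      have hgt : (g : G) * t = t * g := hs.comm _ (hs.N_le g.2)
      obtain ⟨e, he, hcase⟩ := hcent g hgt
      have hval : ψ ((g * v * g⁻¹ : ↥N) : G) = ψ (g : G) * (v : G) * (ψ (g : G))⁻¹ := by
        simp [map_mul, map_inv, hψv]
      rw [hval]
      have hev : e * (v : G) * e⁻¹ ∈ N := hs.norm e he v v.2
      rcases hcase with h | h
      · rw [h]; exact hev
      · rw [h]
        have hc : (e * (v : G) * e⁻¹) * t = t * (e * (v : G) * e⁻¹) := hs.comm _ (hs.N_le hev)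
        have heq : t * e * (v : G) * (t * e)⁻¹ = e * (v : G) * e⁻¹ := by
          calc t * e * (v : G) * (t * e)⁻¹ = t * (e * (v : G) * e⁻¹) * t⁻¹ := by group
            _ = (e * (v : G) * e⁻¹) * t * t⁻¹ := by rw [hc]
            _ = e * (v : G) * e⁻¹ := by rw [mul_inv_cancel_right]
        rw [heq]; exact hev
    | one =>
      have : ψ ((1 : ↥N) : G) = 1 := by simp
      rw [this]; exact N.one_mem
    | mul a b _ _ ha hb =>
      have : ψ ((a * b : ↥N) : G) = ψ (a : G) * ψ (b : G) := by simp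
      rw [this]; exact N.mul_mem ha hb
    | inv a _ ha =>
      have : ψ ((a⁻¹ : ↥N) : G) = (ψ (a : G))⁻¹ := by simp
      rw [this]; exact N.inv_mem ha
  intro n hn
  exact key ⟨n, hn⟩ (by rw [htop]; trivial)

/-- **S3206-P2A.** -/
theorem p2a (h1 : Str1Stmt.{u}) : P2aStmt.{u} := by
  intro G _ _ t E N hs hab S htS φ k hφk hφS
  obtain ⟨hexp, -, ⟨V, hV⟩, -⟩ := h1 t E N hs hab S htS
  obtain ⟨hsimple, hpsl⟩ := hs.psl
  obtain ⟨-, -, hpslB⟩ := hpsl V
  have hφN : ∀ n ∈ N, φ n ∈ N := map_mem_N h1 t E N hs hab S htS φ hφS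
  have hφsymmS : ∀ s ∈ S, φ.symm s = s := fun s hs' => by
    rw [MulEquiv.symm_apply_eq]; exact (hφS s hs').symm
  have hφN' : ∀ n ∈ N, φ.symm n ∈ N := map_mem_N h1 t E N hs hab S htS φ.symm hφsymmS
  let α : ↥N ≃* ↥N :=
    { toFun := fun n => ⟨φ n, hφN n n.2⟩
      invFun := fun n => ⟨φ.symm n, hφN' n n.2⟩
      left_inv := fun n => Subtype.ext (φ.symm_apply_apply n)
      right_inv := fun n => Subtype.ext (φ.apply_symm_apply n)
      map_mul' := fun a b => Subtype.ext (map_mul φ (a : G) (b : G)) }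
  have hα : ∀ (m : ℕ) (x : ↥N), Subtype.val ((α ^ m) x) = (φ ^ m) (Subtype.val x) := by
    intro m
    induction m with
    | zero => intro x; rw [pow_zero, pow_zero]; rfl
    | succ m ih =>
      intro x
      rw [pow_succ, pow_succ]
      show Subtype.val ((α ^ m) (α x)) = (φ ^ m) (φ (Subtype.val x))
      rw [ih]
      rfl
  have hαk : α ^ (2 ^ k) = 1 := by
    ext x
    rw [hα, hφk]; rfl
  have hαV : ∀ v ∈ (V : Subgroup ↥N), α v = v := by
    intro v hv
    apply Subtype.ext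
    exact hφS _ ((hV v).mp hv)
  obtain ⟨w, hwV, hw⟩ := hpslB α k hαk hαV
  have hwS : (w : G) ∈ S := (hV w).mp hwV
  have hφn : ∀ n ∈ N, φ n = w * n * (w : G)⁻¹ := by
    intro n hn
    have h2 : ((w * ⟨n, hn⟩ * w⁻¹ : ↥N) : G) = w * n * (w : G)⁻¹ := by simp
    rw [← h2]
    exact congrArg Subtype.val (hw ⟨n, hn⟩)
  refine ⟨w, hwS, ?_⟩
  have hwt : (w : G) * t = t * w := hab S _ hwS _ htS
  let ψ : G →* G := MonoidHom.mk' (fun g => (w : G)⁻¹ * φ g * w) (by
    intro a b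
    show (w : G)⁻¹ * φ (a * b) * w = (w : G)⁻¹ * φ a * w * ((w : G)⁻¹ * φ b * w)
    rw [map_mul]
    group)
  have hψ : ∀ g, ψ g = (w : G)⁻¹ * φ g * w := fun g => rfl
  have hψN : ∀ n ∈ N, ψ n = n := by
    intro n hn
    rw [hψ, hφn n hn]; group
  have hψt : ψ t = t := by
    rw [hψ, hφS t htS, mul_assoc, ← hwt, inv_mul_cancel_left]
  -- (A)
  have hA : ∀ e ∈ E, ψ e = e ∨ ψ e = e * t := by
    intro e he
    have het : e * t = t * e := hs.comm e he
    have hψet : ψ e * t = t * ψ e := by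
      calc ψ e * t = ψ e * ψ t := by rw [hψt]
        _ = ψ (e * t) := (map_mul ψ e t).symm
        _ = ψ (t * e) := by rw [het]
        _ = ψ t * ψ e := map_mul ψ t e
        _ = t * ψ e := by rw [hψt]
    have heinv : e⁻¹ * t = t * e⁻¹ := by
      calc e⁻¹ * t = e⁻¹ * (t * e) * e⁻¹ := by group
        _ = e⁻¹ * (e * t) * e⁻¹ := by rw [het]
        _ = t * e⁻¹ := by group
    have hdt : (e⁻¹ * ψ e) * t = t * (e⁻¹ * ψ e) := by
      calc (e⁻¹ * ψ e) * t = e⁻¹ * (ψ e * t) := by group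
        _ = e⁻¹ * (t * ψ e) := by rw [hψet]
        _ = (e⁻¹ * t) * ψ e := by group
        _ = (t * e⁻¹) * ψ e := by rw [heinv]
        _ = t * (e⁻¹ * ψ e) := by group
    have hdN : ∀ n ∈ N, (e⁻¹ * ψ e) * n = n * (e⁻¹ * ψ e) := by
      intro n hn
      have h1' : ψ (e * n * e⁻¹) = e * n * e⁻¹ := hψN _ (hs.norm e he n hn)
      rw [map_mul, map_mul, map_inv, hψN n hn] at h1'
      have h2 : ψ e * n = e * n * e⁻¹ * ψ e := by
        rw [← h1']; group
      calc (e⁻¹ * ψ e) * n = e⁻¹ * (ψ e * n) := by group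
        _ = e⁻¹ * (e * n * e⁻¹ * ψ e) := by rw [h2]
        _ = n * (e⁻¹ * ψ e) := by group
    obtain ⟨e', he', hcase⟩ := hs.cent _ hdt
    rcases hcase with h | h
    · have he1 : e' = 1 := hs.faith e' he' (fun n hn => by rw [← h]; exact hdN n hn)
      left
      rw [he1] at h
      calc ψ e = e * (e⁻¹ * ψ e) := by group
        _ = e := by rw [h, mul_one]
    · have he'eq : e' = t * (e⁻¹ * ψ e) := by
        rw [h, ← mul_assoc, hs.t_sq, one_mul]
      have he1 : e' = 1 := hs.faith e' he' (fun n hn => by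
        have hnt : n * t = t * n := hs.comm n (hs.N_le hn)
        rw [he'eq]
        calc t * (e⁻¹ * ψ e) * n = t * ((e⁻¹ * ψ e) * n) := by group
          _ = t * (n * (e⁻¹ * ψ e)) := by rw [hdN n hn]
          _ = (t * n) * (e⁻¹ * ψ e) := by group
          _ = (n * t) * (e⁻¹ * ψ e) := by rw [hnt]
          _ = n * (t * (e⁻¹ * ψ e)) := by group)
      right
      rw [he1, mul_one] at h
      calc ψ e = e * (e⁻¹ * ψ e) := by group
        _ = e * t := by rw [h]
  -- (B)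
  have hB : ∀ e ∈ E, ∀ m : ℕ, Odd m → e ^ m = 1 → ψ e = e := by
    intro e he m hm hem
    rcases hA e he with h | h
    · exact h
    · exfalso
      have h3 : (e * t) ^ m = 1 := by rw [← h, ← map_pow, hem, map_one]
      have hc : Commute e t := hs.comm e he
      rw [hc.mul_pow, hem, one_mul] at h3
      obtain ⟨r, rfl⟩ := hm
      rw [pow_succ, pow_mul, pow_two, hs.t_sq, one_pow, one_mul] at h3
      exact hs.t_ne h3
  -- (C)
  have hC : ∀ e ∈ E, ∀ j : ℕ, e ^ (2 ^ j) = 1 → ψ e = e := by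
    intro e he j hej
    obtain ⟨v, hvN, hv⟩ := two_elt_mem h1 t E N hs hab e (hs.comm e he) j hej
    rcases hv with h | h
    · rw [h]; exact hψN v hvN
    · exfalso
      apply hs.t_not
      have hte : t = e * v⁻¹ := by rw [h]; group
      rw [hte]
      exact E.mul_mem he (E.inv_mem (hs.N_le hvN))
  -- (D)
  have hD : ∀ e ∈ E, ψ e = e := by
    intro e he
    have hpos : orderOf e ≠ 0 := (orderOf_pos e).ne'
    obtain ⟨a, m, hm, hord⟩ := Nat.exists_eq_two_pow_mul_odd hpos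
    have hcop : Nat.Coprime (2 ^ a) m := Nat.Coprime.pow_left a (Nat.coprime_two_left.mpr hm)
    have hbez : ((2 : ℤ) ^ a) * Nat.gcdA (2 ^ a) m + (m : ℤ) * Nat.gcdB (2 ^ a) m = 1 := by
      have := Nat.gcd_eq_gcd_ab (2 ^ a) m
      rw [hcop.gcd_eq_one] at this
      push_cast at this
      linarith
    have hdec : e = e ^ (((2 : ℤ) ^ a) * Nat.gcdA (2 ^ a) m) * e ^ ((m : ℤ) * Nat.gcdB (2 ^ a) m) := by
      rw [← zpow_add, hbez, zpow_one]
    have h1e : (e ^ (((2 : ℤ) ^ a) * Nat.gcdA (2 ^ a) m)) ^ m = 1 := by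
      rw [← zpow_natCast, ← zpow_mul]
      have : ((2 : ℤ) ^ a) * Nat.gcdA (2 ^ a) m * (m : ℤ) = ((orderOf e : ℕ) : ℤ) * Nat.gcdA (2 ^ a) m := by
        rw [hord]; push_cast; ring
      rw [this, zpow_mul, zpow_natCast, pow_orderOf_eq_one, one_zpow]
    have h2e : (e ^ ((m : ℤ) * Nat.gcdB (2 ^ a) m)) ^ (2 ^ a) = 1 := by
      rw [← zpow_natCast, ← zpow_mul]
      have : (m : ℤ) * Nat.gcdB (2 ^ a) m * ((2 ^ a : ℕ) : ℤ) = ((orderOf e : ℕ) : ℤ) * Nat.gcdB (2 ^ a) m := by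
        rw [hord]; push_cast; ring
      rw [this, zpow_mul, zpow_natCast, pow_orderOf_eq_one, one_zpow]
    have hm1 := hB _ (E.zpow_mem he _) m hm h1e
    have hm2 := hC _ (E.zpow_mem he _) a h2e
    have hfin : ψ (e ^ (((2 : ℤ) ^ a) * Nat.gcdA (2 ^ a) m) * e ^ ((m : ℤ) * Nat.gcdB (2 ^ a) m)) =
        e ^ (((2 : ℤ) ^ a) * Nat.gcdA (2 ^ a) m) * e ^ ((m : ℤ) * Nat.gcdB (2 ^ a) m) := by
      rw [map_mul, hm1, hm2]
    rwa [← hdec] at hfin
  -- (E)
  intro g hg
  obtain ⟨e, he, hcase⟩ := hs.cent g hg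
  have hψg : ψ g = g := by
    rcases hcase with h | h
    · rw [h]; exact hD e he
    · rw [h, map_mul, hψt, hD e he]
  rw [hψ] at hψg
  calc φ g = w * ((w : G)⁻¹ * φ g * w) * (w : G)⁻¹ := by group
    _ = w * g * (w : G)⁻¹ := by rw [hψg]

end

end Cfsg.Agent.H70.JR
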