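import Mathlib
import Cfsg.Agent.H91.L34NDefs
import Cfsg.Agent.H7.SL2

/-!
# helper70: piece NORM1 of S3154 -- `N(e1) = e1 ⋊ j(SL₂(F))` in `PSL₃(4)`

`j A` is the class of `diag(A, 1)`; the unitriangular subgroup of `SL₂(F)` is mapped into `e2`.
-/

set_option autoImplicit false

namespace Cfsg.Agent.H70.L34

open Subgroup Cfsg.Agent.H60 Cfsg.Agent.H60.L34 Cfsg.Agent.H91.L34N

universe u

section

variable {F : Type u} [Field F]

/-- `diag(A, 1)`. -/
def dmat (A : Matrix (Fin 2) (Fin 2) F) : Matrix (Fin 3) (Fin 3) F :=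
  !![A 0 0, A 0 1, 0; A 1 0, A 1 1, 0; 0, 0, 1]

theorem dmat_det (A : Matrix (Fin 2) (Fin 2) F) : (dmat A).det = A.det := by
  rw [Matrix.det_fin_three, Matrix.det_fin_two]
  simp [dmat]

theorem dmat_mul (A B : Matrix (Fin 2) (Fin 2) F) : dmat A * dmat B = dmat (A * B) := by
  ext i j
  fin_cases i <;> fin_cases j <;>
    simp [dmat, Matrix.mul_apply, Fin.sum_univ_three, Fin.sum_univ_two]

theorem dmat_one : dmat (1 : Matrix (Fin 2) (Fin 2) F) = 1 := by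
  ext i j
  fin_cases i <;> fin_cases j <;> simp [dmat]

/-- `A ↦ diag(A, 1)` as a homomorphism `SL₂ → SL₃`. -/
def dSL : Matrix.SpecialLinearGroup (Fin 2) F →* Matrix.SpecialLinearGroup (Fin 3) F where
  toFun A := ⟨dmat A.1, by rw [dmat_det]; exact A.2⟩
  map_one' := Subtype.ext dmat_one
  map_mul' A B := Subtype.ext (dmat_mul A.1 B.1).symm

/-- `A ↦` the class of `diag(A, 1)`. -/
def jj : Matrix.SpecialLinearGroup (Fin 2) F →* Matrix.ProjectiveSpecialLinearGroup (Fin 3) F :=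
  (QuotientGroup.mk' (Subgroup.center (Matrix.SpecialLinearGroup (Fin 3) F))).comp dSL

theorem psl_eq_iff (X Y : Matrix.SpecialLinearGroup (Fin 3) F) :
    QuotientGroup.mk' (Subgroup.center (Matrix.SpecialLinearGroup (Fin 3) F)) X =
      QuotientGroup.mk' (Subgroup.center (Matrix.SpecialLinearGroup (Fin 3) F)) Y ↔
    ∃ c : F, c ^ 3 = 1 ∧ Y.1 = c • X.1 := by
  rw [QuotientGroup.mk'_apply, QuotientGroup.mk'_apply, QuotientGroup.eq,
    Matrix.SpecialLinearGroup.mem_center_iff]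
  have hinv : (X⁻¹).1 * X.1 = 1 := by
    rw [← Matrix.SpecialLinearGroup.coe_mul, inv_mul_cancel]; rfl
  have hmul : X.1 * (X⁻¹).1 = 1 := by
    rw [← Matrix.SpecialLinearGroup.coe_mul, mul_inv_cancel]; rfl
  constructor
  · rintro ⟨c, hc, hsc⟩
    refine ⟨c, by simpa using hc, ?_⟩
    have h1 : X.1 * (X⁻¹ * Y).1 = Y.1 := by
      rw [Matrix.SpecialLinearGroup.coe_mul, ← Matrix.mul_assoc, hmul, Matrix.one_mul]
    rw [← h1, ← hsc]
    ext i j
    simp [Matrix.mul_apply, Matrix.scalar_apply, Matrix.diagonal_apply, mul_comm]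
  · rintro ⟨c, hc, hY⟩
    refine ⟨c, by simpa using hc, ?_⟩
    rw [Matrix.SpecialLinearGroup.coe_mul, hY, Matrix.mul_smul, hinv]
    ext i j
    simp [Matrix.scalar_apply, Matrix.diagonal_apply, Matrix.one_apply]

theorem heisPSL_apply (h : Heis F) :
    heisPSL h = QuotientGroup.mk' (Subgroup.center (Matrix.SpecialLinearGroup (Fin 3) F))
      (heisSL h) := rfl

theorem jj_apply (A : Matrix.SpecialLinearGroup (Fin 2) F) :
    jj A = QuotientGroup.mk' (Subgroup.center (Matrix.SpecialLinearGroup (Fin 3) F))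
      (dSL A) := rfl

/-- `j(SL₂) ∩ e1 = 1`. -/
theorem jj_mem_e1 (A : Matrix.SpecialLinearGroup (Fin 2) F) (hA : jj A ∈ e1 F) : A = 1 := by
  obtain ⟨h, hh, he⟩ := hA
  have hp : h.p = 0 := hh
  rw [heisPSL_apply, jj_apply, psl_eq_iff] at he
  obtain ⟨c, hc, hY⟩ := he
  have hY' : dmat A.1 = c • hmat h := hY
  have h22 := congrFun (congrFun hY' 2) 2
  have h00 := congrFun (congrFun hY' 0) 0
  have h01 := congrFun (congrFun hY' 0) 1
  have h10 := congrFun (congrFun hY' 1) 0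
  have h11 := congrFun (congrFun hY' 1) 1
  simp [dmat, hmat, hp] at h22 h00 h01 h10 h11
  subst h22
  ext i j
  fin_cases i <;> fin_cases j <;> simp [h00, h01, h10, h11]

/-- `j(SL₂)` normalizes `e1`. -/
theorem jj_conj_mem (A : Matrix.SpecialLinearGroup (Fin 2) F)
    (e : Matrix.ProjectiveSpecialLinearGroup (Fin 3) F) (he : e ∈ e1 F) :
    jj A * e * (jj A)⁻¹ ∈ e1 F := by
  obtain ⟨h, hh, rfl⟩ := he
  have hp : h.p = 0 := hh
  refine ⟨⟨0, A.1 1 0 * h.r + A.1 1 1 * h.s, A.1 0 0 * h.r + A.1 0 1 * h.s⟩,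
    mk_mem_sgA _ _, ?_⟩
  rw [eq_mul_inv_iff_mul_eq, heisPSL_apply, heisPSL_apply, jj_apply, ← map_mul, ← map_mul]
  congr 1
  apply Subtype.ext
  show hmat _ * dmat A.1 = dmat A.1 * hmat h
  ext i j
  fin_cases i <;> fin_cases j <;>
    simp [dmat, hmat, hp, Matrix.mul_apply, Fin.sum_univ_three]

/-- The unitriangular subgroup of `SL₂` is mapped into `e2`. -/
theorem jj_unip (u : Matrix.SpecialLinearGroup (Fin 2) F) (hu : u ∈ Cfsg.Agent.H7.slUnip F) :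
    jj u ∈ e2 F := by
  obtain ⟨u00, u10, u11⟩ := hu
  refine ⟨⟨u.1 0 1, 0, 0⟩, mk_mem_sgB _ _, ?_⟩
  rw [heisPSL_apply, jj_apply]
  congr 1
  apply Subtype.ext
  show hmat _ = dmat u.1
  ext i j
  fin_cases i <;> fin_cases j <;> simp [dmat, hmat, u00, u10, u11]

theorem unip_index [Fintype F] (hF : Fintype.card F = 4) :
    Odd (Cfsg.Agent.H7.slUnip F).index := by
  have h1 := Cfsg.Agent.H7.card_SL2 (F := F)
  have h2 := Cfsg.Agent.H7.card_slUnip (F := F)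
  have h3 := Subgroup.card_mul_index (Cfsg.Agent.H7.slUnip F)
  rw [h1, h2, hF] at h3
  have h15 : (Cfsg.Agent.H7.slUnip F).index = 15 := by omega
  rw [h15]
  decide

/-- `N(e1) ≤ e1 · j(SL₂)`. -/
theorem norm_le [Fintype F] (hF : Fintype.card F = 4)
    (g : Matrix.ProjectiveSpecialLinearGroup (Fin 3) F)
    (hg : ∀ e ∈ e1 F, g * e * g⁻¹ ∈ e1 F) :
    ∃ e ∈ e1 F, ∃ A : Matrix.SpecialLinearGroup (Fin 2) F, g = e * jj A := by
  obtain ⟨G, rfl⟩ := QuotientGroup.mk'_surjective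
    (Subgroup.center (Matrix.SpecialLinearGroup (Fin 3) F)) g
  have key : ∀ h : Heis F, h.p = 0 → ∃ h' : Heis F, h'.p = 0 ∧ ∃ c : F, c ^ 3 = 1 ∧
      hmat h' * G.1 = c • (G.1 * hmat h) := by
    intro h hp
    obtain ⟨h', hh', he⟩ := hg (heisPSL h) ⟨h, hp, rfl⟩
    refine ⟨h', hh', ?_⟩
    rw [eq_mul_inv_iff_mul_eq, heisPSL_apply, heisPSL_apply, ← map_mul, ← map_mul, eq_comm,
      psl_eq_iff] at he
    obtain ⟨c, hc, hY⟩ := he
    exact ⟨c, hc, hY⟩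
  have h20 : G.1 2 0 = 0 := by
    obtain ⟨h', hp', c, hc, hY⟩ := key ⟨0, 0, 1⟩ rfl
    have e0 := congrFun (congrFun hY 2) 0
    have e2 := congrFun (congrFun hY 2) 2
    simp [hmat, hp', Matrix.mul_apply, Fin.sum_univ_three] at e0 e2
    by_contra hne
    have hc1 : c = 1 := by
      have h0 : (c - 1) * G.1 2 0 = 0 := by linear_combination -e0
      rcases mul_eq_zero.mp h0 with h | h
      · linear_combination h
      · exact absurd h hne
    rw [hc1] at e2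
    apply hne
    linear_combination -e2
  have h21 : G.1 2 1 = 0 := by
    obtain ⟨h', hp', c, hc, hY⟩ := key ⟨0, 1, 0⟩ rfl
    have e1 := congrFun (congrFun hY 2) 1
    have e2 := congrFun (congrFun hY 2) 2
    simp [hmat, hp', Matrix.mul_apply, Fin.sum_univ_three] at e1 e2
    by_contra hne
    have hc1 : c = 1 := by
      have h0 : (c - 1) * G.1 2 1 = 0 := by linear_combination -e1
      rcases mul_eq_zero.mp h0 with h | h
      · linear_combination h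
      · exact absurd h hne
    rw [hc1] at e2
    apply hne
    linear_combination -e2
  have hdet : G.1 2 2 * (G.1 0 0 * G.1 1 1 - G.1 0 1 * G.1 1 0) = 1 := by
    have := G.2
    rw [Matrix.det_fin_three, h20, h21] at this
    linear_combination this
  have hd : G.1 2 2 ≠ 0 := by
    intro h0
    rw [h0, zero_mul] at hdet
    exact zero_ne_one hdet
  have hd3 : G.1 2 2 ^ 3 = 1 := by
    have := FiniteField.pow_card_sub_one_eq_one (G.1 2 2) hd
    rwa [hF] at this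
  have hdd : G.1 2 2 * (G.1 2 2)⁻¹ = 1 := mul_inv_cancel₀ hd
  have hdi : (G.1 2 2)⁻¹ ^ 3 = 1 := by rw [inv_pow, hd3, inv_one]
  have hBdet : (!![(G.1 2 2)⁻¹ * G.1 0 0, (G.1 2 2)⁻¹ * G.1 0 1;
      (G.1 2 2)⁻¹ * G.1 1 0, (G.1 2 2)⁻¹ * G.1 1 1] : Matrix (Fin 2) (Fin 2) F).det = 1 := by
    rw [Matrix.det_fin_two_of]
    linear_combination hdi + (G.1 2 2)⁻¹ ^ 3 * hdet -
      (G.1 2 2)⁻¹ ^ 2 * (G.1 0 0 * G.1 1 1 - G.1 0 1 * G.1 1 0) * hdd
  obtain ⟨B, hB⟩ : ∃ B : Matrix.SpecialLinearGroup (Fin 2) F,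
      B.1 = !![(G.1 2 2)⁻¹ * G.1 0 0, (G.1 2 2)⁻¹ * G.1 0 1;
        (G.1 2 2)⁻¹ * G.1 1 0, (G.1 2 2)⁻¹ * G.1 1 1] := ⟨⟨_, hBdet⟩, rfl⟩
  refine ⟨heisPSL ⟨0, (G.1 2 2)⁻¹ * G.1 1 2, (G.1 2 2)⁻¹ * G.1 0 2⟩,
    ⟨_, mk_mem_sgA _ _, rfl⟩, B, ?_⟩
  rw [heisPSL_apply, jj_apply, ← map_mul, psl_eq_iff]
  refine ⟨(G.1 2 2)⁻¹, hdi, ?_⟩
  show hmat _ * dmat B.1 = (G.1 2 2)⁻¹ • G.1
  rw [hB]
  ext i j
  fin_cases i <;> fin_cases j <;>
    simp [hmat, dmat, Matrix.mul_apply, Fin.sum_univ_three, h20, h21, hd]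

/-- **S3154-NORM1.** -/
theorem norm1 : Norm1Stmt.{u} := by
  intro F _ _ hF
  refine ⟨jj, Cfsg.Agent.H7.slUnip F, ?_, jj_mem_e1, jj_conj_mem, norm_le hF, unip_index hF,
    jj_unip⟩
  rw [injective_iff_map_eq_one]
  intro A hA
  exact jj_mem_e1 A (hA ▸ one_mem _)

end

end Cfsg.Agent.H70.L34
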