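import Mathlib
import Cfsg.Agent.H70.L34Norm1

/-!
# helper70: piece NORM2 of S3154 -- `N(e2) = e2 ⋊ j(SL₂(F))` in `PSL₃(4)`

`j A` is the class of `diag(1, A)`; the unitriangular subgroup of `SL₂(F)` is mapped into `e1`.
-/

set_option autoImplicit false

namespace Cfsg.Agent.H70.L34

open Subgroup Cfsg.Agent.H60 Cfsg.Agent.H60.L34 Cfsg.Agent.H91.L34N

universe u

section

variable {F : Type u} [Field F]

/-- `diag(1, A)`. -/
def dmat2 (A : Matrix (Fin 2) (Fin 2) F) : Matrix (Fin 3) (Fin 3) F :=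
  !![1, 0, 0; 0, A 0 0, A 0 1; 0, A 1 0, A 1 1]

theorem dmat2_det (A : Matrix (Fin 2) (Fin 2) F) : (dmat2 A).det = A.det := by
  rw [Matrix.det_fin_three, Matrix.det_fin_two]
  simp [dmat2]

theorem dmat2_mul (A B : Matrix (Fin 2) (Fin 2) F) : dmat2 A * dmat2 B = dmat2 (A * B) := by
  ext i j
  fin_cases i <;> fin_cases j <;>
    simp [dmat2, Matrix.mul_apply, Fin.sum_univ_three, Fin.sum_univ_two]

theorem dmat2_one : dmat2 (1 : Matrix (Fin 2) (Fin 2) F) = 1 := by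
  ext i j
  fin_cases i <;> fin_cases j <;> simp [dmat2]

/-- `A ↦ diag(1, A)` as a homomorphism `SL₂ → SL₃`. -/
def dSL2 : Matrix.SpecialLinearGroup (Fin 2) F →* Matrix.SpecialLinearGroup (Fin 3) F where
  toFun A := ⟨dmat2 A.1, by rw [dmat2_det]; exact A.2⟩
  map_one' := Subtype.ext dmat2_one
  map_mul' A B := Subtype.ext (dmat2_mul A.1 B.1).symm

/-- `A ↦` the class of `diag(1, A)`. -/
def jj2 : Matrix.SpecialLinearGroup (Fin 2) F →* Matrix.ProjectiveSpecialLinearGroup (Fin 3) F :=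
  (QuotientGroup.mk' (Subgroup.center (Matrix.SpecialLinearGroup (Fin 3) F))).comp dSL2

theorem jj2_apply (A : Matrix.SpecialLinearGroup (Fin 2) F) :
    jj2 A = QuotientGroup.mk' (Subgroup.center (Matrix.SpecialLinearGroup (Fin 3) F))
      (dSL2 A) := rfl

/-- `j(SL₂) ∩ e2 = 1`. -/
theorem jj2_mem_e2 (A : Matrix.SpecialLinearGroup (Fin 2) F) (hA : jj2 A ∈ e2 F) : A = 1 := by
  obtain ⟨h, hh, he⟩ := hA
  have hs : h.s = 0 := hh
  rw [heisPSL_apply, jj2_apply, psl_eq_iff] at he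
  obtain ⟨c, hc, hY⟩ := he
  have hY' : dmat2 A.1 = c • hmat h := hY
  have h00 := congrFun (congrFun hY' 0) 0
  have h11 := congrFun (congrFun hY' 1) 1
  have h12 := congrFun (congrFun hY' 1) 2
  have h21 := congrFun (congrFun hY' 2) 1
  have h22 := congrFun (congrFun hY' 2) 2
  simp [dmat2, hmat, hs] at h00 h11 h12 h21 h22
  subst h00
  ext i j
  fin_cases i <;> fin_cases j <;> simp [h11, h12, h21, h22]

/-- `j(SL₂)` normalizes `e2`. -/
theorem jj2_conj_mem (A : Matrix.SpecialLinearGroup (Fin 2) F)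
    (e : Matrix.ProjectiveSpecialLinearGroup (Fin 3) F) (he : e ∈ e2 F) :
    jj2 A * e * (jj2 A)⁻¹ ∈ e2 F := by
  obtain ⟨h, hh, rfl⟩ := he
  have hs : h.s = 0 := hh
  have hdet := Cfsg.Agent.H7.sl2_det A
  refine ⟨⟨h.p * A.1 1 1 - h.r * A.1 1 0, 0, -h.p * A.1 0 1 + h.r * A.1 0 0⟩,
    mk_mem_sgB _ _, ?_⟩
  rw [eq_mul_inv_iff_mul_eq, heisPSL_apply, heisPSL_apply, jj2_apply, ← map_mul, ← map_mul]
  congr 1
  apply Subtype.ext
  show hmat _ * dmat2 A.1 = dmat2 A.1 * hmat h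
  ext i j
  fin_cases i <;> fin_cases j <;>
    simp [dmat2, hmat, hs, Matrix.mul_apply, Fin.sum_univ_three]
  · linear_combination h.p * hdet
  · linear_combination h.r * hdet

/-- The unitriangular subgroup of `SL₂` is mapped into `e1`. -/
theorem jj2_unip (u : Matrix.SpecialLinearGroup (Fin 2) F) (hu : u ∈ Cfsg.Agent.H7.slUnip F) :
    jj2 u ∈ e1 F := by
  obtain ⟨u00, u10, u11⟩ := hu
  refine ⟨⟨0, u.1 0 1, 0⟩, mk_mem_sgA _ _, ?_⟩
  rw [heisPSL_apply, jj2_apply]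
  congr 1
  apply Subtype.ext
  show hmat _ = dmat2 u.1
  ext i j
  fin_cases i <;> fin_cases j <;> simp [dmat2, hmat, u00, u10, u11]

/-- `N(e2) ≤ e2 · j(SL₂)`. -/
theorem norm2_le [Fintype F] (hF : Fintype.card F = 4)
    (g : Matrix.ProjectiveSpecialLinearGroup (Fin 3) F)
    (hg : ∀ e ∈ e2 F, g * e * g⁻¹ ∈ e2 F) :
    ∃ e ∈ e2 F, ∃ A : Matrix.SpecialLinearGroup (Fin 2) F, g = e * jj2 A := by
  obtain ⟨G, rfl⟩ := QuotientGroup.mk'_surjective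
    (Subgroup.center (Matrix.SpecialLinearGroup (Fin 3) F)) g
  have key : ∀ h : Heis F, h.s = 0 → ∃ h' : Heis F, h'.s = 0 ∧ ∃ c : F, c ^ 3 = 1 ∧
      hmat h' * G.1 = c • (G.1 * hmat h) := by
    intro h hs
    obtain ⟨h', hh', he⟩ := hg (heisPSL h) ⟨h, hs, rfl⟩
    refine ⟨h', hh', ?_⟩
    rw [eq_mul_inv_iff_mul_eq, heisPSL_apply, heisPSL_apply, ← map_mul, ← map_mul, eq_comm,
      psl_eq_iff] at he
    obtain ⟨c, hc, hY⟩ := he
    exact ⟨c, hc, hY⟩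
  obtain ⟨h', hs', c, hc, hY⟩ := key ⟨1, 0, 0⟩ rfl
  have h10 : G.1 1 0 = 0 := by
    have e0 := congrFun (congrFun hY 1) 0
    have e1 := congrFun (congrFun hY 1) 1
    simp [hmat, hs', Matrix.mul_apply, Fin.sum_univ_three] at e0 e1
    by_contra hne
    have hc1 : c = 1 := by
      have h0 : (c - 1) * G.1 1 0 = 0 := by linear_combination -e0
      rcases mul_eq_zero.mp h0 with h | h
      · linear_combination h
      · exact absurd h hne
    rw [hc1] at e1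
    apply hne
    linear_combination -e1
  have h20 : G.1 2 0 = 0 := by
    have e0 := congrFun (congrFun hY 2) 0
    have e1 := congrFun (congrFun hY 2) 1
    simp [hmat, hs', Matrix.mul_apply, Fin.sum_univ_three] at e0 e1
    by_contra hne
    have hc1 : c = 1 := by
      have h0 : (c - 1) * G.1 2 0 = 0 := by linear_combination -e0
      rcases mul_eq_zero.mp h0 with h | h
      · linear_combination h
      · exact absurd h hne
    rw [hc1] at e1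
    apply hne
    linear_combination -e1
  have hdet : G.1 0 0 * (G.1 1 1 * G.1 2 2 - G.1 1 2 * G.1 2 1) = 1 := by
    have := G.2
    rw [Matrix.det_fin_three, h10, h20] at this
    linear_combination this
  have hd : G.1 0 0 ≠ 0 := by
    intro h0
    rw [h0, zero_mul] at hdet
    exact zero_ne_one hdet
  have hd3 : G.1 0 0 ^ 3 = 1 := by
    have := FiniteField.pow_card_sub_one_eq_one (G.1 0 0) hd
    rwa [hF] at this
  have hdd : G.1 0 0 * (G.1 0 0)⁻¹ = 1 := mul_inv_cancel₀ hd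
  have hdi : (G.1 0 0)⁻¹ ^ 3 = 1 := by rw [inv_pow, hd3, inv_one]
  have hBdet : (!![(G.1 0 0)⁻¹ * G.1 1 1, (G.1 0 0)⁻¹ * G.1 1 2;
      (G.1 0 0)⁻¹ * G.1 2 1, (G.1 0 0)⁻¹ * G.1 2 2] : Matrix (Fin 2) (Fin 2) F).det = 1 := by
    rw [Matrix.det_fin_two_of]
    linear_combination hdi + (G.1 0 0)⁻¹ ^ 3 * hdet -
      (G.1 0 0)⁻¹ ^ 2 * (G.1 1 1 * G.1 2 2 - G.1 1 2 * G.1 2 1) * hdd
  obtain ⟨B, hB⟩ : ∃ B : Matrix.SpecialLinearGroup (Fin 2) F,
      B.1 = !![(G.1 0 0)⁻¹ * G.1 1 1, (G.1 0 0)⁻¹ * G.1 1 2;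
        (G.1 0 0)⁻¹ * G.1 2 1, (G.1 0 0)⁻¹ * G.1 2 2] := ⟨⟨_, hBdet⟩, rfl⟩
  have hB00 : B.1 0 0 = (G.1 0 0)⁻¹ * G.1 1 1 := by rw [hB]; rfl
  have hB01 : B.1 0 1 = (G.1 0 0)⁻¹ * G.1 1 2 := by rw [hB]; rfl
  have hB10 : B.1 1 0 = (G.1 0 0)⁻¹ * G.1 2 1 := by rw [hB]; rfl
  have hB11 : B.1 1 1 = (G.1 0 0)⁻¹ * G.1 2 2 := by rw [hB]; rfl
  have hBd := Cfsg.Agent.H7.sl2_det B
  refine ⟨heisPSL ⟨(G.1 0 0)⁻¹ * G.1 0 1 * B.1 1 1 - (G.1 0 0)⁻¹ * G.1 0 2 * B.1 1 0, 0,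
      -((G.1 0 0)⁻¹ * G.1 0 1) * B.1 0 1 + (G.1 0 0)⁻¹ * G.1 0 2 * B.1 0 0⟩,
    ⟨_, mk_mem_sgB _ _, rfl⟩, B, ?_⟩
  rw [heisPSL_apply, jj2_apply, ← map_mul, psl_eq_iff]
  refine ⟨(G.1 0 0)⁻¹, hdi, ?_⟩
  show hmat _ * dmat2 B.1 = (G.1 0 0)⁻¹ • G.1
  ext i j
  fin_cases i <;> fin_cases j <;>
    simp [hmat, dmat2, Matrix.mul_apply, Fin.sum_univ_three, h10, h20, hd]
  · linear_combination ((G.1 0 0)⁻¹ * G.1 0 1) * hBd
  · linear_combination ((G.1 0 0)⁻¹ * G.1 0 2) * hBd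
  · exact hB00
  · exact hB01
  · exact hB10
  · exact hB11

/-- **S3154-NORM2.** -/
theorem norm2 : Norm2Stmt.{u} := by
  intro F _ _ hF
  refine ⟨jj2, Cfsg.Agent.H7.slUnip F, ?_, jj2_mem_e2, jj2_conj_mem, norm2_le hF, unip_index hF,
    jj2_unip⟩
  rw [injective_iff_map_eq_one]
  intro A hA
  exact jj2_mem_e2 A (hA ▸ one_mem _)

end

end Cfsg.Agent.H70.L34
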