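import Mathlib

set_option autoImplicit false

namespace Cfsg.Agent.H70.Str1

open Polynomial DirectSum

/-- S2478-STR1: primary decomposition of the `F[X]`-module of a matrix, with monic irreducible
`p i` and exponents `e i ≥ 1`, indexed by `Fin k`. -/
theorem exists_primary_decomp {F : Type*} [Field F] {n : ℕ} (A : Matrix (Fin n) (Fin n) F) :
    ∃ (k : ℕ) (p : Fin k → F[X]) (e : Fin k → ℕ),
      (∀ i, (p i).Monic ∧ Irreducible (p i) ∧ 1 ≤ e i) ∧
      Nonempty (Module.AEval' (Matrix.toLin' A) ≃ₗ[F[X]] ⨁ i : Fin k, F[X] ⧸ F[X] ∙ p i ^ e i) := by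
  classical
  have hT : Module.IsTorsion F[X] (Module.AEval' (Matrix.toLin' A)) :=
    Module.AEval.isTorsion_of_finiteDimensional F (Fin n → F) (Matrix.toLin' A)
  obtain ⟨ι, _, p₀, hp₀, e₀, ⟨l⟩⟩ := Module.equiv_directSum_of_isTorsion hT
  let S := {i : ι // e₀ i ≠ 0}
  let τ : Fin (Fintype.card S) ≃ S := (Fintype.equivFin S).symm
  refine ⟨Fintype.card S, fun j => normalize (p₀ (τ j).1), fun j => e₀ (τ j).1, ?_, ⟨?_⟩⟩
  · intro j
    exact ⟨Polynomial.monic_normalize (hp₀ _).ne_zero,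
      (associated_normalize _).irreducible (hp₀ _), Nat.one_le_iff_ne_zero.mpr (τ j).2⟩
  · have hsub : ∀ i : ι, e₀ i = 0 → Subsingleton (F[X] ⧸ F[X] ∙ p₀ i ^ e₀ i) := by
      intro i hi
      rw [hi, pow_zero]
      rw [Submodule.Quotient.subsingleton_iff]
      exact Ideal.span_singleton_one
    let E1 := DirectSum.linearEquivFunOnFintype F[X] ι (fun i => F[X] ⧸ F[X] ∙ p₀ i ^ e₀ i)
    let E2 : (∀ i : ι, F[X] ⧸ F[X] ∙ p₀ i ^ e₀ i) ≃ₗ[F[X]]
        (∀ s : S, F[X] ⧸ F[X] ∙ p₀ s.1 ^ e₀ s.1) :=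
      { toFun := fun f s => f s.1
        map_add' := fun f g => rfl
        map_smul' := fun c f => rfl
        invFun := fun g i => if h : e₀ i ≠ 0 then g ⟨i, h⟩ else 0
        left_inv := by
          intro f
          funext i
          by_cases h : e₀ i ≠ 0
          · simp [h]
          · have := hsub i (not_not.mp h)
            exact Subsingleton.elim _ _
        right_inv := by
          intro g
          funext s
          have hs : e₀ s.1 ≠ 0 := s.2
          show (if h : e₀ s.1 ≠ 0 then g ⟨s.1, h⟩ else 0) = g s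
          rw [dif_pos hs] }
    let E3 := LinearEquiv.piCongrLeft' F[X] (fun s : S => F[X] ⧸ F[X] ∙ p₀ s.1 ^ e₀ s.1) τ.symm
    let E4 : (∀ j : Fin (Fintype.card S), F[X] ⧸ F[X] ∙ p₀ (τ j).1 ^ e₀ (τ j).1) ≃ₗ[F[X]]
        (∀ j : Fin (Fintype.card S),
          F[X] ⧸ F[X] ∙ (normalize (p₀ (τ j).1)) ^ e₀ (τ j).1) :=
      LinearEquiv.piCongrRight (fun j => Submodule.quotEquivOfEq _ _
        (Ideal.span_singleton_eq_span_singleton.mpr ((associated_normalize _).pow_pow)))
    let E5 := (DirectSum.linearEquivFunOnFintype F[X] (Fin (Fintype.card S))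
      (fun j => F[X] ⧸ F[X] ∙ (normalize (p₀ (τ j).1)) ^ e₀ (τ j).1)).symm
    exact l.trans (E1.trans (E2.trans (E3.trans (E4.trans E5))))

end Cfsg.Agent.H70.Str1
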