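import Mathlib
import Cfsg.Agent.H17.TgDefs

/-! S1904 piece TG-N2 (helper70 for helper17): a 2-group with `|Z(X)| = 4` and `X' = Z(X)` has
order at least 32. -/

set_option autoImplicit false

universe u

namespace Cfsg.Agent.H70.Tg

open Cfsg Cfsg.Agent.H17.Tg
open scoped commutatorElement

private lemma n2_mulL {X : Type u} [Group X]
    (hc : ∀ a b : X, ⁅a, b⁆ ∈ Subgroup.center X) (a a' b : X) :
    ⁅a * a', b⁆ = ⁅a, b⁆ * ⁅a', b⁆ := by
  have h1 := Subgroup.mem_center_iff.mp (hc a' b) a
  have h2 := Subgroup.mem_center_iff.mp (hc a' b) ⁅a, b⁆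
  calc ⁅a * a', b⁆ = a * ⁅a', b⁆ * a⁻¹ * ⁅a, b⁆ := by
        simp only [commutatorElement_def]; group
    _ = ⁅a', b⁆ * ⁅a, b⁆ := by rw [h1]; group
    _ = ⁅a, b⁆ * ⁅a', b⁆ := h2.symm

private lemma n2_mulR {X : Type u} [Group X]
    (hc : ∀ a b : X, ⁅a, b⁆ ∈ Subgroup.center X) (a b b' : X) :
    ⁅a, b * b'⁆ = ⁅a, b⁆ * ⁅a, b'⁆ := by
  have h2 := Subgroup.mem_center_iff.mp (hc a b') ⁅a, b⁆
  rw [← commutatorElement_inv (b * b') a, n2_mulL hc, mul_inv_rev, commutatorElement_inv,
    commutatorElement_inv]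
  exact h2.symm

private lemma n2_closure {X : Type u} [Group X] (H : Subgroup X)
    (hc : ∀ a b : X, ⁅a, b⁆ ∈ Subgroup.center X) (S : Set X) (hS : Subgroup.closure S = ⊤)
    (h : ∀ s ∈ S, ∀ t ∈ S, ⁅s, t⁆ ∈ H) : ∀ a b : X, ⁅a, b⁆ ∈ H := by
  have hR : ∀ s ∈ S, ∀ b : X, ⁅s, b⁆ ∈ H := by
    intro s hs b
    have hb : b ∈ Subgroup.closure S := hS ▸ Subgroup.mem_top b
    induction hb using Subgroup.closure_induction with
    | mem t ht => exact h s hs t ht
    | one => rw [commutatorElement_one_right]; exact H.one_mem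
    | mul b b' _ _ ihb ihb' => rw [n2_mulR hc]; exact H.mul_mem ihb ihb'
    | inv b _ ihb =>
      have h1 : ⁅s, b⁻¹⁆ * ⁅s, b⁆ = 1 := by
        rw [← n2_mulR hc, inv_mul_cancel, commutatorElement_one_right]
      rw [eq_inv_of_mul_eq_one_left h1]
      exact H.inv_mem ihb
  intro a b
  have ha : a ∈ Subgroup.closure S := hS ▸ Subgroup.mem_top a
  induction ha using Subgroup.closure_induction with
  | mem s hs => exact hR s hs b
  | one => rw [commutatorElement_one_left]; exact H.one_mem
  | mul a a' _ _ iha iha' => rw [n2_mulL hc]; exact H.mul_mem iha iha'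
  | inv a _ iha =>
    have h1 : ⁅a⁻¹, b⁆ * ⁅a, b⁆ = 1 := by
      rw [← n2_mulL hc, inv_mul_cancel, commutatorElement_one_left]
    rw [eq_inv_of_mul_eq_one_left h1]
    exact H.inv_mem iha

theorem n2 : StN2.{u} := by
  intro X _ _ hp hZ hcomm
  classical
  obtain ⟨n, hn⟩ := (IsPGroup.iff_card).mp hp
  have hZtop : Subgroup.center X ≠ ⊤ := by
    intro h
    have h1 : commutator X = ⊥ := by
      rw [commutator_def, Subgroup.commutator_top_right_eq_bot_iff_le_center, h]
    rw [h1] at hcomm
    rw [← hcomm] at hZ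
    simp at hZ
  have hc : ∀ a b : X, ⁅a, b⁆ ∈ Subgroup.center X := by
    intro a b
    rw [← hcomm, commutator_def]
    exact Subgroup.commutator_mem_commutator (Subgroup.mem_top a) (Subgroup.mem_top b)
  obtain ⟨x, hx⟩ : ∃ x : X, x ∉ Subgroup.center X := by
    by_contra h
    push Not at h
    exact hZtop ((Subgroup.eq_top_iff' _).mpr h)
  set M : Subgroup X := Subgroup.center X ⊔ Subgroup.zpowers x with hM
  have hMC : M ≤ Subgroup.centralizer {x} := by
    apply sup_le
    · intro z hz
      rw [Subgroup.mem_centralizer_iff]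
      intro g hg
      rw [Set.mem_singleton_iff] at hg
      subst hg
      exact Subgroup.mem_center_iff.mp hz g
    · rw [Subgroup.zpowers_le, Subgroup.mem_centralizer_iff]
      intro g hg
      rw [Set.mem_singleton_iff] at hg
      subst hg
      rfl
  have hCtop : Subgroup.centralizer {x} ≠ (⊤ : Subgroup X) := by
    intro h
    apply hx
    rw [Subgroup.mem_center_iff]
    intro g
    have hg : g ∈ Subgroup.centralizer {x} := h ▸ Subgroup.mem_top g
    rw [Subgroup.mem_centralizer_iff] at hg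
    exact (hg x rfl).symm
  have hM1 : Nat.card (Subgroup.center X) ∣ Nat.card M := Subgroup.card_dvd_of_le le_sup_left
  have hM2 : Nat.card M ∣ Nat.card X := Subgroup.card_subgroup_dvd_card M
  have hM3 : Nat.card M ≠ 4 := by
    intro h
    have h1 : Subgroup.center X = M :=
      Subgroup.eq_of_le_of_card_ge le_sup_left (by rw [h, hZ])
    apply hx
    rw [h1]
    exact Subgroup.mem_sup_right (Subgroup.mem_zpowers x)
  have hM4 : M ≠ ⊤ := fun h => hCtop (top_le_iff.mp (h ▸ hMC))
  have hM5 : Nat.card M ≠ Nat.card X := fun h => hM4 ((Subgroup.card_eq_iff_eq_top M).mp h)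
  by_contra hlt
  push Not at hlt
  have hn4 : n ≤ 4 := by
    by_contra h'
    push Not at h'
    have := Nat.pow_le_pow_right (show 0 < 2 by norm_num) h'
    omega
  rw [hZ] at hM1
  have hMpos : 0 < Nat.card X := Nat.card_pos
  have hMle : Nat.card M ≤ Nat.card X := Nat.le_of_dvd hMpos hM2
  have hM8 : Nat.card M = 8 ∧ Nat.card X = 16 := by
    obtain ⟨k, hk⟩ := hM1
    interval_cases n <;> simp only [pow_zero, pow_one, Nat.reducePow] at hn <;>
      rw [hn] at hM2 hMle hM5 <;> first
        | omega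
        | (have hk4 : k ≤ 4 := by omega
           interval_cases k <;> first | omega | (exfalso; rw [hk] at hM2; revert hM2; decide))
  obtain ⟨hM8, hX16⟩ := hM8
  obtain ⟨y, hy⟩ : ∃ y : X, y ∉ M := by
    by_contra h
    push Not at h
    exact hM4 ((Subgroup.eq_top_iff' _).mpr h)
  have hidx : M.index = 2 := by
    have := Subgroup.card_mul_index M
    rw [hM8, hX16] at this
    omega
  have hyy : y * y ∈ M := Subgroup.mul_self_mem_of_index_two hidx y
  have hyyx : ⁅x, y * y⁆ = 1 := by
    have h1 := Subgroup.mem_centralizer_iff.mp (hMC hyy) x rfl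
    rw [commutatorElement_eq_one_iff_commute]
    exact h1
  have hcc : ⁅x, y⁆ ^ 2 = 1 := by
    rw [pow_two, ← n2_mulR hc, hyyx]
  -- generation
  set S : Set X := (Subgroup.center X : Set X) ∪ {x, y} with hS
  have hgen : Subgroup.closure S = ⊤ := by
    set N : Subgroup X := M ⊔ Subgroup.zpowers y with hN
    have hN1 : Nat.card M ∣ Nat.card N := Subgroup.card_dvd_of_le le_sup_left
    have hN2 : Nat.card N ∣ Nat.card X := Subgroup.card_subgroup_dvd_card N
    have hN3 : Nat.card N ≠ 8 := by
      intro h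
      have h1 : M = N := Subgroup.eq_of_le_of_card_ge le_sup_left (by rw [h, hM8])
      apply hy
      rw [h1]
      exact Subgroup.mem_sup_right (Subgroup.mem_zpowers y)
    have hN4 : Nat.card N = Nat.card X := by
      rw [hM8] at hN1
      rw [hX16] at hN2 ⊢
      have hNle : Nat.card N ≤ 16 := Nat.le_of_dvd (by norm_num) hN2
      have hNpos : 0 < Nat.card N := Nat.card_pos
      obtain ⟨k, hk⟩ := hN1
      have hk2 : k ≤ 2 := by omega
      interval_cases k <;> omega
    have hNtop : N = ⊤ := (Subgroup.card_eq_iff_eq_top N).mp hN4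
    rw [eq_top_iff, ← hNtop]
    apply sup_le
    · apply sup_le
      · exact fun z hz => Subgroup.subset_closure (Or.inl hz)
      · rw [Subgroup.zpowers_le]
        exact Subgroup.subset_closure (Or.inr (Or.inl rfl))
    · rw [Subgroup.zpowers_le]
      exact Subgroup.subset_closure (Or.inr (Or.inr rfl))
  have hall : ∀ a b : X, ⁅a, b⁆ ∈ Subgroup.zpowers ⁅x, y⁆ := by
    apply n2_closure _ hc S hgen
    have hzl : ∀ z ∈ Subgroup.center X, ∀ t : X, ⁅z, t⁆ = 1 := by
      intro z hz t
      rw [commutatorElement_eq_one_iff_commute]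
      exact (Subgroup.mem_center_iff.mp hz t).symm
    have hzr : ∀ z ∈ Subgroup.center X, ∀ t : X, ⁅t, z⁆ = 1 := by
      intro z hz t
      rw [commutatorElement_eq_one_iff_commute]
      exact (Subgroup.mem_center_iff.mp hz t)
    rintro s (hs | hs | hs) t (ht | ht | ht)
    · rw [hzl s hs]; exact Subgroup.one_mem _
    · rw [hzl s hs]; exact Subgroup.one_mem _
    · rw [hzl s hs]; exact Subgroup.one_mem _
    · rw [hzr t ht]; exact Subgroup.one_mem _
    · rw [hs, ht, commutatorElement_self]; exact Subgroup.one_mem _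
    · rw [hs, Set.mem_singleton_iff.mp ht]; exact Subgroup.mem_zpowers _
    · rw [hzr t ht]; exact Subgroup.one_mem _
    · rw [Set.mem_singleton_iff.mp hs, ht, ← commutatorElement_inv x y]
      exact Subgroup.inv_mem _ (Subgroup.mem_zpowers _)
    · rw [Set.mem_singleton_iff.mp hs, Set.mem_singleton_iff.mp ht, commutatorElement_self]
      exact Subgroup.one_mem _
  have hle : commutator X ≤ Subgroup.zpowers ⁅x, y⁆ := by
    rw [commutator_def, Subgroup.commutator_le]
    intro a _ b _
    exact hall a b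
  have h4 : Nat.card (Subgroup.center X) ≤ Nat.card (Subgroup.zpowers ⁅x, y⁆) := by
    rw [← hcomm]
    exact Nat.le_of_dvd Nat.card_pos (Subgroup.card_dvd_of_le hle)
  rw [hZ, Nat.card_zpowers] at h4
  have h2 : orderOf ⁅x, y⁆ ≤ 2 := orderOf_le_of_pow_eq_one (by norm_num) hcc
  omega

end Cfsg.Agent.H70.Tg
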