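import Mathlib
import Cfsg.Agent.H17.TgDefs

/-! S1904 piece TG-N3 (helper70 for helper17, parallel take): order 32 is impossible.

Route without orbit counting: `|X| = 32`, `|Z(X)| = 4`, `Z(X)` of exponent 2 and `X' = Z(X)`
force a UNIQUE abelian subgroup of index 2, which is then `A`-invariant — against `StIdx2`. -/

set_option autoImplicit false

universe u

namespace Cfsg.Agent.H70.Tg

open Cfsg Cfsg.Agent.H17.Tg
open scoped commutatorElement

private lemma n3_mulL {X : Type u} [Group X]
    (hc : ∀ a b : X, ⁅a, b⁆ ∈ Subgroup.center X) (a a' b : X) :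
    ⁅a * a', b⁆ = ⁅a, b⁆ * ⁅a', b⁆ := by
  have h1 := Subgroup.mem_center_iff.mp (hc a' b) a
  have h2 := Subgroup.mem_center_iff.mp (hc a' b) ⁅a, b⁆
  calc ⁅a * a', b⁆ = a * ⁅a', b⁆ * a⁻¹ * ⁅a, b⁆ := by
        simp only [commutatorElement_def]; group
    _ = ⁅a', b⁆ * ⁅a, b⁆ := by rw [h1]; group
    _ = ⁅a, b⁆ * ⁅a', b⁆ := h2.symm

private lemma n3_mulR {X : Type u} [Group X]
    (hc : ∀ a b : X, ⁅a, b⁆ ∈ Subgroup.center X) (a b b' : X) :
    ⁅a, b * b'⁆ = ⁅a, b⁆ * ⁅a, b'⁆ := by
  have h2 := Subgroup.mem_center_iff.mp (hc a b') ⁅a, b⁆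
  rw [← commutatorElement_inv (b * b') a, n3_mulL hc, mul_inv_rev, commutatorElement_inv,
    commutatorElement_inv]
  exact h2.symm

private lemma n3_closure {X : Type u} [Group X] (H : Subgroup X)
    (hc : ∀ a b : X, ⁅a, b⁆ ∈ Subgroup.center X) (S : Set X) (hS : Subgroup.closure S = ⊤)
    (h : ∀ s ∈ S, ∀ t ∈ S, ⁅s, t⁆ ∈ H) : ∀ a b : X, ⁅a, b⁆ ∈ H := by
  have hR : ∀ s ∈ S, ∀ b : X, ⁅s, b⁆ ∈ H := by
    intro s hs b
    have hb : b ∈ Subgroup.closure S := hS ▸ Subgroup.mem_top b
    induction hb using Subgroup.closure_induction with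
    | mem t ht => exact h s hs t ht
    | one => rw [commutatorElement_one_right]; exact H.one_mem
    | mul b b' _ _ ihb ihb' => rw [n3_mulR hc]; exact H.mul_mem ihb ihb'
    | inv b _ ihb =>
      have h1 : ⁅s, b⁻¹⁆ * ⁅s, b⁆ = 1 := by
        rw [← n3_mulR hc, inv_mul_cancel, commutatorElement_one_right]
      rw [eq_inv_of_mul_eq_one_left h1]
      exact H.inv_mem ihb
  intro a b
  have ha : a ∈ Subgroup.closure S := hS ▸ Subgroup.mem_top a
  induction ha using Subgroup.closure_induction with
  | mem s hs => exact hR s hs b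
  | one => rw [commutatorElement_one_left]; exact H.one_mem
  | mul a a' _ _ iha iha' => rw [n3_mulL hc]; exact H.mul_mem iha iha'
  | inv a _ iha =>
    have h1 : ⁅a⁻¹, b⁆ * ⁅a, b⁆ = 1 := by
      rw [← n3_mulL hc, inv_mul_cancel, commutatorElement_one_left]
    rw [eq_inv_of_mul_eq_one_left h1]
    exact H.inv_mem iha

/-- `X` is not generated by `Z(X)` and two elements. -/
private lemma n3_two_gen {X : Type u} [Group X] [Finite X]
    (hZ : Nat.card (Subgroup.center X) = 4) (hexp : ∀ z ∈ Subgroup.center X, z ^ 2 = 1)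
    (hcomm : commutator X = Subgroup.center X) (x y : X)
    (h : Subgroup.center X ⊔ Subgroup.zpowers x ⊔ Subgroup.zpowers y = ⊤) : False := by
  have hc : ∀ a b : X, ⁅a, b⁆ ∈ Subgroup.center X := by
    intro a b
    rw [← hcomm, commutator_def]
    exact Subgroup.commutator_mem_commutator (Subgroup.mem_top a) (Subgroup.mem_top b)
  set S : Set X := (Subgroup.center X : Set X) ∪ {x, y} with hS
  have hgen : Subgroup.closure S = ⊤ := by
    rw [eq_top_iff, ← h]
    apply sup_le
    · apply sup_le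
      · exact fun z hz => Subgroup.subset_closure (Or.inl hz)
      · rw [Subgroup.zpowers_le]
        exact Subgroup.subset_closure (Or.inr (Or.inl rfl))
    · rw [Subgroup.zpowers_le]
      exact Subgroup.subset_closure (Or.inr (Or.inr rfl))
  have hall : ∀ a b : X, ⁅a, b⁆ ∈ Subgroup.zpowers ⁅x, y⁆ := by
    apply n3_closure _ hc S hgen
    have hzl : ∀ z ∈ Subgroup.center X, ∀ t : X, ⁅z, t⁆ = 1 := by
      intro z hz t
      rw [commutatorElement_eq_one_iff_commute]
      exact (Subgroup.mem_center_iff.mp hz t).symm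
    have hzr : ∀ z ∈ Subgroup.center X, ∀ t : X, ⁅t, z⁆ = 1 := by
      intro z hz t
      rw [commutatorElement_eq_one_iff_commute]
      exact (Subgroup.mem_center_iff.mp hz t)
    rintro s (hs | hs | hs) t (ht | ht | ht)
    · rw [hzl s hs]; exact Subgroup.one_mem _
    · rw [hzl s hs]; exact Subgroup.one_mem _
    · rw [hzl s hs]; exact Subgroup.one_mem _
    · rw [hzr t ht]; exact Subgroup.one_mem _
    · rw [hs, ht, commutatorElement_self]; exact Subgroup.one_mem _
    · rw [hs, Set.mem_singleton_iff.mp ht]; exact Subgroup.mem_zpowers _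
    · rw [hzr t ht]; exact Subgroup.one_mem _
    · rw [Set.mem_singleton_iff.mp hs, ht, ← commutatorElement_inv x y]
      exact Subgroup.inv_mem _ (Subgroup.mem_zpowers _)
    · rw [Set.mem_singleton_iff.mp hs, Set.mem_singleton_iff.mp ht, commutatorElement_self]
      exact Subgroup.one_mem _
  have hle : commutator X ≤ Subgroup.zpowers ⁅x, y⁆ := by
    rw [commutator_def, Subgroup.commutator_le]
    intro a _ b _
    exact hall a b
  have h4 : Nat.card (Subgroup.center X) ≤ Nat.card (Subgroup.zpowers ⁅x, y⁆) := by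
    rw [← hcomm]
    exact Nat.le_of_dvd Nat.card_pos (Subgroup.card_dvd_of_le hle)
  rw [hZ, Nat.card_zpowers] at h4
  have h2 : orderOf ⁅x, y⁆ ≤ 2 := orderOf_le_of_pow_eq_one (by norm_num) (hexp _ (hc x y))
  omega

/-- uniqueness of an abelian subgroup of index 2 -/
private lemma n3_unique {X : Type u} [Group X] [Finite X] (hX : Nat.card X = 32)
    (hZ : Nat.card (Subgroup.center X) = 4) (M₁ M₂ : Subgroup X)
    (h₁ : ∀ a ∈ M₁, ∀ b ∈ M₁, a * b = b * a) (h₂ : ∀ a ∈ M₂, ∀ b ∈ M₂, a * b = b * a)
    (i₁ : M₁.index = 2) (i₂ : M₂.index = 2) : M₁ = M₂ := by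
  by_contra hne
  have c₁ : Nat.card M₁ = 16 := by
    have := Subgroup.card_mul_index M₁
    rw [i₁, hX] at this; omega
  have c₂ : Nat.card M₂ = 16 := by
    have := Subgroup.card_mul_index M₂
    rw [i₂, hX] at this; omega
  have hsup : M₁ ⊔ M₂ = ⊤ := by
    have hd1 : Nat.card M₁ ∣ Nat.card ↥(M₁ ⊔ M₂) := Subgroup.card_dvd_of_le le_sup_left
    have hd2 : Nat.card ↥(M₁ ⊔ M₂) ∣ Nat.card X := Subgroup.card_subgroup_dvd_card _
    have hne' : Nat.card ↥(M₁ ⊔ M₂) ≠ 16 := by
      intro h
      have e1 : M₁ = M₁ ⊔ M₂ := Subgroup.eq_of_le_of_card_ge le_sup_left (by rw [h, c₁])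
      have e2 : M₂ = M₁ ⊔ M₂ := Subgroup.eq_of_le_of_card_ge le_sup_right (by rw [h, c₂])
      exact hne (e1.trans e2.symm)
    rw [c₁] at hd1
    rw [hX] at hd2
    have hcard : Nat.card ↥(M₁ ⊔ M₂) = Nat.card X := by
      rw [hX]
      obtain ⟨k, hk⟩ := hd1
      have hle : Nat.card ↥(M₁ ⊔ M₂) ≤ 32 := Nat.le_of_dvd (by norm_num) hd2
      have hpos : 0 < Nat.card ↥(M₁ ⊔ M₂) := Nat.card_pos
      have hk2 : k ≤ 2 := by omega
      interval_cases k <;> omega
    exact (Subgroup.card_eq_iff_eq_top _).mp hcard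
  have hI : M₁ ⊓ M₂ ≤ Subgroup.center X := by
    intro g hg
    have hle : M₁ ⊔ M₂ ≤ Subgroup.centralizer {g} := by
      apply sup_le
      · intro m hm
        rw [Subgroup.mem_centralizer_iff]
        intro k hk
        rw [Set.mem_singleton_iff] at hk
        subst hk
        exact h₁ k hg.1 m hm
      · intro m hm
        rw [Subgroup.mem_centralizer_iff]
        intro k hk
        rw [Set.mem_singleton_iff] at hk
        subst hk
        exact h₂ k hg.2 m hm
    rw [hsup] at hle
    rw [Subgroup.mem_center_iff]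
    intro k
    have hk := hle (Subgroup.mem_top k)
    rw [Subgroup.mem_centralizer_iff] at hk
    exact (hk g rfl).symm
  have hIc : Nat.card ↥(M₁ ⊓ M₂) ≤ 4 := by
    rw [← hZ]
    exact Nat.le_of_dvd Nat.card_pos (Subgroup.card_dvd_of_le hI)
  have hIi : (M₁ ⊓ M₂).index ≤ 4 := by
    have h := Subgroup.index_inf_le (H := M₁) (K := M₂)
    rw [i₁, i₂] at h
    exact h
  have h := Subgroup.card_mul_index (M₁ ⊓ M₂)
  rw [hX] at h
  nlinarith

theorem n3 (hIdx2 : StIdx2.{u}) : StN3.{u} := by
  intro X _ _ A hyp hZ hexp hsq hcomm hinv hX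
  classical
  have hc : ∀ a b : X, ⁅a, b⁆ ∈ Subgroup.center X := by
    intro a b
    rw [← hcomm, commutator_def]
    exact Subgroup.commutator_mem_commutator (Subgroup.mem_top a) (Subgroup.mem_top b)
  have hZtop : Subgroup.center X ≠ ⊤ := by
    intro h
    rw [h, Subgroup.card_top] at hZ
    omega
  have key : ∃ s t : X, s ∉ Subgroup.center X ∧
      t ∉ Subgroup.center X ⊔ Subgroup.zpowers s ∧ s * t = t * s := by
    obtain ⟨x, hx⟩ : ∃ x : X, x ∉ Subgroup.center X := by
      by_contra h
      push Not at h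
      exact hZtop ((Subgroup.eq_top_iff' _).mpr h)
    set M1 : Subgroup X := Subgroup.center X ⊔ Subgroup.zpowers x with hM1
    have hMC : M1 ≤ Subgroup.centralizer {x} := by
      apply sup_le
      · intro z hz
        rw [Subgroup.mem_centralizer_iff]
        intro g hg
        rw [Set.mem_singleton_iff] at hg
        subst hg
        exact Subgroup.mem_center_iff.mp hz g
      · rw [Subgroup.zpowers_le, Subgroup.mem_centralizer_iff]
        intro g hg
        rw [Set.mem_singleton_iff] at hg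
        subst hg
        rfl
    have hCtop : Subgroup.centralizer {x} ≠ (⊤ : Subgroup X) := by
      intro h
      apply hx
      rw [Subgroup.mem_center_iff]
      intro g
      have hg : g ∈ Subgroup.centralizer {x} := h ▸ Subgroup.mem_top g
      rw [Subgroup.mem_centralizer_iff] at hg
      exact (hg x rfl).symm
    have hM1top : M1 ≠ ⊤ := fun h => hCtop (top_le_iff.mp (h ▸ hMC))
    obtain ⟨y, hy⟩ : ∃ y : X, y ∉ M1 := by
      by_contra h
      push Not at h
      exact hM1top ((Subgroup.eq_top_iff' _).mpr h)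
    set M2 : Subgroup X := M1 ⊔ Subgroup.zpowers y with hM2
    have hM2top : M2 ≠ ⊤ := fun h => n3_two_gen hZ hexp hcomm x y h
    obtain ⟨z, hz⟩ : ∃ z : X, z ∉ M2 := by
      by_contra h
      push Not at h
      exact hM2top ((Subgroup.eq_top_iff' _).mpr h)
    have hZM1 : Subgroup.center X ≤ M1 := le_sup_left
    have hM12 : M1 ≤ M2 := le_sup_left
    have hxM1 : x ∈ M1 := Subgroup.mem_sup_right (Subgroup.mem_zpowers x)
    have hxM2 : x ∈ M2 := hM12 hxM1
    have hyM2 : y ∈ M2 := Subgroup.mem_sup_right (Subgroup.mem_zpowers y)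
    have hsq1 : ∀ g h : X, ⁅g, h⁆ * ⁅g, h⁆ = 1 := fun g h => by
      rw [← pow_two]; exact hexp _ (hc g h)
    have hci : ∀ g h : X, ⁅g, h⁆ = 1 → g * h = h * g := fun g h hgh =>
      commutatorElement_eq_one_iff_mul_comm.mp hgh
    have hZy : ∀ w : X, w ∈ M2 → Subgroup.center X ⊔ Subgroup.zpowers w ≤ M2 := fun w hw =>
      sup_le (hZM1.trans hM12) (Subgroup.zpowers_le.mpr hw)
    have hxyZ : x * y ∉ Subgroup.center X := by
      intro h
      apply hy
      have h2 := M1.mul_mem (M1.inv_mem hxM1) (hZM1 h)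
      simpa using h2
    by_cases ha : ⁅x, y⁆ = 1
    · exact ⟨x, y, hx, hy, hci _ _ ha⟩
    by_cases hb : ⁅x, z⁆ = 1
    · exact ⟨x, z, hx, fun h => hz (hM12 h), hci _ _ hb⟩
    by_cases hc' : ⁅y, z⁆ = 1
    · exact ⟨y, z, fun h => hy (hZM1 h), fun h => hz (hZy y hyM2 h), hci _ _ hc'⟩
    by_cases hab : ⁅x, y⁆ = ⁅x, z⁆
    · refine ⟨x, y * z, hx, fun h => hz ?_, hci _ _ ?_⟩
      · have h2 := M2.mul_mem (M2.inv_mem hyM2) (hM12 h)
        simpa using h2
      · rw [n3_mulR hc, ← hab]
        exact hsq1 x y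
    by_cases hac : ⁅x, y⁆ = ⁅y, z⁆
    · refine ⟨y, x * z, fun h => hy (hZM1 h), fun h => hz ?_, hci _ _ ?_⟩
      · have h2 := M2.mul_mem (M2.inv_mem hxM2) (hZy y hyM2 h)
        simpa using h2
      · rw [n3_mulR hc, ← hac, ← commutatorElement_inv x y]
        exact inv_mul_cancel _
    by_cases hbc : ⁅x, z⁆ = ⁅y, z⁆
    · refine ⟨x * y, z, hxyZ, fun h => hz (hZy _ (M2.mul_mem hxM2 hyM2) h), hci _ _ ?_⟩
      rw [n3_mulL hc, hbc]
      exact hsq1 y z
    have habc : ⁅y, z⁆ = ⁅x, y⁆ * ⁅x, z⁆ := by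
      by_contra hne
      set a := ⁅x, y⁆ with ha'
      set b := ⁅x, z⁆ with hb'
      set c := ⁅y, z⁆ with hc''
      have hT : ({1, a, b, c, a * b} : Finset X).card = 5 := by
        rw [Finset.card_insert_of_notMem, Finset.card_insert_of_notMem,
          Finset.card_insert_of_notMem, Finset.card_insert_of_notMem, Finset.card_singleton]
        · simp only [Finset.mem_singleton]; exact hne
        · simp only [Finset.mem_insert, Finset.mem_singleton, not_or]
          exact ⟨hbc, fun h => ha (by simpa using h.symm)⟩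
        · simp only [Finset.mem_insert, Finset.mem_singleton, not_or]
          exact ⟨hab, hac, fun h => hb (by simpa using h.symm)⟩
        · simp only [Finset.mem_insert, Finset.mem_singleton, not_or]
          refine ⟨Ne.symm ha, Ne.symm hb, Ne.symm hc', fun h => hab ?_⟩
          have h3 : a * b = b * b := by rw [← h, hsq1 x z]
          exact mul_right_cancel h3
      have hsub : (({1, a, b, c, a * b} : Finset X) : Set X) ⊆ (Subgroup.center X : Set X) := by
        intro w hw
        simp only [Finset.coe_insert, Finset.coe_singleton, Set.mem_insert_iff,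
          Set.mem_singleton_iff] at hw
        rcases hw with rfl | rfl | rfl | rfl | rfl
        · exact Subgroup.one_mem _
        · exact hc x y
        · exact hc x z
        · exact hc y z
        · exact Subgroup.mul_mem _ (hc x y) (hc x z)
      have h5 := Set.ncard_le_ncard hsub (Set.toFinite _)
      rw [Set.ncard_coe_finset, hT] at h5
      have h6 : (Subgroup.center X : Set X).ncard = 4 := by
        rw [← hZ]; exact (Nat.card_coe_set_eq _)
      omega
    refine ⟨x * y, y * z, hxyZ, fun h => hz ?_, hci _ _ ?_⟩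
    · have h2 := M2.mul_mem (M2.inv_mem hyM2) (hZy _ (M2.mul_mem hxM2 hyM2) h)
      simpa using h2
    · rw [n3_mulL hc, n3_mulR hc, n3_mulR hc, commutatorElement_self, habc, one_mul, ← pow_two]
      exact hexp _ (Subgroup.mul_mem _ (hc x y) (hc x z))
  obtain ⟨s, t, hs, ht, hst⟩ := key
  set S : Set X := (Subgroup.center X : Set X) ∪ {s, t} with hS
  set M : Subgroup X := Subgroup.closure S with hM
  have hSS : ∀ g ∈ S, ∀ h ∈ S, g * h = h * g := by
    rintro g (hg | hg | hg) h (hh | hh | hh)
    · exact (Subgroup.mem_center_iff.mp hg h).symm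
    · exact (Subgroup.mem_center_iff.mp hg h).symm
    · exact (Subgroup.mem_center_iff.mp hg h).symm
    · exact Subgroup.mem_center_iff.mp hh g
    · rw [hg, hh]
    · rw [hg, Set.mem_singleton_iff.mp hh]; exact hst
    · exact Subgroup.mem_center_iff.mp hh g
    · rw [Set.mem_singleton_iff.mp hg, hh]; exact hst.symm
    · rw [Set.mem_singleton_iff.mp hg, Set.mem_singleton_iff.mp hh]
  have hMS : M ≤ Subgroup.centralizer S :=
    (Subgroup.closure_le _).mpr
      (fun g hg => Subgroup.mem_centralizer_iff.mpr (fun h hh => hSS h hh g hg))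
  have hMab : ∀ a ∈ M, ∀ b ∈ M, a * b = b * a := by
    intro a ha b hb
    have h1 : M ≤ Subgroup.centralizer {a} :=
      (Subgroup.closure_le _).mpr (fun g hg => Subgroup.mem_centralizer_iff.mpr (fun k hk => by
        rw [Set.mem_singleton_iff] at hk
        subst hk
        exact (Subgroup.mem_centralizer_iff.mp (hMS ha) g hg).symm))
    exact Subgroup.mem_centralizer_iff.mp (h1 hb) a rfl
  have hZM : Subgroup.center X ≤ M := fun z hz => Subgroup.subset_closure (Or.inl hz)
  have hsM : s ∈ M := Subgroup.subset_closure (Or.inr (Or.inl rfl))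
  have htM : t ∈ M := Subgroup.subset_closure (Or.inr (Or.inr rfl))
  have hMtop : M ≠ ⊤ := by
    intro h
    apply hZtop
    rw [Subgroup.eq_top_iff']
    intro g
    rw [Subgroup.mem_center_iff]
    intro k
    exact hMab k (h ▸ Subgroup.mem_top k) g (h ▸ Subgroup.mem_top g)
  have hMidx : M.index = 2 := by
    set N1 : Subgroup X := Subgroup.center X ⊔ Subgroup.zpowers s with hN1
    have hN1M : N1 ≤ M := sup_le hZM (Subgroup.zpowers_le.mpr hsM)
    have d1 : Nat.card (Subgroup.center X) ∣ Nat.card N1 := Subgroup.card_dvd_of_le le_sup_left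
    have d2 : Nat.card N1 ∣ Nat.card M := Subgroup.card_dvd_of_le hN1M
    have d3 : Nat.card M ∣ Nat.card X := Subgroup.card_subgroup_dvd_card M
    have e1 : Nat.card N1 ≠ 4 := by
      intro h
      have h1 : Subgroup.center X = N1 :=
        Subgroup.eq_of_le_of_card_ge le_sup_left (by rw [h, hZ])
      apply hs
      rw [h1]
      exact Subgroup.mem_sup_right (Subgroup.mem_zpowers s)
    have e2 : Nat.card M ≠ Nat.card N1 := by
      intro h
      have h1 : N1 = M := Subgroup.eq_of_le_of_card_ge hN1M (by rw [h])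
      apply ht
      rw [h1]
      exact htM
    have e3 : Nat.card M ≠ 32 := by
      intro h
      exact hMtop ((Subgroup.card_eq_iff_eq_top M).mp (by rw [h, hX]))
    rw [hZ] at d1
    rw [hX] at d3
    obtain ⟨k1, hk1⟩ := d1
    obtain ⟨k2, hk2⟩ := d2
    obtain ⟨k3, hk3⟩ := d3
    have hprod : k1 * k2 * k3 = 8 := by
      have : 32 = 4 * k1 * k2 * k3 := by rw [hk3, hk2, hk1]
      nlinarith
    have hk1pos : 0 < k1 := by
      rcases Nat.eq_zero_or_pos k1 with h | h
      · rw [h] at hprod; simp at hprod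
      · exact h
    have hk2pos : 0 < k2 := by
      rcases Nat.eq_zero_or_pos k2 with h | h
      · rw [h] at hprod; simp at hprod
      · exact h
    have hk3pos : 0 < k3 := by
      rcases Nat.eq_zero_or_pos k3 with h | h
      · rw [h] at hprod; simp at hprod
      · exact h
    have hk1le : k1 ≤ 8 := by nlinarith [Nat.mul_pos hk2pos hk3pos]
    have hk2le : k2 ≤ 8 := by nlinarith [Nat.mul_pos hk1pos hk3pos]
    have hM16 : Nat.card M = 16 := by
      interval_cases k1 <;> interval_cases k2 <;> omega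
    have h := Subgroup.card_mul_index M
    rw [hM16, hX] at h
    omega
  have hAinv : AInv A M := by
    intro φ hφ h hh
    have hmap : M.map (φ : X →* X) = M := by
      apply n3_unique hX hZ
      · rintro _ ⟨a, ha, rfl⟩ _ ⟨b, hb, rfl⟩
        rw [← map_mul, ← map_mul, hMab a ha b hb]
      · exact hMab
      · rw [Subgroup.index_map_equiv]; exact hMidx
      · exact hMidx
    rw [← hmap]
    exact Subgroup.mem_map_of_mem _ hh
  exact hIdx2 X A hyp M hAinv hMidx

example (hIdx2 : StIdx2.{u}) : StN3.{u} := n3 hIdx2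

end Cfsg.Agent.H70.Tg
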